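/-
P23: vectors with small stabilizers for solvable linear groups.  Interface (see plans/P23.md).
-/
import Cfsg.Agent.H5.KR4
import Cfsg.Agent.H1.Der

set_option autoImplicit false

namespace Cfsg.Agent.P23

open Subgroup Cfsg Cfsg.Agent Cfsg.Agent.FT Module
open Cfsg.Agent.H1 (der)
open Cfsg.Agent.H5 (IrrAct)
open Cfsg.Agent.H5.KRel (Fpf)

universe u v

/-- `Y` is a faithful irreducible group of automorphisms of an elementary abelian group of
order `q ^ n`. -/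
def Lin (q n : ℕ) (Y : Type u) [Group Y] : Prop :=
  ∃ (V : Type u) (_ : Group V) (φ : Y →* MulAut V), Function.Injective φ ∧ IrrAct φ ∧
    IsMulCommutative V ∧ (∀ v : V, v ^ q = 1) ∧ Nat.card V = q ^ n

/-- `c'` inequivalent colourings of `Ω` with `c` colours whose stabilizers have derived length
at most `δ` on `Ω`. -/
def ACol (G Ω : Type*) [Group G] [MulAction G Ω] (c c' δ : ℕ) : Prop :=
  ∃ f : Fin c' → Ω → Fin c, (∀ i j (g : G), (∀ x, f i (g • x) = f j x) → i = j) ∧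
    ∀ i (S : Subgroup G), (∀ s ∈ S, ∀ x, f i (s • x) = f i x) → ∀ g ∈ der S δ, ∀ x : Ω, g • x = x

/-- The same for the action of `L` on the cosets of `N`, inside an ambient group. -/
def Col {H : Type*} [Group H] (L N : Subgroup H) (c c' δ : ℕ) : Prop :=
  ∃ f : Fin c' → H → Fin c, (∀ i, ∀ x ∈ L, ∀ n ∈ N, f i (x * n) = f i x) ∧
    (∀ i j, ∀ g ∈ L, (∀ x ∈ L, f i (g * x) = f j x) → i = j) ∧
    ∀ i, ∀ S ≤ L, (∀ s ∈ S, ∀ x ∈ L, f i (s * x) = f i x) →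
      ∀ g ∈ der S δ, ∀ x ∈ L, x⁻¹ * g * x ∈ N

/-- `c` inequivalent vectors whose stabilizers have derived length at most `a`. -/
def Vec {Γ k W : Type*} [Group Γ] [Field k] [AddCommGroup W] [Module k W] (σ : Γ →* End k W)
    (c a : ℕ) : Prop :=
  ∃ w : Fin c → W, (∀ i j g, σ g (w i) = w j → i = j) ∧
    ∀ i (S : Subgroup Γ), (∀ s ∈ S, σ s (w i) = w i) → der S a = ⊥

/-- A primitive permutation group of affine type with point stabilizer `M`. -/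
structure Aff {G : Type u} [Group G] (M : Subgroup G) (q a : ℕ) : Prop where
  prime : q.Prime
  pos : 1 ≤ a
  idx : M.index = q ^ a
  core : M.normalCore = ⊥
  lin : Lin q a M
  der : ∀ n, der (⊤ : Subgroup M) n = ⊥ → der (⊤ : Subgroup G) (n + 1) = ⊥
  fix : ∀ g : G, g ≠ 1 → q * (MulAction.fixedBy (G ⧸ M) g).ncard ≤ q ^ a
  base : ∃ B : Finset (G ⧸ M), B.card ≤ a + 1 ∧ ∀ g : G, (∀ x ∈ B, g • x = x) → g = 1

/-- Derived length of solvable permutation groups of degree at most `16`. -/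
def pi (t : ℕ) : ℕ :=
  if t ≤ 1 then 0 else if t ≤ 2 then 1 else if t ≤ 3 then 2 else if t ≤ 7 then 3 else
  if t ≤ 8 then 4 else 6

/-- Chapter O. -/
def OStmt : Prop := ∀ (G : Type u) [Group G] [Finite G] [Group.IsSolvable G],
  Nat.card G ≤ 648 → der (⊤ : Subgroup G) 5 = ⊥

/-- Chapter Aff. -/
def AffStmt : Prop := ∀ (G : Type u) [Group G] [Finite G] [Group.IsSolvable G] (M : Subgroup G),
  IsCoatom M → M.normalCore = ⊥ → ∃ q a, Aff M q a

/-- Permutation groups of small degree. -/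
def PiStmt (k : ℕ) : Prop := ∀ (G : Type u) [Group G] [Finite G] [Group.IsSolvable G]
  (S N : Subgroup G) (t : ℕ), t ≤ k → N.relIndex S ≤ t → der S (pi t) ≤ N

/-- Order bounds used for colourings. -/
def OrdStmt : Prop := ∀ (Y : Type u) [Group Y] [Finite Y] [Group.IsSolvable Y],
  (∀ q n, q.Prime → Lin q n Y → Nat.card Y ≤ ∏ i ∈ Finset.range n, (q ^ n - q ^ i)) ∧
  (Lin 2 4 Y → Nat.card Y ≤ 72) ∧ (Lin 2 5 Y → Nat.card Y ≤ 155) ∧
  (Lin 2 6 Y → Nat.card Y ≤ 1296) ∧ (Lin 2 7 Y → Nat.card Y ≤ 5040) ∧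
  (Lin 2 8 Y → Nat.card Y ≤ 40320) ∧ (Lin 3 4 Y → Nat.card Y ≤ 5000) ∧
  (Odd (Nat.card Y) → (Lin 3 2 Y → Nat.card Y ≤ 1) ∧ (Lin 3 3 Y → Nat.card Y ≤ 78))

/-- Chapter C1: colourings for primitive groups. -/
def PrimColStmt : Prop := ∀ (G : Type u) [Group G] [Finite G] [Group.IsSolvable G]
  (M : Subgroup G) (q a : ℕ), Aff M q a →
    ACol G (G ⧸ M) 5 5 0 ∧ ACol G (G ⧸ M) 4 5 1 ∧ ACol G (G ⧸ M) 3 5 2 ∧
    (4 ≤ q ^ a → ACol G (G ⧸ M) 2 5 3) ∧ (q ^ a = 2 → ACol G (G ⧸ M) 2 3 1) ∧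
    (q ^ a = 3 → ACol G (G ⧸ M) 2 4 2) ∧ (Odd (Nat.card G) → ACol G (G ⧸ M) 2 2 0)

/-- Chapter C2: colourings for all solvable groups. -/
def ColStmt : Prop := ∀ (H : Type u) [Group H] [Finite H] [Group.IsSolvable H] (N : Subgroup H),
  Col ⊤ N 2 1 3 ∧ Col ⊤ N 5 1 0 ∧ (Odd (Nat.card H) → Col ⊤ N 2 1 0)

/-- Chapter P: the primitive case. -/
def PStmt : Prop := ∀ (p : ℕ) [Fact p.Prime] (Γ : Type u) (W : Type v) [Group Γ] [Finite Γ]
  [Group.IsSolvable Γ] [AddCommGroup W] [Module (ZMod p) W] [Finite W] [Nontrivial W]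
  (σ : Γ →* End (ZMod p) W), Fpf σ →
    (Vec σ 2 6 ∨ Vec σ 5 9) ∧ (Odd (Nat.card Γ) → p ≠ 2 → Vec σ 2 1)

end Cfsg.Agent.P23
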