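/-
P23: blocks and the assembly of the vector.
-/
import Cfsg.Agent.P23.Defs

set_option autoImplicit false
set_option linter.style.haveILetI false

namespace Cfsg.Agent.P23

open Subgroup Cfsg Cfsg.Agent Cfsg.Agent.FT Module Cfsg.Agent.H7.Hk
open Cfsg.Agent.H1 (der map_der der_add der_mono der_le der_anti)
open Cfsg.Agent.H5.KRel (Fpf)
open Cfsg.Agent.H9 (fixer mem_fixer rep_mul_apply rep_inv_apply rep_apply_inv)
open scoped commutatorElement

universe u v

section Der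

variable {H : Type*} [Group H]

theorem der_conj (A : Subgroup H) (g : H) (n : ℕ) : der (A ^ᵍ g) n = der A n ^ᵍ g :=
  (map_der _ A n).symm

theorem der_sub {A N : Subgroup H} (h : A ≤ N) (n : ℕ) :
    (der (A.subgroupOf N) n).map N.subtype = der A n := by
  rw [map_der, subgroupOf_map_subtype, inf_eq_left.2 h]

theorem der_le_of_quot {K : Subgroup H} [K.Normal] {n : ℕ}
    (h : der (⊤ : Subgroup (H ⧸ K)) n = ⊥) : der ⊤ n ≤ K := by
  refine le_trans ((H1.der_le_ker_iff (QuotientGroup.mk' K) ⊤ n).2 ?_) (QuotientGroup.ker_mk' K).le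
  exact eq_bot_iff.2 (h ▸ der_mono le_top n)

theorem der_normal (n : ℕ) : (der (⊤ : Subgroup H) n).Normal := by
  rw [H1.der_top]; infer_instance

theorem der_le_core {Γ : Type*} [Group Γ] {N T : Subgroup H} (π : N →* Γ) {a : ℕ}
    (hT : ∀ x, T ^ᵍ x ≤ N) (h : ∀ x, der (((T ^ᵍ x).subgroupOf N).map π) a = ⊥) :
    der T a ≤ (π.ker.map N.subtype).normalCore := fun g hg x => by
  have h1 := conj_mem_conj hg x
  rw [← der_conj, ← der_sub (hT x)] at h1
  exact map_mono ((H1.der_le_ker_iff π _ a).2 (h x)) h1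

end Der

theorem indep {k H V : Type*} [Field k] [Group H] [Finite H] [AddCommGroup V] [Module k V]
    [FiniteDimensional k V] (ρ : H →* End k V)
    (irr : ∀ W : Submodule k V, (∀ h, ∀ w ∈ W, ρ h w ∈ W) → W = ⊥ ∨ W = ⊤) {N : Subgroup H}
    {W : Submodule k V} (W0 : W ≠ ⊥) (hN : ∀ g ∈ N, ∀ w ∈ W, ρ g w ∈ W)
    (hd : N.index * finrank k W ≤ finrank k V) : N.index * finrank k W = finrank k V ∧
      ∀ f : H ⧸ N → W, ∃ v : V, ∀ h, ρ h v = v → ∀ q : H ⧸ N,
        ρ ((h • q).out⁻¹ * h * q.out) (f q) = f (h • q) := by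
  classical
  let _ := Fintype.ofFinite (H ⧸ N)
  let L : (H ⧸ N → W) →ₗ[k] V := ∑ q : H ⧸ N, (ρ q.out).comp (W.subtype.comp (LinearMap.proj q))
  have hL : ∀ f, L f = ∑ q : H ⧸ N, ρ q.out (f q) := fun f => by simp [L]
  have mem : ∀ (h : H) (q : H ⧸ N), (h • q).out⁻¹ * h * q.out ∈ N := fun h q => by
    rw [mul_assoc, ← QuotientGroup.eq, QuotientGroup.out_eq', ← smul_eq_mul,
      ← MulAction.Quotient.smul_mk, QuotientGroup.out_eq']
  have act : ∀ h f, ∃ f' : H ⧸ N → W, ρ h (L f) = L f' ∧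
      ∀ q, ρ ((h • q).out⁻¹ * h * q.out) (f q) = f' (h • q) := fun h f => by
    refine ⟨fun q => ⟨_, hN _ (mem h (h⁻¹ • q)) _ (f (h⁻¹ • q)).2⟩, ?_, fun q => by simp⟩
    rw [hL, hL, map_sum]
    refine Fintype.sum_equiv (MulAction.toPerm h) _ _ fun q => ?_
    simp only [MulAction.toPerm_apply, inv_smul_smul, smul_inv_smul, ← rep_mul_apply]
    congr 2
    group
  have hr := (irr (LinearMap.range L) (by
    rintro h _ ⟨f, rfl⟩
    obtain ⟨f', e, -⟩ := act h f
    exact ⟨f', e.symm⟩)).resolve_left fun e => by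
      obtain ⟨w, hw, w0⟩ := (Submodule.ne_bot_iff W).1 W0
      have h1 : L (Pi.single ((1 : H) : H ⧸ N) ⟨w, hw⟩) = 0 :=
        (Submodule.mem_bot k).1 (e ▸ LinearMap.mem_range_self L _)
      rw [hL, Finset.sum_eq_single ((1 : H) : H ⧸ N) (fun q _ hq => by simp [hq]) (by simp),
        Pi.single_eq_same] at h1
      exact w0 (H9.rep_eq_zero ρ _ h1)
  have h1 := LinearMap.finrank_range_add_finrank_ker L
  rw [hr, finrank_top, Module.finrank_pi_fintype, Finset.sum_const, smul_eq_mul, Finset.card_univ,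
    ← Nat.card_eq_fintype_card, ← index_eq_card] at h1
  have h2 : LinearMap.ker L = ⊥ := Submodule.finrank_eq_zero.1 (by omega)
  refine ⟨by omega, fun f => ⟨L f, fun h e q => ?_⟩⟩
  obtain ⟨f', e1, e2⟩ := act h f
  rw [e2, LinearMap.ker_eq_bot.1 h2 (e1.symm.trans e)]

theorem blocks2 {k : Type*} [Field k] {H : Type u} {V : Type*} [Group H] [Finite H]
    [AddCommGroup V] [Module k V] [FiniteDimensional k V] [Nontrivial V] (ρ : H →* End k V)
    (irr : ∀ W : Submodule k V, (∀ h, ∀ w ∈ W, ρ h w ∈ W) → W = ⊥ ∨ W = ⊤) :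
    ∃ (N : Subgroup H) (Γ : Type u) (_ : Group Γ) (_ : Finite Γ) (π : N →* Γ) (W : Submodule k V)
      (σ : Γ →* End k W), Function.Surjective π ∧ W ≠ ⊥ ∧ N.index * finrank k W = finrank k V ∧
      (π.ker.map N.subtype).normalCore ≤ ρ.ker ∧ Fpf σ ∧ (∀ g w, (σ (π g) w : V) = ρ g w) ∧
      ∀ f : H ⧸ N → W, ∃ v : V, ∀ h, ρ h v = v → ∀ q : H ⧸ N,
        ρ ((h • q).out⁻¹ * h * q.out) (f q) = f (h • q) := by
  obtain ⟨W, W0, hW, h⟩ := exists_block ρ
  let N := stab ρ W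
  let τ : N →* End k W :=
    { toFun := fun g => (ρ g).restrict fun v hv => (g.2 v).1 hv
      map_one' := by ext w; simp
      map_mul' := fun a b => by ext w; exact rep_mul_apply ρ a b w }
  let π := QuotientGroup.mk' τ.ker
  have hπ : ∀ g : N, π g = 1 ↔ (g : H) ∈ fixer ρ W := fun g =>
    (QuotientGroup.eq_one_iff g).trans ⟨fun e v hv => congrArg Subtype.val (LinearMap.congr_fun
      (MonoidHom.mem_ker.1 e) ⟨v, hv⟩),
    fun e => MonoidHom.mem_ker.2 (LinearMap.ext fun w => Subtype.ext (e w w.2))⟩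
  have hs : Function.Surjective π := QuotientGroup.mk'_surjective _
  obtain ⟨i1, i2⟩ := indep ρ irr W0 (fun g hg w hw => (hg w).1 hw) hW
  refine ⟨N, _, inferInstance, inferInstance, π, W, QuotientGroup.lift _ τ le_rfl, hs, W0, i1,
    fun g hg => ?_, fun A hA hc d hd u u0 e => ?_, fun _ _ => rfl, i2⟩
  · let U : Submodule k V :=
      { carrier := {v | ∀ x ∈ (π.ker.map N.subtype).normalCore, ρ x v = v}
        zero_mem' := by simp
        add_mem' := fun ha hb x hx => by rw [map_add, ha x hx, hb x hx]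
        smul_mem' := fun c _ ha x hx => by rw [map_smul, ha x hx] }
    have h1 : W ≤ U := fun w hw x hx => by
      obtain ⟨y, hy, rfl⟩ := normalCore_le _ hx
      exact (hπ y).1 hy w hw
    have h2 := (irr U fun a v hv x hx => by
      have := hv _ (Normal.conj_mem' inferInstance x hx a)
      rw [rep_mul_apply, rep_mul_apply] at this
      rw [← rep_apply_inv ρ a (ρ x _), this]).resolve_left fun e => W0 (eq_bot_iff.2 (e ▸ h1))
    exact MonoidHom.mem_ker.2 (LinearMap.ext fun v => (h2.ge Submodule.mem_top : v ∈ U) g hg)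
  · obtain ⟨g, rfl⟩ := hs d
    refine (hπ g).2 (h ((A.comap π).map N.subtype) (map_subtype_le _)
      (fun x hx => mem_norm_of_conj_le ?_) (commutator_le.2 ?_) g (mem_map_of_mem _ hd) u u.2
      (fun e => u0 (Subtype.ext e)) (congrArg Subtype.val e))
    · intro y hy
      obtain ⟨_, ⟨a, ha, rfl⟩, rfl⟩ := mem_conj'.1 hy
      exact ⟨⟨x, hx⟩ * a * ⟨x, hx⟩⁻¹, (hA.comap π).conj_mem a ha _, rfl⟩
    · rintro _ ⟨a, ha, rfl⟩ _ ⟨b, hb, rfl⟩
      refine (hπ ⁅a, b⁆).1 ?_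
      rw [map_commutatorElement, commutatorElement_eq_one_iff_mul_comm]
      exact mem_cent.1 (hc hb) _ ha

variable {k : Type*} [Field k] {G : Type u} [Group G] [Finite G]

/-- The vector for an irreducible module. -/
theorem irred {V : Type v} [AddCommGroup V] [Module k V] [Finite V] [Nontrivial V]
    (ρ : G →* End k V) (irr : ∀ W : Submodule k V, (∀ h, ∀ w ∈ W, ρ h w ∈ W) → W = ⊥ ∨ W = ⊤)
    {D : ℕ} (hP : ∀ (N : Subgroup G) (Γ : Type u) (W : Type v) [Group Γ] [Finite Γ] [AddCommGroup W]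
      [Module k W] [Finite W] [Nontrivial W] (π : N →* Γ) (σ : Γ →* End k W),
      Function.Surjective π → Fpf σ → ∃ c a δ, δ + a = D ∧ Vec σ c a ∧ Col ⊤ N c 1 δ) :
    ∃ v : V, ∀ S : Subgroup G, (∀ s ∈ S, ρ s v = v) → der S D ≤ ρ.ker := by
  obtain ⟨N, Γ, _, _, π, W, σ, hs, W0, -, hk, hf, hσ, hv⟩ := blocks2 ρ irr
  have : Nontrivial W := Submodule.nontrivial_iff_ne_bot.2 W0
  obtain ⟨c, a, δ, rfl, ⟨w, w1, w2⟩, F, F1, -, F2⟩ := hP N Γ W π σ hs hf
  obtain ⟨v, hv⟩ := hv fun q => w (F 0 q.out)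
  have out : ∀ x : G, F 0 (x : G ⧸ N).out = F 0 x := fun x => by
    obtain ⟨n, e⟩ := QuotientGroup.mk_out_eq_mul N x
    rw [e, F1 0 x (mem_top _) n n.2]
  refine ⟨v, fun S hS => ?_⟩
  have mem : ∀ (h : G) (q : G ⧸ N), (h • q).out⁻¹ * h * q.out ∈ N := fun h q => by
    rw [mul_assoc, ← QuotientGroup.eq, QuotientGroup.out_eq', ← smul_eq_mul,
      ← MulAction.Quotient.smul_mk, QuotientGroup.out_eq']
  have h1 := F2 0 S le_top fun s hs x _ => by
    have := w1 _ _ (π ⟨_, mem s x⟩) (Subtype.ext ((hσ _ _).trans (hv s (hS s hs) x)))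
    rwa [out, MulAction.Quotient.smul_mk, out, eq_comm] at this
  have h2 : ∀ x, der S δ ^ᵍ x ≤ N := fun x g hg => by
    obtain ⟨t, ht, rfl⟩ := mem_conj'.1 hg
    simpa using h1 t ht x⁻¹ (mem_top _)
  rw [der_add]
  refine (der_le_core π h2 fun x => ?_).trans hk
  obtain ⟨n, e⟩ := QuotientGroup.mk_out_eq_mul N x⁻¹
  rw [← conj_eq_bot_iff (g := π n⁻¹), ← der_conj]
  refine w2 (F 0 ((x⁻¹ : G) : G ⧸ N).out) _ fun s hs => ?_
  obtain ⟨_, ⟨g, hg, rfl⟩, rfl⟩ := mem_conj'.1 hs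
  obtain ⟨t, ht, e1⟩ := mem_conj'.1 (mem_subgroupOf.1 hg)
  have h3 := hv t (hS t (der_le _ _ ht)) (x⁻¹ : G)
  have h4 : t • ((x⁻¹ : G) : G ⧸ N) = (x⁻¹ : G) := by
    rw [MulAction.Quotient.smul_mk, eq_comm, QuotientGroup.eq, smul_eq_mul, ← mul_assoc]
    exact h1 t ht _ (mem_top _)
  rw [h4] at h3
  refine Subtype.ext ?_
  rw [← map_inv, ← map_mul, ← map_mul, hσ]
  refine Eq.trans ?_ h3
  congr 2
  simp only [coe_mul, InvMemClass.coe_inv, ← e1, e]
  group

/-- The vector for a completely reducible module. -/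
theorem assemble {V : Type v} [AddCommGroup V] [Module k V] [Finite V] (ρ : G →* End k V)
    (hcr : ∀ W : Submodule k V, (∀ g, ∀ w ∈ W, ρ g w ∈ W) →
      ∃ W' : Submodule k V, (∀ g, ∀ w ∈ W', ρ g w ∈ W') ∧ IsCompl W W')
    {D : ℕ} (hP : ∀ (N : Subgroup G) (Γ : Type u) (W : Type v) [Group Γ] [Finite Γ] [AddCommGroup W]
      [Module k W] [Finite W] [Nontrivial W] (π : N →* Γ) (σ : Γ →* End k W),
      Function.Surjective π → Fpf σ → ∃ c a δ, δ + a = D ∧ Vec σ c a ∧ Col ⊤ N c 1 δ)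
    (U : Submodule k V) : (∀ g, ∀ w ∈ U, ρ g w ∈ U) → ∃ v ∈ U, ∀ S : Subgroup G,
      (∀ s ∈ S, ρ s v = v) → ∀ g ∈ der S D, ∀ u ∈ U, ρ g u = u := by
  induction U using WellFoundedLT.induction with
  | _ U ih =>
  intro hU
  by_cases h : ∀ U1 < U, (∀ g, ∀ w ∈ U1, ρ g w ∈ U1) → U1 = ⊥
  · by_cases U0 : U = ⊥
    · exact ⟨0, U.zero_mem, fun _ _ g _ u hu => by
        rw [show u = 0 from (Submodule.mem_bot k).1 (U0 ▸ hu), map_zero]⟩
    have : Nontrivial U := Submodule.nontrivial_iff_ne_bot.2 U0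
    let τ : G →* End k U :=
      { toFun := fun g => (ρ g).restrict (hU g)
        map_one' := by ext w; simp
        map_mul' := fun a b => by ext w; exact rep_mul_apply ρ a b w }
    obtain ⟨v, hv⟩ := irred τ (fun W hW => by
      by_cases e : W = ⊤
      · exact .inr e
      refine .inl (Submodule.map_injective_of_injective U.injective_subtype ((h _
        (lt_of_le_of_ne (U.map_subtype_le W) fun e' => e (Submodule.map_injective_of_injective
          U.injective_subtype (e'.trans (Submodule.map_subtype_top U).symm))) ?_).trans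
          (Submodule.map_bot _).symm))
      rintro g _ ⟨w, hw, rfl⟩
      exact ⟨_, hW g w hw, rfl⟩) hP
    exact ⟨v, v.2, fun S hS g hg u hu => congrArg Subtype.val (LinearMap.congr_fun
      (MonoidHom.mem_ker.1 (hv S (fun s hs => Subtype.ext (hS s hs)) hg)) ⟨u, hu⟩)⟩
  push Not at h
  obtain ⟨U1, l1, i1, n1⟩ := h
  obtain ⟨W', i2, c⟩ := hcr U1 i1
  obtain ⟨v1, a1, b1⟩ := ih U1 l1 i1
  obtain ⟨v2, a2, b2⟩ := ih (W' ⊓ U) (lt_of_le_of_ne inf_le_right fun e =>
    n1 (c.disjoint.eq_bot_of_le (l1.le.trans (e.ge.trans inf_le_left))))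
    fun g w hw => ⟨i2 g w hw.1, hU g w hw.2⟩
  refine ⟨v1 + v2, U.add_mem (l1.le a1) a2.2, fun S hS g hg u hu => ?_⟩
  have key : ∀ s ∈ S, ρ s v1 = v1 ∧ ρ s v2 = v2 := fun s hs => by
    have e := hS s hs
    rw [map_add] at e
    have e1 : ρ s v1 - v1 = v2 - ρ s v2 := by linear_combination (norm := module) e
    have e2 : ρ s v1 - v1 = 0 := (Submodule.disjoint_def.1 c.disjoint) _
      (U1.sub_mem (i1 s _ a1) a1) (e1 ▸ W'.sub_mem a2.1 (i2 s _ a2.1))
    exact ⟨sub_eq_zero.1 e2, (sub_eq_zero.1 (e1 ▸ e2)).symm⟩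
  have h3 : u ∈ U1 ⊔ W' ⊓ U := by
    rw [← sup_inf_assoc_of_le _ l1.le, c.sup_eq_top, top_inf_eq]; exact hu
  obtain ⟨x, hx, y, hy, rfl⟩ := Submodule.mem_sup.1 h3
  rw [map_add, b1 S (fun s hs => (key s hs).1) g hg x hx, b2 S (fun s hs => (key s hs).2) g hg y hy]

end Cfsg.Agent.P23
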