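/-
P23: primitive solvable permutation groups are of affine type; permutation groups of small degree.
-/
import Cfsg.Agent.P23.Blk
import Cfsg.Agent.L.MinNormal

set_option autoImplicit false

namespace Cfsg.Agent.P23

open Subgroup Cfsg Cfsg.Agent
open Cfsg.Agent.H1 (der map_der der_add der_mono der_le der_anti der_succ)

universe u

namespace AffC

variable {G : Type*} [Group G]

theorem mul_card_le [Finite G] {q a : ℕ} (hq : q.Prime) {H K V : Subgroup G} (h : H < K)
    (hK : K ≤ V) (hV : Nat.card V = q ^ a) : q * Nat.card H ≤ Nat.card K := by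
  obtain ⟨j, -, hj⟩ := (Nat.dvd_prime_pow hq).1 (hV ▸ Subgroup.card_dvd_of_le hK)
  obtain ⟨i, -, hi⟩ := (Nat.dvd_prime_pow hq).1 (hV ▸ Subgroup.card_dvd_of_le (h.le.trans hK))
  have := L.card_lt_of_lt h
  rw [hi, hj] at this ⊢
  rw [← pow_succ']
  exact Nat.pow_le_pow_right hq.pos ((Nat.pow_lt_pow_iff_right hq.one_lt).1 this)

theorem exists_gens [Finite G] {q a : ℕ} (hq : q.Prime) {V : Subgroup G}
    (hV : Nat.card V = q ^ a) :
    ∃ s : Finset G, s.card ≤ a ∧ (∀ x ∈ s, x ∈ V) ∧ closure (s : Set G) = V := by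
  classical
  have key : ∀ k, ∃ s : Finset G, s.card ≤ k ∧ (∀ x ∈ s, x ∈ V) ∧
      (closure (s : Set G) = V ∨ q ^ k ≤ Nat.card (closure (s : Set G))) := by
    intro k
    induction k with
    | zero => exact ⟨∅, le_rfl, by simp, Or.inr (by simp)⟩
    | succ k ih =>
      obtain ⟨s, h1, h2, h3⟩ := ih
      by_cases h : closure (s : Set G) = V
      · exact ⟨s, by omega, h2, Or.inl h⟩
      have hle : closure (s : Set G) ≤ V := (closure_le _).2 fun x hx => h2 x hx
      obtain ⟨v, hv, hv'⟩ := SetLike.exists_of_lt (lt_of_le_of_ne hle h)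
      have h4 : ∀ x ∈ insert v s, x ∈ V := fun x hx => by
        rcases Finset.mem_insert.1 hx with rfl | hx
        exacts [hv, h2 x hx]
      refine ⟨insert v s, (Finset.card_insert_le _ _).trans (by omega), h4, Or.inr ?_⟩
      have hlt : closure (s : Set G) < closure ((insert v s : Finset G) : Set G) :=
        lt_of_le_of_ne (closure_mono (by simp)) fun e => hv' (e ▸ subset_closure (by simp))
      have := mul_card_le hq hlt ((closure_le _).2 fun x hx => h4 x hx) hV
      rw [pow_succ']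
      exact (Nat.mul_le_mul_left _ (h3.resolve_left h)).trans this
  obtain ⟨s, h1, h2, h3⟩ := key a
  refine ⟨s, h1, h2, h3.elim id fun h => ?_⟩
  exact Subgroup.eq_of_le_of_card_ge ((closure_le _).2 fun x hx => h2 x hx) (hV ▸ h)

/-- Passing to the quotient by the core of a maximal subgroup. -/
theorem quot_core {M : Subgroup G} (hM : IsCoatom M) :
    IsCoatom (M.map (QuotientGroup.mk' M.normalCore)) ∧
      (M.map (QuotientGroup.mk' M.normalCore)).normalCore = ⊥ ∧
      (M.map (QuotientGroup.mk' M.normalCore)).comap (QuotientGroup.mk' M.normalCore) = M := by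
  set π := QuotientGroup.mk' M.normalCore with hπd
  have hπ : Function.Surjective π := QuotientGroup.mk'_surjective _
  have hk : π.ker ≤ M := by rw [hπd, QuotientGroup.ker_mk']; exact normalCore_le M
  have hcm : (M.map π).comap π = M := by rw [comap_map_eq, sup_eq_left.2 hk]
  refine ⟨⟨fun h => hM.1 (by rw [← hcm, h, comap_top]), fun X hX => ?_⟩, ?_, hcm⟩
  · have h2 : M < X.comap π := by
      refine lt_of_le_of_ne (map_le_iff_le_comap.1 hX.le) fun h => hX.ne ?_
      exact (congrArg (Subgroup.map π) h).trans (map_comap_eq_self_of_surjective hπ X)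
    have := hM.2 _ h2
    rw [← map_comap_eq_self_of_surjective hπ X, this, map_top_of_surjective _ hπ]
  · have h3 : (M.map π).normalCore.comap π ≤ M.normalCore :=
      normal_le_normalCore.2 ((comap_mono (normalCore_le _)).trans hcm.le)
    rw [← map_comap_eq_self_of_surjective hπ (M.map π).normalCore, Subgroup.map_eq_bot_iff, hπd,
      QuotientGroup.ker_mk']
    exact h3

theorem coatom_of_covBy {N M : Subgroup G} (h : N ⋖ M) : IsCoatom (N.subgroupOf M) := by
  refine ⟨fun e => h.lt.not_ge (subgroupOf_eq_top.1 e), fun X hX => ?_⟩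
  have h1 : N < X.map M.subtype := by
    have := (map_subtype_lt_map_subtype (G' := M)).2 hX
    rwa [subgroupOf_map_subtype, inf_eq_left.2 h.le] at this
  have h2 : X.map M.subtype = M := by
    by_contra e
    exact h.2 h1 (lt_of_le_of_ne (map_subtype_le X) e)
  refine map_injective M.subtype_injective ?_
  rw [h2, ← MonoidHom.range_eq_map, range_subtype]

end AffC

open AffC in
theorem affStmt : AffStmt.{u} := by
  classical
  intro G _ _ _ M hM hc
  have hnt : Nontrivial G := by
    by_contra h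
    have := not_nontrivial_iff_subsingleton.1 h
    exact hM.1 (Subsingleton.elim _ _)
  obtain ⟨V, q, hV, hq, hE⟩ := L.exists_isMinNormal_isElementaryAbelian (G := G)
  have hVn := hV.1
  have := Fact.mk hq
  have hcore : ∀ X : Subgroup G, X.Normal → X ≤ M → X = ⊥ := fun X hX h =>
    le_bot_iff.1 (hc ▸ normal_le_normalCore.2 h)
  have hsup : M ⊔ V = ⊤ := by
    refine hM.2 _ (left_lt_sup.2 fun h => hV.2.1 (hcore V hVn h))
  have hdec : ∀ g : G, ∃ m ∈ M, ∃ v ∈ V, m * v = g := fun g => by
    have : g ∈ ((M ⊔ V : Subgroup G) : Set G) := by rw [hsup]; trivial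
    rw [mul_normal] at this
    obtain ⟨m, hm, v, hv, h⟩ := this
    exact ⟨m, hm, v, hv, h⟩
  have hcomm : ∀ a ∈ V, ∀ b ∈ V, a * b = b * a := fun a ha b hb =>
    congrArg Subtype.val (hE.1.is_comm.comm (⟨a, ha⟩ : V) ⟨b, hb⟩)
  have hC : M ⊓ centralizer (V : Set G) = ⊥ := by
    refine hcore _ ⟨fun x hx g => ?_⟩ inf_le_left
    obtain ⟨m, hm, v, hv, rfl⟩ := hdec g
    have h1 : v * x = x * v := hx.2 v hv
    have h2 : m * v * x * (m * v)⁻¹ = m * x * m⁻¹ := by
      rw [mul_assoc m v x, h1]; group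
    rw [h2]
    exact ⟨M.mul_mem (M.mul_mem hm hx.1) (M.inv_mem hm),
      (inferInstance : (centralizer (V : Set G)).Normal).conj_mem x hx.2 m⟩
  have hI : M ⊓ V = ⊥ := by
    refine le_bot_iff.1 (hC ▸ inf_le_inf_left _ fun x hx y hy => hcomm y hy x hx)
  have hcompl : IsComplement' M V := isComplement'_of_disjoint_and_mul_eq_univ
    (disjoint_iff.2 hI) (by rw [← mul_normal, hsup]; rfl)
  obtain ⟨a, ha⟩ := IsPGroup.iff_card.1 (L.IsElementaryAbelian.isPGroup hE)
  -- `V` is regular on the cosets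
  have reg1 : ∀ (x : G ⧸ M), ∀ v ∈ V, v • x = x → v = 1 := fun x v hv h => by
    obtain ⟨y, rfl⟩ := QuotientGroup.mk_surjective x
    rw [MulAction.Quotient.smul_mk, QuotientGroup.eq, smul_eq_mul] at h
    have h1 : (v * y)⁻¹ * y ∈ M ⊓ V := ⟨h, by
      have := hVn.conj_mem _ (V.inv_mem hv) y⁻¹
      simpa [mul_assoc] using this⟩
    rw [hI, mem_bot] at h1
    have : v = y * ((v * y)⁻¹ * y)⁻¹ * y⁻¹ := by group
    rw [this, h1]; simp
  have reg2 : ∀ (x y : G ⧸ M), ∃ v ∈ V, v • x = y := fun x y => by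
    obtain ⟨x, rfl⟩ := QuotientGroup.mk_surjective x
    obtain ⟨y, rfl⟩ := QuotientGroup.mk_surjective y
    obtain ⟨m, hm, v, hv, h⟩ := hdec (y⁻¹ * x)
    refine ⟨x * v⁻¹ * x⁻¹, hVn.conj_mem _ (V.inv_mem hv) x, ?_⟩
    rw [MulAction.Quotient.smul_mk, eq_comm, QuotientGroup.eq, smul_eq_mul]
    have : y⁻¹ * (x * v⁻¹ * x⁻¹ * x) = m := by
      rw [show y⁻¹ * (x * v⁻¹ * x⁻¹ * x) = y⁻¹ * x * v⁻¹ by group, ← h]; group
    rwa [this]
  have fx : ∀ (g : G) (x : G ⧸ M), g • x = x → ∀ v ∈ V, (g • v • x = v • x ↔ v * g = g * v) :=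
    fun g x hx v hv => by
    have e : g • v • x = (g * v * g⁻¹) • x := by
      conv_rhs => rw [← hx]
      rw [smul_smul, smul_smul]; congr 1; group
    rw [e]
    constructor
    · intro h
      have := reg1 x (v⁻¹ * (g * v * g⁻¹)) (V.mul_mem (V.inv_mem hv) (hVn.conj_mem _ hv g))
        (by rw [mul_smul, h, inv_smul_smul])
      calc v * g = v * (v⁻¹ * (g * v * g⁻¹)) * g := by rw [this, mul_one]
        _ = g * v := by group
    · intro h
      rw [← h, mul_inv_cancel_right]
  have triv : ∀ (g : G) (x : G ⧸ M), g • x = x → (∀ v ∈ V, v * g = g * v) → g = 1 :=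
    fun g x hx h => by
    have : g ∈ M.normalCore := by
      rw [normalCore_eq_ker, MonoidHom.mem_ker]
      ext y
      obtain ⟨v, hv, rfl⟩ := reg2 x y
      exact (fx g x hx v hv).2 (h v hv)
    rwa [hc, mem_bot] at this
  refine ⟨q, a, hq, ?_, by rw [← ha]; exact hcompl.symm.index_eq_card, hc,
    ⟨V, inferInstance, (MulAut.conjNormal (H := V)).comp M.subtype, ?_, ?_, hE.1,
      fun w => Subtype.ext (hE.2 w w.2), ha⟩, fun n hn => ?_, fun g hg => ?_, ?_⟩
  · by_contra h
    have : a = 0 := by omega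
    rw [this, pow_zero] at ha
    exact hV.2.1 (card_eq_one.1 ha)
  · rw [injective_iff_map_eq_one]
    intro x hx
    refine Subtype.ext (triv x ((1 : G) : G ⧸ M) ?_ fun y hy => ?_)
    · rw [MulAction.Quotient.smul_mk, QuotientGroup.eq]; simp
    · have := congrArg Subtype.val (DFunLike.congr_fun hx ⟨y, hy⟩)
      simp only [MonoidHom.comp_apply, coe_subtype, MulAut.conjNormal_apply,
        MulAut.one_apply] at this
      calc y * x = (x * y * (x : G)⁻¹) * x := by rw [this]
        _ = x * y := by group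
  · intro U hU
    have hn : (U.map V.subtype).Normal := ⟨fun x hx g => by
      obtain ⟨m, hm, v, hv, rfl⟩ := hdec g
      obtain ⟨u, hu, rfl⟩ := hx
      refine ⟨_, hU ⟨m, hm⟩ u hu, ?_⟩
      simp only [MonoidHom.comp_apply, coe_subtype, MulAut.conjNormal_apply]
      rw [mul_assoc m v, hcomm v hv u u.2]; group⟩
    rcases hV.2.2 _ hn (map_subtype_le U) with h | h
    · exact Or.inl ((map_eq_bot_iff_of_injective _ V.subtype_injective).1 h)
    · refine Or.inr (map_injective V.subtype_injective ?_)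
      rw [h, ← MonoidHom.range_eq_map, range_subtype]
  · have h1 : der M n = ⊥ := by
      rw [← der_sub (le_refl M), subgroupOf_self, hn, Subgroup.map_bot]
    have h2 : der (⊤ : Subgroup G) n ≤ V := by
      refine le_trans ((H1.der_le_ker_iff (QuotientGroup.mk' V) ⊤ n).2 ?_)
        (QuotientGroup.ker_mk' V).le
      have : (⊤ : Subgroup G).map (QuotientGroup.mk' V) = M.map (QuotientGroup.mk' V) := by
        rw [← hsup, Subgroup.map_sup, (Subgroup.map_eq_bot_iff V).2 (QuotientGroup.ker_mk' V).ge,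
          sup_bot_eq]
      rw [this, ← map_der, h1, Subgroup.map_bot]
    rw [der_succ, eq_bot_iff]
    refine (commutator_mono h2 h2).trans ?_
    rw [le_bot_iff, commutator_eq_bot_iff_le_centralizer]
    exact fun x hx y hy => hcomm y hy x hx
  · rcases (MulAction.fixedBy (G ⧸ M) g).eq_empty_or_nonempty with h | ⟨x, hx⟩
    · simp [h]
    have hlt : V ⊓ centralizer {g} < V := by
      refine lt_of_le_of_ne inf_le_left fun e => hg (triv g x hx fun v hv => ?_)
      exact (mem_centralizer_singleton_iff.1 (e.ge hv).2)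
    refine le_trans (Nat.mul_le_mul_left _ ?_) (ha ▸ mul_card_le hq hlt le_rfl ha)
    have : MulAction.fixedBy (G ⧸ M) g ⊆
        (fun v : G => v • x) '' ((V ⊓ centralizer {g} : Subgroup G) : Set G) := fun y hy => by
      obtain ⟨v, hv, rfl⟩ := reg2 x y
      exact ⟨v, ⟨hv, mem_centralizer_singleton_iff.2 ((fx g x hx v hv).1 hy)⟩, rfl⟩
    exact (Set.ncard_le_ncard this (Set.toFinite _)).trans (Set.ncard_image_le (Set.toFinite _))
  · obtain ⟨s, h1, h2, h3⟩ := exists_gens hq ha
    let x : G ⧸ M := ((1 : G) : G ⧸ M)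
    refine ⟨insert x (s.image fun v => v • x), (Finset.card_insert_le _ _).trans
      (Nat.succ_le_succ (Finset.card_image_le.trans h1)), fun g hg => ?_⟩
    have hx : g • x = x := hg x (Finset.mem_insert_self _ _)
    refine triv g x hx fun v hv => ?_
    have : V ≤ centralizer {g} := by
      rw [← h3, closure_le]
      intro w hw
      exact mem_centralizer_singleton_iff.2 ((fx g x hx w (h2 w hw)).1
        (hg _ (Finset.mem_insert_of_mem (Finset.mem_image_of_mem _ hw))))
    exact mem_centralizer_singleton_iff.1 (this hv)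

theorem pi_add : ∀ t ≤ 16, ∀ d ≤ 16, ∀ b ≤ 16, 2 ≤ d → 1 ≤ b → b * d ≤ t →
    pi d + pi b ≤ pi t ∧ 1 ≤ pi d := by
  have : ∀ t d b : Fin 17, 2 ≤ d.1 ∧ 1 ≤ b.1 ∧ b.1 * d.1 ≤ t.1 →
      pi d + pi b ≤ pi t ∧ 1 ≤ pi d := by decide +kernel
  intro t ht d hd b hb h1 h2 h3
  exact this ⟨t, by omega⟩ ⟨d, by omega⟩ ⟨b, by omega⟩ ⟨h1, h2, h3⟩

theorem piGen (Af : AffStmt.{u}) {k : ℕ} (hk : k ≤ 16)
    (h : ∀ (q a : ℕ) (Y : Type u) [Group Y] [Finite Y] [Group.IsSolvable Y], q.Prime → 1 ≤ a →
      q ^ a ≤ k → Lin q a Y → der (⊤ : Subgroup Y) (pi (q ^ a) - 1) = ⊥) : PiStmt.{u} k := by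
  have key : ∀ t, t ≤ k → ∀ (G : Type u) [Group G] [Finite G] [Group.IsSolvable G]
      (S N : Subgroup G), N.relIndex S ≤ t → der S (pi t) ≤ N := by
    intro t
    induction t using Nat.strong_induction_on with
    | _ t ih =>
    intro ht G _ _ _ S N hN
    rcases eq_top_or_exists_le_coatom (N.subgroupOf S) with e | ⟨M, hM, hNM⟩
    · exact (der_le _ _).trans (subgroupOf_eq_top.1 e)
    have hMi : 2 ≤ M.index := by
      have h1 : M.index ≠ 0 := index_ne_zero_of_finite
      have h2 : M.index ≠ 1 := fun h => hM.1 (index_eq_one.1 h)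
      omega
    have hmul : (N.subgroupOf S).relIndex M * M.index ≤ t := (relIndex_mul_index hNM).le.trans hN
    have hb0 : (N.subgroupOf S).relIndex M ≠ 0 := index_ne_zero_of_finite
    have hb1 : (N.subgroupOf S).relIndex M < t := by nlinarith [Nat.pos_of_ne_zero hb0]
    have hd1 : M.index ≤ t := by nlinarith [Nat.pos_of_ne_zero hb0]
    obtain ⟨p1, p2⟩ := pi_add t (by omega) M.index (by omega) _ (by omega) hMi
      (Nat.pos_of_ne_zero hb0) hmul
    have h1 := ih _ hb1 (by omega) S M.normalCore (N.subgroupOf S)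
      (relIndex_le_of_le_right (normalCore_le M) hb0)
    obtain ⟨q1, q2, q3⟩ := AffC.quot_core hM
    obtain ⟨q, a, hA⟩ := Af _ _ q1 q2
    have hi : M.index = q ^ a := by
      rw [← hA.idx, ← index_comap_of_surjective _ (QuotientGroup.mk'_surjective _), q3]
    have h2 := hA.der _ (h q a _ hA.prime hA.pos (by omega) hA.lin)
    rw [← hi, Nat.sub_add_cancel p2] at h2
    have h3 : der (⊤ : Subgroup S) (pi t) ≤ N.subgroupOf S := by
      refine (der_anti _ p1).trans ?_
      rw [der_add]
      exact (der_mono (der_le_of_quot h2) _).trans h1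
    rw [← der_sub (le_refl S), subgroupOf_self]
    exact map_le_iff_le_comap.2 h3
  intro G _ _ _ S N t ht hN
  exact key t ht G S N hN

end Cfsg.Agent.P23
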