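/-
P23, chapter C1, part 1: colourings from a base and from counting.
-/
import Cfsg.Agent.P23.Defs

set_option autoImplicit false
set_option linter.unusedSectionVars false
set_option linter.style.haveILetI false

namespace Cfsg.Agent.P23.C1

open Subgroup Cfsg Cfsg.Agent MulAction Finset
open Cfsg.Agent.H1 (der)

variable {G Ω : Type*} [Group G] [MulAction G Ω] [Finite G] [Finite Ω]

theorem mono {c c' δ C C' Δ : ℕ} (h : ACol G Ω c c' δ) (h1 : c ≤ C) (h2 : C' ≤ c') (h3 : δ ≤ Δ) :
    ACol G Ω C C' Δ := by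
  obtain ⟨f, f1, f2⟩ := h
  refine ⟨fun i x => Fin.castLE h1 (f (Fin.castLE h2 i) x), fun i j g e => Fin.castLE_injective h2
    (f1 _ _ g fun x => Fin.castLE_injective h1 (e x)), fun i S e g hg =>
    f2 _ S (fun s hs x => Fin.castLE_injective h1 (e s hs x)) g (H1.der_anti S h3 hg)⟩

theorem exists_col {c : ℕ} (n : Fin c → ℕ) (hn : ∑ j, n j = Nat.card Ω) (B : Finset Ω) (r : Fin c)
    {k : ℕ} (h1 : ∀ j, j ≠ r → n j ≤ k) (h2 : n r ≤ k ∨ n r + B.card ≤ Nat.card Ω) :
    ∃ f : Ω → Fin c, (∀ j, {x | f x = j}.ncard = n j) ∧ ∀ x ∈ B, n (f x) ≤ k := by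
  classical
  haveI := Fintype.ofFinite Ω
  have e : Ω ≃ Σ j, Fin (n j) := Fintype.equivOfCardEq (by simp [hn])
  have k0 : ∀ (e : Ω ≃ Σ j, Fin (n j)) j, {x | (e x).1 = j}.ncard = n j := fun e j => by
    rw [← Set.ncard_image_of_injective _ e.injective,
      show e '' {x | (e x).1 = j} = Set.range (Sigma.mk j) from Set.ext fun y =>
        ⟨by rintro ⟨x, rfl, rfl⟩; exact ⟨_, rfl⟩, by rintro ⟨a, rfl⟩; exact ⟨e.symm ⟨j, a⟩, by simp⟩⟩,
      Set.ncard_range_of_injective sigma_mk_injective, Nat.card_eq_fintype_card, Fintype.card_fin]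
  rcases h2 with h2 | h2
  · exact ⟨fun x => (e x).1, k0 e, fun x _ => by
      by_cases h : (e x).1 = r
      exacts [(congrArg n h).trans_le h2, h1 _ h]⟩
  have h3 : #{x | (e x).1 = r} = n r := by
    rw [← k0 e r, ← Set.ncard_coe_finset]; simp
  have h4 := card_filter_add_card_filter_not (s := univ) (fun x => (e x).1 = r)
  rw [card_univ, ← Nat.card_eq_fintype_card] at h4
  obtain ⟨g, hg⟩ := Function.Embedding.exists_of_card_le_finset (α := B)
    (s := univ.filter fun x => ¬ (e x).1 = r) (by rw [Fintype.card_coe]; omega)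
  obtain ⟨σ, hσ⟩ := Equiv.Perm.exists_extending_pair (fun x : B => (x : Ω)) g
    Subtype.val_injective g.injective
  refine ⟨fun x => ((σ.trans e) x).1, k0 _, fun x hx => h1 _ ?_⟩
  have := hg ⟨⟨x, hx⟩, rfl⟩
  rw [← hσ] at this
  simpa using this

theorem frame {c c' δ k b d : ℕ} (hd : Nat.card Ω = d)
    (hB : ∃ B : Finset Ω, B.card ≤ b ∧ ∀ g : G, (∀ x ∈ B, g • x = x) → g = 1)
    (h : ∀ S N : Subgroup G, N.relIndex S ≤ k → der S δ ≤ N) (n : Fin c' → Fin c → ℕ)
    (r : Fin c' → Fin c) (h1 : ∀ i j, n i = n j → i = j) (h2 : ∀ i, ∑ j, n i j = d)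
    (h3 : ∀ i j, j ≠ r i → n i j ≤ k) (h4 : ∀ i, n i (r i) ≤ k ∨ n i (r i) + b ≤ d) :
    ACol G Ω c c' δ := by
  obtain ⟨B, b1, b2⟩ := hB
  subst hd
  choose f f1 f2 using fun i => exists_col (n i) (h2 i) B (r i) (h3 i)
    ((h4 i).imp_right fun e => by omega)
  refine ⟨f, fun i j g e => h1 i j (funext fun t => ?_), fun i S e g hg x => ?_⟩
  · rw [← f1, ← f1, ← Set.ncard_image_of_injective {x | f j x = t} (MulAction.injective g)]
    congr 1
    ext x
    exact ⟨fun hx => ⟨g⁻¹ • x, by rw [Set.mem_ofPred_eq, ← e, smul_inv_smul]; exact hx, by simp⟩,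
      by rintro ⟨y, hy, rfl⟩; exact (e y).trans hy⟩
  · rw [b2 g fun y hy => h S (stabilizer G y) (le_trans ?_ (f2 i y hy)) hg, one_smul]
    rw [← f1, show (stabilizer G y).relIndex S = (stabilizer S y).index from rfl, index_stabilizer]
    refine Set.ncard_le_ncard ?_
    rintro _ ⟨s, rfl⟩
    exact e s s.2 y

theorem frameL {c c' δ k b d : ℕ} (hd : Nat.card Ω = d)
    (hB : ∃ B : Finset Ω, B.card ≤ b ∧ ∀ g : G, (∀ x ∈ B, g • x = x) → g = 1)
    (h : ∀ S N : Subgroup G, N.relIndex S ≤ k → der S δ ≤ N) (m : Fin c' → Fin c → ℕ) {u : ℕ}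
    (hu : u ≤ d) (h1 : ∀ i j, m i = m j → i = j) (h2 : ∀ i, b ≤ ∑ j, m i j ∧ ∑ j, m i j ≤ u)
    (h3 : ∀ i j, m i j ≤ k) : ACol G Ω (c + 1) c' δ := by
  refine frame hd hB h (fun i => Fin.cons (d - ∑ j, m i j) (m i)) (fun _ => 0)
    (fun i j e => h1 i j (Fin.cons_injective2 e).2) (fun i => ?_) (fun i j hj => ?_) fun i => ?_
  · have := h2 i
    simp only [Fin.sum_univ_succ, Fin.cons_zero, Fin.cons_succ]
    omega
  · obtain ⟨j, rfl⟩ := Fin.exists_succ_eq.2 hj
    exact h3 i j
  · have := h2 i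
    simp only [Fin.cons_zero]
    omega

theorem card_fix {r : ℕ} (g : G) (c : ℕ)
    (h : ∀ x : Ω, g • x ≠ x → r ≤ (orbit (zpowers g) x).ncard) (hr : 0 < r) (hc : 0 < c) {F : ℕ}
    (hF : (fixedBy Ω g).ncard ≤ F) :
    {f : Ω → Fin c | ∀ x, f (g • x) = f x}.ncard ≤ c ^ ((Nat.card Ω + (r - 1) * F) / r) := by
  classical
  haveI := Fintype.ofFinite Ω
  haveI := Fintype.ofFinite (orbitRel.Quotient (zpowers g) Ω)
  let π : Ω → orbitRel.Quotient (zpowers g) Ω := Quotient.mk''
  have h1 : r * Fintype.card (orbitRel.Quotient (zpowers g) Ω) ≤ Nat.card Ω + (r - 1) * F := by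
    have e1 := card_eq_sum_card_fiberwise (f := π) (s := univ) (t := univ) (by simp)
    have e2 := card_eq_sum_card_fiberwise (f := π) (s := univ.filter fun x => g • x = x)
      (t := univ) (by simp)
    have e3 : #{x : Ω | g • x = x} ≤ F := by
      refine le_trans (le_of_eq ?_) hF
      rw [← Set.ncard_coe_finset]; congr 1; ext; simp
    refine le_trans ?_ (Nat.add_le_add_left (Nat.mul_le_mul_left _ e3) _)
    rw [Nat.card_eq_fintype_card, ← card_univ (α := Ω), e1, e2, mul_sum, ← sum_add_distrib,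
      mul_comm, ← card_univ, ← smul_eq_mul, ← sum_const]
    refine sum_le_sum fun ω _ => ?_
    obtain ⟨x, rfl⟩ := Quotient.exists_rep ω
    by_cases e : g • x = x
    · have a1 : 0 < #{a ∈ (univ : Finset Ω) | π a = ⟦x⟧} := card_pos.2 ⟨x, by simp [π]⟩
      have a2 : 0 < #{a ∈ (univ.filter fun x => g • x = x) | π a = ⟦x⟧} :=
        card_pos.2 ⟨x, by simp [π, e]⟩
      have := Nat.mul_le_mul_left (r - 1) a2
      omega
    · refine le_trans ((h x e).trans (le_of_eq ?_)) (Nat.le_add_right _ _)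
      rw [← Set.ncard_coe_finset]; congr 1; ext y
      simp only [coe_filter, mem_univ, true_and, Set.mem_ofPred_eq, π]
      exact (Quotient.eq (r := orbitRel (zpowers g) Ω)).symm
  have h2 : {f : Ω → Fin c | ∀ x, f (g • x) = f x}.ncard ≤
      (Set.univ : Set (orbitRel.Quotient (zpowers g) Ω → Fin c)).ncard := by
    refine Set.ncard_le_ncard_of_injOn (fun f ω => f ω.out) (by simp) fun f hf f' hf' e => ?_
    have k : ∀ f ∈ {f : Ω → Fin c | ∀ x, f (g • x) = f x}, ∀ x, f (π x).out = f x := fun f hf x => by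
      obtain ⟨⟨_, j, rfl⟩, e⟩ := Quotient.mk_out (s := orbitRel (zpowers g) Ω) x
      obtain ⟨n, hn⟩ := mem_powers_iff_mem_zpowers.2 (zpow_mem (mem_zpowers g) j)
      change g ^ j • x = (π x).out at e
      simp only at hn
      rw [← e, ← hn]
      clear hn
      induction n with
      | zero => simp
      | succ n ih => rw [pow_succ', mul_smul, hf, ih]
    funext x
    rw [← k f hf, ← k f' hf']
    exact congrFun e _
  rw [Set.ncard_univ, Nat.card_eq_fintype_card, Fintype.card_fun, Fintype.card_fin] at h2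
  exact h2.trans (Nat.pow_le_pow_right hc ((Nat.le_div_iff_mul_le hr).2 (by rwa [mul_comm])))

theorem burn [IsPretransitive G Ω] [Nonempty Ω] (θ : ℕ) :
    {g : G | θ < (fixedBy Ω g).ncard}.ncard * (θ + 1) ≤ Nat.card G := by
  classical
  haveI := Fintype.ofFinite Ω
  haveI := Fintype.ofFinite G
  haveI := Fintype.ofFinite (orbitRel.Quotient G Ω)
  have h := sum_card_fixedBy_eq_card_orbits_mul_card_group G Ω
  have e : Fintype.card (orbitRel.Quotient G Ω) ≤ 1 := Fintype.card_le_one_iff.2 fun a b => by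
    obtain ⟨x, rfl⟩ := Quotient.exists_rep a
    obtain ⟨y, rfl⟩ := Quotient.exists_rep b
    exact Quotient.sound (exists_smul_eq G y x)
  have h1 := Nat.mul_le_mul_right (Fintype.card G) e
  rw [← h, one_mul, ← Nat.card_eq_fintype_card] at h1
  refine le_trans ?_ h1
  rw [Set.ncard_eq_toFinset_card', ← smul_eq_mul, ← sum_const]
  refine (sum_le_sum fun g hg => ?_).trans (sum_le_sum_of_subset (subset_univ _))
  rw [← Nat.card_eq_fintype_card, Nat.card_coe_set_eq]
  have := Set.mem_toFinset.1 hg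
  exact this

theorem count [IsPretransitive G Ω] [Nonempty Ω] {c k δ r F θ w n d : ℕ} (hd : Nat.card Ω = d)
    (hn : Nat.card G ≤ n) (h : ∀ (g : G) (x : Ω), g • x ≠ x → r ≤ (orbit (zpowers g) x).ncard)
    (hF : ∀ g : G, g ≠ 1 → (fixedBy Ω g).ncard ≤ F)
    (hw : ∀ S : Subgroup G, Nat.card S ≤ w → der S δ = ⊥) (hr : 0 < r) (hc : 0 < c)
    (num : n * (c ^ ((d + (r - 1) * F) / r) + (θ + 1) * c ^ ((d + (r - 1) * θ) / r) +
      k * w * (θ + 1)) < w * (θ + 1) * c ^ d) : ACol G Ω c (k + 1) δ := by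
  classical
  haveI := Fintype.ofFinite Ω
  haveI := Fintype.ofFinite G
  letI : MulAction G (Ω → Fin c) := arrowAction
  have sm : ∀ (g : G) (f : Ω → Fin c), g • f = f ↔ ∀ x, f (g • x) = f x := fun g f =>
    ⟨fun e x => by rw [← congrFun e (g • x)]; exact congrArg f (inv_smul_smul g x),
      fun e => funext fun x => by rw [← smul_inv_smul g x, e, smul_inv_smul]; rfl⟩
  subst hd
  generalize ha : c ^ ((Nat.card Ω + (r - 1) * F) / r) = a at num
  generalize hb : c ^ ((Nat.card Ω + (r - 1) * θ) / r) = b at num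
  have fx : ∀ g : G, #{f : Ω → Fin c | g • f = f} = {f : Ω → Fin c | ∀ x, f (g • x) = f x}.ncard :=
    fun g => by rw [← Set.ncard_coe_finset]; congr 1; ext; simp [sm]
  have s1 : ∑ g ∈ univ.erase (1 : G), #{f : Ω → Fin c | g • f = f} ≤
      {g : G | θ < (fixedBy Ω g).ncard}.ncard * a + Nat.card G * b := by
    calc _ ≤ ∑ g ∈ univ.erase (1 : G), ((if θ < (fixedBy Ω g).ncard then a else 0) + b) :=
          sum_le_sum fun g hg => by
            rw [fx]
            split_ifs with e
            · exact (ha ▸ card_fix g c (h g) hr hc (hF g (ne_of_mem_erase hg))).trans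
                (Nat.le_add_right _ _)
            · rw [zero_add]
              exact hb ▸ card_fix g c (h g) hr hc (not_lt.1 e)
      _ ≤ ∑ g : G, ((if θ < (fixedBy Ω g).ncard then a else 0) + b) :=
          sum_le_sum_of_subset (subset_univ _)
      _ = _ := by
          rw [sum_add_distrib, ← sum_filter, Set.ncard_eq_toFinset_card', Nat.card_eq_fintype_card]
          simp
  have s2 : #{f : Ω → Fin c | w < Nat.card (stabilizer G f)} * w ≤
      ∑ g ∈ univ.erase (1 : G), #{f : Ω → Fin c | g • f = f} := by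
    rw [← smul_eq_mul, ← sum_const]
    refine ((sum_le_sum fun f hf => ?_).trans (sum_le_sum_of_subset (subset_univ _))).trans_eq
      (sum_card_bipartiteAbove_eq_sum_card_bipartiteBelow (s := univ) (t := univ.erase (1 : G))
        (fun (f : Ω → Fin c) (g : G) => g • f = f))
    have e1 : #{g : G | g • f = f} = Nat.card (stabilizer G f) := by
      rw [← Set.ncard_coe_finset]
      change _ = (stabilizer G f : Set G).ncard
      congr 1; ext; simp
    have e2 := (mem_filter.1 hf).2
    rw [bipartiteAbove, filter_erase, card_erase_of_mem (by simp)]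
    omega
  have s3 := card_filter_add_card_filter_not (s := univ)
    (fun f : Ω → Fin c => w < Nat.card (stabilizer G f))
  rw [card_univ, Fintype.card_fun, Fintype.card_fin, ← Nat.card_eq_fintype_card] at s3
  have s4 := card_le_mul_card_image (f := Quotient.mk (orbitRel G (Ω → Fin c)))
    (univ.filter fun f : Ω → Fin c => ¬ w < Nat.card (stabilizer G f)) n fun ω _ => by
      obtain ⟨f, rfl⟩ := Quotient.exists_rep ω
      refine le_trans ?_ hn
      rw [Nat.card_eq_fintype_card]
      refine (card_le_card fun y hy => ?_).trans (card_image_le (f := fun g : G => g • f))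
      obtain ⟨g, e⟩ := Quotient.exact (mem_filter.1 hy).2
      exact mem_image.2 ⟨g, mem_univ _, e⟩
  have s5 := burn (G := G) (Ω := Ω) θ
  obtain ⟨e, he⟩ := Function.Embedding.exists_of_card_le_finset (α := Fin (k + 1))
    (s := (univ.filter fun f : Ω → Fin c => ¬ w < Nat.card (stabilizer G f)).image
      (Quotient.mk (orbitRel G (Ω → Fin c)))) (by
      rw [Fintype.card_fin]
      by_contra hk
      have t1 := s4.trans (Nat.mul_le_mul_left n (Nat.lt_succ_iff.1 (not_le.1 hk)))
      rw [← s3] at num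
      have t2 := Nat.mul_le_mul_left (θ + 1) (s2.trans s1)
      have t3 := Nat.mul_le_mul_right a (s5.trans hn)
      have t4 := Nat.mul_le_mul_right ((θ + 1) * b) hn
      have t5 := Nat.mul_le_mul_right (w * (θ + 1)) t1
      nlinarith)
  choose f f1 f2 using fun i => mem_image.1 (he ⟨i, rfl⟩)
  refine ⟨f, fun i j g hg => e.injective ?_, fun i S hS g hg x => ?_⟩
  · rw [← f2, ← f2]
    exact Quotient.sound ⟨g, funext fun x => by
      change f j (g⁻¹ • x) = _
      rw [← hg, smul_inv_smul]⟩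
  · rw [hw S ((card_le_of_le fun s hs => (sm s _).2 (hS s hs)).trans
      (not_lt.1 (mem_filter.1 (f1 i)).2)), mem_bot] at hg
    rw [hg, one_smul]

theorem orb2 (g : G) (x : Ω) (h : g • x ≠ x) : 2 ≤ (orbit (zpowers g) x).ncard :=
  (Set.one_lt_ncard (Set.toFinite _)).2
    ⟨_, mem_orbit x (⟨g, mem_zpowers g⟩ : zpowers g), _, mem_orbit_self x, h⟩

theorem orb3 (ho : Odd (Nat.card G)) (g : G) (x : Ω) (h : g • x ≠ x) :
    3 ≤ (orbit (zpowers g) x).ncard := by
  have h1 := orb2 g x h
  rw [← index_stabilizer] at h1 ⊢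
  obtain ⟨j, hj⟩ := Odd.of_dvd_nat ho
    ((index_dvd_card (stabilizer (zpowers g) x)).trans (card_subgroup_dvd_card _))
  omega

theorem small [Group.IsSolvable G] (n : ℕ) (S : Subgroup G) (h : Nat.card S < 2 ^ (n + 1)) :
    der S n = ⊥ := by
  induction n generalizing S with
  | zero => exact eq_bot_of_card_le S (by omega)
  | succ n ih =>
    rw [add_comm, H1.der_add]
    refine ih _ ?_
    by_cases e : S = ⊥
    · rw [e, H1.der_bot, card_bot]
      exact Nat.one_lt_two_pow (by omega)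
    have l : der S 1 < S := Group.IsSolvable.commutator_lt_of_ne_bot e
    obtain ⟨m, hm⟩ := card_dvd_of_le l.le
    have h1 := H1.card_lt_of_lt l
    have h2 : 2 ≤ m := by
      by_contra h3
      have : Nat.card S ≤ Nat.card (der S 1) * 1 := hm ▸ Nat.mul_le_mul_left _ (by omega)
      omega
    have := Nat.mul_le_mul_left (Nat.card (der S 1)) h2
    rw [pow_succ] at h
    omega

end Cfsg.Agent.P23.C1
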