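/-
P23, chapter C1: colourings for primitive solvable groups.
-/
import Cfsg.Agent.P23.C1a

set_option autoImplicit false
set_option linter.unusedSectionVars false
set_option linter.style.haveILetI false

namespace Cfsg.Agent.P23

open Subgroup Cfsg Cfsg.Agent MulAction
open Cfsg.Agent.H1 (der)

universe u

namespace C1

theorem num {d a F L : ℕ} (h1 : d ≤ 2 ^ L) (h2 : 2 * F ≤ d) (h3 : 4 * (L * (a + 1) + 1) ≤ d)
    (h4 : 16 ≤ d) : d ^ (a + 1) * (2 ^ ((d + (2 - 1) * F) / 2) +
      (1 + 1) * 2 ^ ((d + (2 - 1) * 1) / 2) + 4 * 1 * (1 + 1)) < 1 * (1 + 1) * 2 ^ d := by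
  have e1 : 2 ^ ((d + (2 - 1) * F) / 2) ≤ 2 ^ (3 * d / 4) :=
    Nat.pow_le_pow_right (by norm_num) (by omega)
  have e2 : 2 ^ ((d + (2 - 1) * 1) / 2 + 1) ≤ 2 ^ (3 * d / 4) :=
    Nat.pow_le_pow_right (by norm_num) (by omega)
  have e3 : 2 ^ 3 ≤ 2 ^ (3 * d / 4) := Nat.pow_le_pow_right (by norm_num) (by omega)
  have e4 : d ^ (a + 1) ≤ 2 ^ (L * (a + 1)) := pow_mul 2 L _ ▸ Nat.pow_le_pow_left h1 _
  have e5 : 2 ^ (L * (a + 1) + (3 * d / 4 + 2)) ≤ 2 ^ (d + 1) :=
    Nat.pow_le_pow_right (by norm_num) (by omega)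
  rw [pow_succ] at e2
  rw [pow_add, pow_add, pow_succ 2 d] at e5
  calc _ ≤ 2 ^ (L * (a + 1)) * (2 ^ (3 * d / 4) * 3) := Nat.mul_le_mul e4 (by omega)
    _ < 2 ^ (L * (a + 1)) * (2 ^ (3 * d / 4) * 2 ^ 2) := by gcongr; norm_num
    _ ≤ _ := by omega

theorem lg {L : ℕ} (h : 9 ≤ L) : 4 * ((L + 1) * (L + 1) + 1) ≤ 2 ^ L := by
  induction L, h using Nat.le_induction with
  | base => norm_num
  | succ k hk ih => rw [pow_succ]; nlinarith

theorem gen {d a : ℕ} (h1 : 512 ≤ d) (h2 : 2 ^ a ≤ d) :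
    ∃ L, d ≤ 2 ^ L ∧ 4 * (L * (a + 1) + 1) ≤ d := by
  have e1 : 9 ≤ Nat.log 2 d := Nat.le_log_of_pow_le (by norm_num) h1
  have e2 : a ≤ Nat.log 2 d := Nat.le_log_of_pow_le (by norm_num) h2
  refine ⟨_, (Nat.lt_pow_succ_log_self (by norm_num) d).le,
    le_trans ?_ ((lg e1).trans (Nat.pow_log_le_self 2 (by omega)))⟩
  rw [Nat.succ_eq_add_one]
  gcongr

end C1

open C1

theorem primColStmt (Pi : PiStmt.{u} 7) (Ord : OrdStmt.{u}) : PrimColStmt.{u} := by
  intro G _ _ _ M q a s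
  have hd : Nat.card (G ⧸ M) = q ^ a := s.idx
  have hB := s.base
  have hq := s.prime.two_le
  have hG : Nat.card G = q ^ a * Nat.card M := by rw [← s.idx, M.index_mul_card]
  obtain ⟨o1, o2, o3, o4, o5, o6, o7, o8⟩ := Ord M
  have oM := o1 q a s.prime s.lin
  have hF : ∀ g : G, g ≠ 1 → (fixedBy (G ⧸ M) g).ncard ≤ q ^ a / q := fun g hg =>
    (Nat.le_div_iff_mul_le s.prime.pos).2 (mul_comm q _ ▸ s.fix g hg)
  have p1 : ∀ S N : Subgroup G, N.relIndex S ≤ 1 → der S 0 ≤ N := fun S N => Pi G S N 1 (by norm_num)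
  have p2 : ∀ S N : Subgroup G, N.relIndex S ≤ 2 → der S 1 ≤ N := fun S N => Pi G S N 2 (by norm_num)
  have p3 : ∀ S N : Subgroup G, N.relIndex S ≤ 3 → der S 2 ≤ N := fun S N => Pi G S N 3 (by norm_num)
  have p7 : ∀ S N : Subgroup G, N.relIndex S ≤ 7 → der S 3 ≤ N := fun S N => Pi G S N 7 (by norm_num)
  have w1 : ∀ S : Subgroup G, Nat.card S ≤ 1 → der S 0 = ⊥ := fun S => eq_bot_of_card_le S
  have oq : Odd (Nat.card G) → q ≠ 2 := fun h e => by
    rw [hG, e, Nat.odd_mul, Nat.odd_pow_iff (by have := s.pos; omega)] at h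
    exact absurd h.1 (by decide)
  have oN : Odd (Nat.card G) → Odd (Nat.card M) := fun h => Odd.of_dvd_nat h M.card_subgroup_dvd_card
  have hn : ∀ {n}, Nat.card M ≤ n → Nat.card G ≤ q ^ a * n := fun h => hG ▸ Nat.mul_le_mul_left _ h
  have c2 : ∀ {n}, Nat.card G ≤ n → n * (2 ^ ((q ^ a + (2 - 1) * (q ^ a / q)) / 2) +
      (1 + 1) * 2 ^ ((q ^ a + (2 - 1) * 1) / 2) + 4 * 1 * (1 + 1)) < 1 * (1 + 1) * 2 ^ q ^ a →
      ACol G (G ⧸ M) 2 5 0 := fun h => count hd h orb2 hF w1 (by norm_num) (by norm_num)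
  have c3 : ∀ {n}, Odd (Nat.card G) → Nat.card M ≤ n →
      q ^ a * n * (2 ^ ((q ^ a + (3 - 1) * (q ^ a / q)) / 3) +
      (0 + 1) * 2 ^ ((q ^ a + (3 - 1) * 0) / 3) + 1 * 1 * (0 + 1)) < 1 * (0 + 1) * 2 ^ q ^ a →
      ACol G (G ⧸ M) 2 2 0 := fun ho h => count hd (hn h) (orb3 ho) hF w1 (by norm_num) (by norm_num)
  have bg : ∀ L, q ^ a ≤ 2 ^ L → 4 * (L * (a + 1) + 1) ≤ q ^ a → 16 ≤ q ^ a →
      ACol G (G ⧸ M) 2 5 0 := fun L h1 h2 h3 => c2 (n := (q ^ a) ^ (a + 1)) (by
    rw [pow_succ']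
    exact hn (oM.trans ((Finset.prod_le_pow_card _ _ _ fun i _ => Nat.sub_le _ _).trans_eq
      (by rw [Finset.card_range])))) (num h1 ((Nat.mul_le_mul_right _ hq).trans
        (Nat.mul_div_le _ _)) h2 h3)
  have bg' : 512 ≤ q ^ a → ACol G (G ⧸ M) 2 5 0 := fun h => by
    obtain ⟨L, h1, h2⟩ := gen h (Nat.pow_le_pow_left hq a)
    exact bg L h1 h2 (by omega)
  have two : q ^ a = 2 → ACol G (G ⧸ M) 2 3 1 := fun e => frame (hd.trans e) hB p2
    ![![0, 2], ![1, 1], ![2, 0]] (fun _ => 0) (by decide) (by decide) (by decide)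
    fun i => Or.inl (by revert i; decide)
  have three : q ^ a = 3 → ACol G (G ⧸ M) 2 4 2 := fun e => frame (hd.trans e) hB p3
    ![![0, 3], ![1, 2], ![2, 1], ![3, 0]] (fun _ => 0) (by decide) (by decide) (by decide)
    fun i => Or.inl (by revert i; decide)
  suffices h : ACol G (G ⧸ M) 2 5 0 ∨ ACol G (G ⧸ M) 5 5 0 ∧ ACol G (G ⧸ M) 4 5 1 ∧
      ACol G (G ⧸ M) 3 5 2 ∧ (4 ≤ q ^ a → ACol G (G ⧸ M) 2 5 3) ∧
      (Odd (Nat.card G) → ACol G (G ⧸ M) 2 2 0) by
    rcases h with h | ⟨h1, h2, h3, h4, h5⟩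
    · exact ⟨mono h (by norm_num) le_rfl le_rfl, mono h (by norm_num) le_rfl (by norm_num),
        mono h (by norm_num) le_rfl (by norm_num), fun _ => mono h le_rfl le_rfl (by norm_num),
        two, three, fun _ => mono h le_rfl (by norm_num) le_rfl⟩
    · exact ⟨h1, h2, h3, h4, two, three, h5⟩
  by_cases hb : 512 ≤ q ^ a
  · exact Or.inl (bg' hb)
  have s7 : a ≤ 2 → 7 ≤ q ^ a → ACol G (G ⧸ M) 2 5 3 := fun h e => frameL hd
    (hB.imp fun B h' => ⟨h'.1.trans (show a + 1 ≤ 3 by omega), h'.2⟩) p7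
    ![![3], ![4], ![5], ![6], ![7]] e (by decide) (by decide) (by decide)
  have a9 : a < 9 := by
    by_contra e
    exact hb ((Nat.pow_le_pow_right (n := 2) (by norm_num) (not_lt.1 e)).trans
      (Nat.pow_le_pow_left hq a))
  have a1 := s.pos
  have qp := s.prime
  have sl := s.lin
  clear s
  interval_cases a
  · rw [pow_one] at *
    refine Or.inr ⟨frameL hd hB p1 ![![1, 1, 0, 0], ![1, 0, 1, 0], ![1, 0, 0, 1], ![0, 1, 1, 0],
      ![0, 1, 0, 1]] hq (by decide) (by decide) (by decide), frameL hd hB p2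
      ![![1, 1, 0], ![1, 0, 1], ![0, 1, 1], ![2, 0, 0], ![0, 2, 0]] hq (by decide) (by decide)
      (by decide), ?_, fun h => ?_, fun h => ?_⟩
    · rcases hq.eq_or_lt with e | e
      · exact frame (hd.trans e.symm) hB p3 ![![2, 0, 0], ![0, 2, 0], ![0, 0, 2], ![1, 1, 0],
          ![1, 0, 1]] (fun _ => 0) (by decide) (by decide) (by decide) (by decide)
      · exact frameL hd hB p3 ![![1, 1], ![2, 0], ![0, 2], ![3, 0], ![1, 2]] (u := 3) e (by decide)
          (by decide) (by decide)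
    · by_cases e : 7 ≤ q
      · exact s7 (by norm_num) e
      · obtain rfl : q = 5 := by
          have : q < 7 := by omega
          interval_cases q <;> first | rfl | exact absurd qp (by decide)
        exact frame hd hB p7 ![![0, 5], ![1, 4], ![2, 3], ![3, 2], ![4, 1]] (fun _ => 0)
          (by decide) (by decide) (by decide) (by decide)
    · have h4 : q ≠ 4 := fun e => absurd (e ▸ qp) (by decide)
      have h2 := oq h
      have p0 : ∀ S N : Subgroup G, N.relIndex S ≤ 2 → der S 0 ≤ N := fun S N e => by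
        obtain ⟨j, hj⟩ := Odd.of_dvd_nat h ((relIndex_dvd_card N S).trans S.card_subgroup_dvd_card)
        exact (relIndex_eq_one (H := N) (K := S)).1 (by omega)
      refine frame hd hB p0 ![![2, q - 2], ![q - 2, 2]]
        ![1, 0] (fun i j => ?_) (fun i => ?_) (fun i j => ?_) fun i => ?_
      · fin_cases i <;> fin_cases j <;> simp <;> omega
      · fin_cases i <;> simp <;> omega
      · fin_cases i <;> fin_cases j <;> simp
      · fin_cases i <;> simp <;> omega
  · have h4 : 4 ≤ q ^ 2 := Nat.pow_le_pow_left hq 2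
    refine Or.inr ⟨frameL hd hB p1 ![![1, 1, 1, 0], ![1, 1, 0, 1], ![1, 0, 1, 1], ![0, 1, 1, 1],
      ![1, 1, 1, 1]] h4 (by decide) (by decide) (by decide), frameL hd hB p2
      ![![0, 1, 2], ![0, 2, 1], ![1, 0, 2], ![1, 2, 0], ![2, 0, 1]] h4 (by decide) (by decide)
      (by decide), frameL hd hB p3 ![![3, 0], ![0, 3], ![1, 2], ![2, 1], ![2, 2]] h4 (by decide)
      (by decide) (by decide), fun _ => ?_, fun h => ?_⟩
    · rcases hq.eq_or_lt with rfl | e
      · exact frame (d := 4) hd hB p7 ![![0, 4], ![1, 3], ![2, 2], ![3, 1], ![4, 0]] (fun _ => 0)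
          (by decide) (by decide) (by decide) (by decide)
      · exact s7 le_rfl (le_trans (by norm_num) (Nat.pow_le_pow_left e 2))
    · by_cases e : 11 ≤ q
      · have := Nat.pow_le_pow_left e 2
        exact mono (bg 9 (by omega) (by omega) (by omega)) le_rfl (by norm_num) le_rfl
      have h2 := oq h
      have : q < 11 := by omega
      interval_cases q <;> try exact absurd qp (by decide)
      · exact absurd rfl h2
      · exact c3 h ((o8 (oN h)).1 sl) (by norm_num)
      · exact c3 h oM (by norm_num [Finset.prod_range_succ])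
      · exact c3 h oM (by norm_num [Finset.prod_range_succ])
  · have : q < 8 := lt_of_pow_lt_pow_left₀ 3 (by norm_num) (by omega)
    interval_cases q <;> try exact absurd qp (by decide)
    · exact Or.inr ⟨frame (d := 8) hd hB p1 (fun i j => if j = i then 4 else 1) id (by decide)
        (by decide) (by decide) (by decide), frame (d := 8) hd hB p2 ![![3, 1, 2, 2], ![3, 2, 1, 2],
        ![3, 2, 2, 1], ![2, 2, 2, 2], ![1, 3, 2, 2]] ![0, 0, 0, 0, 1] (by decide) (by decide)
        (by decide) (by decide), frameL hd hB p3 ![![1, 3], ![3, 1], ![2, 2], ![2, 3], ![3, 2]]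
        (u := 5) (by norm_num) (by decide) (by decide) (by decide), fun _ => frame (d := 8) hd hB p7
        ![![1, 7], ![2, 6], ![3, 5], ![4, 4], ![5, 3]] (fun _ => 0) (by decide) (by decide)
        (by decide) (by decide), fun h => absurd rfl (oq h)⟩
    · exact Or.inr ⟨frame (d := 27) hd hB p1 (fun i j => if j = i then 23 else 1) id (by decide)
        (by decide) (by decide) (by decide), frameL hd hB p2 ![![1, 2, 2], ![2, 1, 2],
        ![2, 2, 1], ![2, 2, 2], ![1, 1, 2]] (u := 6) (by norm_num) (by decide) (by decide)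
        (by decide), frameL hd hB p3 ![![1, 3], ![3, 1], ![2, 2], ![2, 3], ![3, 2]]
        (u := 5) (by norm_num) (by decide) (by decide) (by decide), fun _ => frame (d := 27) hd hB p7
        ![![4, 23], ![5, 22], ![6, 21], ![7, 20], ![23, 4]] ![1, 1, 1, 1, 0] (by decide) (by decide)
        (by decide) (by decide), fun h => c3 h ((o8 (oN h)).2 sl) (by norm_num)⟩
    · exact Or.inl (bg 7 (by norm_num) (by norm_num) (by norm_num))
    · exact Or.inl (bg 9 (by norm_num) (by norm_num) (by norm_num))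
  · have : q < 5 := lt_of_pow_lt_pow_left₀ 4 (by norm_num) (by omega)
    interval_cases q <;> try exact absurd qp (by decide)
    · exact Or.inr ⟨count (θ := 1) hd (hn (o2 sl)) orb2 hF w1 (by norm_num) (by norm_num)
        (by norm_num), frame (d := 16) hd hB p2 ![![11, 1, 2, 2], ![11, 2, 1, 2],
        ![11, 2, 2, 1], ![10, 2, 2, 2], ![1, 11, 2, 2]] ![0, 0, 0, 0, 1] (by decide) (by decide)
        (by decide) (by decide), frame (d := 16) hd hB p3 ![![11, 2, 3], ![11, 3, 2], ![10, 3, 3],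
        ![2, 11, 3], ![2, 3, 11]] ![0, 0, 0, 1, 2] (by decide) (by decide) (by decide) (by decide),
        fun _ => frame (d := 16) hd hB p7 ![![5, 11], ![6, 10], ![7, 9], ![11, 5], ![10, 6]]
        ![1, 1, 1, 0, 0] (by decide) (by decide) (by decide) (by decide),
        fun h => absurd rfl (oq h)⟩
    · exact Or.inl (c2 (hn (o7 sl)) (by norm_num))
  · have : q < 4 := lt_of_pow_lt_pow_left₀ 5 (by norm_num) (by omega)
    interval_cases q
    · have h : ACol G (G ⧸ M) 3 5 0 := count (θ := 0) hd (hn (o3 sl)) orb2 hF w1 (by norm_num)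
        (by norm_num) (by norm_num)
      exact Or.inr ⟨mono h (by norm_num) le_rfl le_rfl, mono h (by norm_num) le_rfl (by norm_num),
        mono h le_rfl le_rfl (by norm_num), fun _ => count (θ := 1) (w := 15) hd (hn (o3 sl)) orb2 hF
        (fun S e => small 3 S (by omega)) (by norm_num) (by norm_num) (by norm_num),
        fun h => absurd rfl (oq h)⟩
    · exact Or.inl (bg 8 (by norm_num) (by norm_num) (by norm_num))
  · obtain rfl : q = 2 := by
      have : q < 3 := lt_of_pow_lt_pow_left₀ 6 (by norm_num) (by omega)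
      omega
    exact Or.inl (c2 (hn (o4 sl)) (by norm_num))
  · obtain rfl : q = 2 := by
      have : q < 3 := lt_of_pow_lt_pow_left₀ 7 (by norm_num) (by omega)
      omega
    exact Or.inl (c2 (hn (o5 sl)) (by norm_num))
  · obtain rfl : q = 2 := by
      have : q < 3 := lt_of_pow_lt_pow_left₀ 8 (by norm_num) (by omega)
      omega
    exact Or.inl (c2 (hn (o6 sl)) (by norm_num))

end Cfsg.Agent.P23
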