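/-
P23: colourings for solvable permutation groups from those for primitive groups.
-/
import Cfsg.Agent.P23.Aff

set_option autoImplicit false

namespace Cfsg.Agent.P23

open Subgroup Cfsg Cfsg.Agent Cfsg.Agent.FT
open Cfsg.Agent.H1 (der map_der der_add der_mono der_le der_anti der_succ)

universe u

namespace Col

variable {H : Type*} [Group H] {L M N : Subgroup H} {c c' c'' δ ε : ℕ}

theorem mono {c₂ c₂' δ₂ : ℕ} (h : Col L N c c' δ) (h1 : c ≤ c₂) (h2 : c₂' ≤ c') (h3 : δ ≤ δ₂) :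
    Col L N c₂ c₂' δ₂ := by
  obtain ⟨f, f1, f2, f3⟩ := h
  refine ⟨fun i x => Fin.castLE h1 (f (Fin.castLE h2 i) x), fun i x hx n hn => by
    simp only [f1 _ x hx n hn], fun i j g hg h => ?_, fun i S hS h g hg => ?_⟩
  · exact Fin.castLE_injective h2 (f2 _ _ g hg fun x hx => Fin.castLE_injective h1 (h x hx))
  · exact f3 _ S hS (fun s hs x hx => Fin.castLE_injective h1 (h s hs x hx)) g (der_anti S h3 hg)

theorem self (L : Subgroup H) (c : ℕ) : Col L L c c 0 :=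
  ⟨fun i _ => i, fun _ _ _ _ _ => rfl, fun _ _ _ _ h => h 1 L.one_mem,
    fun _ _ hS _ _ hg _ hx => L.mul_mem (L.mul_mem (L.inv_mem hx) (hS hg)) hx⟩

theorem comp (hNM : N ≤ M) (hML : M ≤ L) (h1 : Col M N c c' δ) (h2 : Col L M c' c'' ε) :
    Col L N c c'' (ε + δ) := by
  obtain ⟨g, g1, g2, g3⟩ := h1
  obtain ⟨f, f1, f2, f3⟩ := h2
  obtain ⟨r, r1, r2⟩ : ∃ r : H → H, (∀ x, (r x)⁻¹ * x ∈ M) ∧ ∀ x, ∀ m ∈ M, r (x * m) = r x :=
    ⟨fun x => (x : H ⧸ M).out, fun x => QuotientGroup.eq.1 (QuotientGroup.out_eq' _),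
      fun x m hm => by simp only [QuotientGroup.mk_mul_of_mem x hm]⟩
  have key : ∀ i j, ∀ s ∈ L, (∀ x ∈ L, g (f i (s * x)) ((r (s * x))⁻¹ * (s * x)) =
      g (f j x) ((r x)⁻¹ * x)) → ∀ x ∈ L, f i (s * x) = f j x := fun i j s hs h x hx => by
    refine g2 _ _ ((r (s * x))⁻¹ * (s * x) * ((r x)⁻¹ * x)⁻¹)
      (M.mul_mem (r1 _) (M.inv_mem (r1 _))) fun y hy => ?_
    have hm : ((r x)⁻¹ * x)⁻¹ * y ∈ M := M.mul_mem (M.inv_mem (r1 _)) hy
    have := h (x * (((r x)⁻¹ * x)⁻¹ * y)) (L.mul_mem hx (hML hm))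
    rw [← mul_assoc s x, r2 _ _ hm, r2 _ _ hm, f1 _ _ (L.mul_mem hs hx) _ hm, f1 _ _ hx _ hm] at this
    convert this using 2 <;> group
  refine ⟨fun i x => g (f i x) ((r x)⁻¹ * x), fun i x hx n hn => ?_,
    fun i j s hs h => f2 i j s hs (key i j s hs h), fun i S hS h t ht x hx => ?_⟩
  · simp only
    rw [r2 _ _ (hNM hn), f1 _ _ hx _ (hNM hn), ← mul_assoc, g1 _ _ (r1 x) n hn]
  · have h3 := f3 i S hS fun s hs => key i i s (hS hs) (h s hs)
    have hr : r x ∈ L := by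
      have := L.mul_mem hx (L.inv_mem (hML (r1 x)))
      simpa using this
    have hrr : ∀ m ∈ M, r (r x * m) = r x := fun m hm => by
      have : r x * m = x * (((r x)⁻¹ * x)⁻¹ * m) := by group
      rw [this, r2 _ _ (M.mul_mem (M.inv_mem (r1 x)) hm)]
    have hT : der S ε ^ᵍ (r x)⁻¹ ≤ M := by
      rintro _ ⟨s, hs, rfl⟩
      simpa using h3 s hs _ hr
    have h4 := g3 (f i (r x)) _ hT (by
      rintro _ ⟨s, hs, rfl⟩ y hy
      have e := h s (der_le S ε hs) (r x * y) (L.mul_mem hr (hML hy))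
      have hm : (r x)⁻¹ * s * r x * y ∈ M := M.mul_mem (h3 s hs _ hr) hy
      have e2 : s * (r x * y) = r x * ((r x)⁻¹ * s * r x * y) := by group
      simp only at e
      rw [e2, hrr _ hm, hrr _ hy, f1 _ _ hr _ hm, f1 _ _ hr _ hy] at e
      simpa using e)
    rw [der_add] at ht
    have h6 := conj_mem_conj ht (r x)⁻¹
    rw [← der_conj] at h6
    have h5 := h4 _ h6 _ (r1 x)
    convert h5 using 1
    group

theorem of_acol {Q : Type*} [Group Q] (hNL : N ≤ L) (ρ : L →* Q) (hρ : Function.Surjective ρ)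
    {P : Subgroup Q} (hP : P.comap ρ = N.subgroupOf L) (h : ACol Q (Q ⧸ P) c c' δ) :
    Col L N c c' δ := by
  classical
  obtain ⟨f, f1, f2⟩ := h
  let pr : H → L := fun x => if h : x ∈ L then ⟨x, h⟩ else 1
  have hpr : ∀ x (h : x ∈ L), pr x = ⟨x, h⟩ := fun x h => dif_pos h
  have act : ∀ s (hs : s ∈ L), ∀ x ∈ L, ((ρ (pr (s * x)) : Q) : Q ⧸ P) =
      ρ ⟨s, hs⟩ • ((ρ (pr x) : Q) : Q ⧸ P) := fun s hs x hx => by
    rw [MulAction.Quotient.smul_mk, smul_eq_mul, ← map_mul, hpr _ hx, hpr _ (L.mul_mem hs hx)]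
    rfl
  have sur : ∀ y : Q ⧸ P, ∃ x ∈ L, y = ((ρ (pr x) : Q) : Q ⧸ P) := fun y => by
    obtain ⟨y, rfl⟩ := QuotientGroup.mk_surjective y
    obtain ⟨x, rfl⟩ := hρ y
    exact ⟨x, x.2, by rw [hpr _ x.2]⟩
  refine ⟨fun i x => f i ((ρ (pr x) : Q) : Q ⧸ P), fun i x hx n hn => ?_,
    fun i j s hs h => f1 i j (ρ ⟨s, hs⟩) fun y => ?_, fun i S hS h t ht x hx => ?_⟩
  · have : (⟨n, hNL hn⟩ : L) ∈ P.comap ρ := hP ▸ hn
    simp only
    rw [hpr _ hx, hpr _ (L.mul_mem hx (hNL hn)),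
      ← QuotientGroup.mk_mul_of_mem (ρ ⟨x, hx⟩) (show ρ ⟨n, hNL hn⟩ ∈ P from this), ← map_mul]
    rfl
  · obtain ⟨x, hx, rfl⟩ := sur y
    rw [← act s hs x hx]; exact h x hx
  · rw [← der_sub hS] at ht
    obtain ⟨t, ht, rfl⟩ := ht
    have h1 := f2 i ((S.subgroupOf L).map ρ) (by
      rintro _ ⟨s, hs, rfl⟩ y
      obtain ⟨x, hx, rfl⟩ := sur y
      rw [← act s s.2 x hx]; exact h s hs x hx) (ρ t) (map_der ρ _ δ ▸ mem_map_of_mem ρ ht)
      (ρ ⟨x, hx⟩ : Q)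
    rw [MulAction.Quotient.smul_mk, smul_eq_mul, eq_comm, QuotientGroup.eq, ← map_mul, ← map_inv,
      ← map_mul] at h1
    have h2 : (⟨x, hx⟩ : L)⁻¹ * (t * ⟨x, hx⟩) ∈ N.subgroupOf L := hP ▸ h1
    simpa [mem_subgroupOf, mul_assoc] using h2

end Col

theorem colStmt (Af : AffStmt.{u}) (PC : PrimColStmt.{u}) : ColStmt.{u} := by
  intro H _ _ _
  have prim : ∀ N M : Subgroup H, N ⋖ M → Col M N 5 5 0 ∧ Col M N 4 5 1 ∧ Col M N 3 5 2 ∧
      (Col M N 2 5 3 ∨ Col M N 2 3 1 ∨ Col M N 2 4 2) ∧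
      (Odd (Nat.card H) → Col M N 2 2 0) := fun N M h => by
    obtain ⟨q1, q2, q3⟩ := AffC.quot_core (AffC.coatom_of_covBy h)
    obtain ⟨q, a, hA⟩ := Af _ _ q1 q2
    obtain ⟨p1, p2, p3, p4, p5, p6, p7⟩ := PC _ _ q a hA
    have tr := fun c c' δ => Col.of_acol (c := c) (c' := c') (δ := δ) h.le _
      (QuotientGroup.mk'_surjective _) q3
    refine ⟨tr _ _ _ p1, tr _ _ _ p2, tr _ _ _ p3, ?_, fun ho => tr _ _ _ (p7 ?_)⟩
    · have : 2 ≤ q ^ a := hA.prime.two_le.trans (Nat.le_self_pow (by have := hA.pos; omega) q)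
      by_cases h4 : 4 ≤ q ^ a
      · exact Or.inl (tr _ _ _ (p4 h4))
      by_cases h2 : q ^ a = 2
      · exact Or.inr (Or.inl (tr _ _ _ (p5 h2)))
      · exact Or.inr (Or.inr (tr _ _ _ (p6 (by omega))))
    · exact ho.of_dvd_nat ((card_quotient_dvd_card _).trans (card_subgroup_dvd_card M))
  have step : ∀ N : Subgroup H, N = ⊤ ∨ ∃ M, N ⋖ M := fun N => by
    by_cases h : N = ⊤
    · exact Or.inl h
    · exact Or.inr (exists_covBy_of_wellFoundedLT fun e => h (isMax_iff_eq_top.1 e))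
  have A : ∀ N : Subgroup H, Col ⊤ N 5 5 0 := fun N => by
    induction N using WellFoundedGT.induction with
    | _ N ih =>
    rcases step N with rfl | ⟨M, h⟩
    · exact Col.self _ _
    · exact Col.comp h.le le_top (prim N M h).1 (ih M h.lt)
  have B : Odd (Nat.card H) → ∀ N : Subgroup H, Col ⊤ N 2 2 0 := fun ho N => by
    induction N using WellFoundedGT.induction with
    | _ N ih =>
    rcases step N with rfl | ⟨M, h⟩
    · exact Col.self _ _
    · exact Col.comp h.le le_top ((prim N M h).2.2.2.2 ho) (ih M h.lt)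
  have C : ∀ N : Subgroup H, Col ⊤ N 4 1 1 ∧ Col ⊤ N 3 1 2 := fun N => by
    rcases step N with rfl | ⟨M, h⟩
    · exact ⟨(Col.self _ 4).mono le_rfl (by omega) (by omega),
        (Col.self _ 3).mono le_rfl (by omega) (by omega)⟩
    · exact ⟨(Col.comp h.le le_top (prim N M h).2.1 (A M)).mono le_rfl (by omega) (by omega),
        (Col.comp h.le le_top (prim N M h).2.2.1 (A M)).mono le_rfl (by omega) (by omega)⟩
  refine fun N => ⟨?_, (A N).mono le_rfl (by omega) le_rfl,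
    fun ho => (B ho N).mono le_rfl (by omega) le_rfl⟩
  rcases step N with rfl | ⟨M, h⟩
  · exact (Col.self _ 2).mono le_rfl (by omega) (by omega)
  · rcases (prim N M h).2.2.2.1 with h1 | h1 | h1
    · exact (Col.comp h.le le_top h1 (A M)).mono le_rfl (by omega) (by omega)
    · exact Col.comp h.le le_top h1 (C M).2
    · exact Col.comp h.le le_top h1 (C M).1

end Cfsg.Agent.P23
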