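/-
P23: the structure of primitive solvable linear groups.
-/
import Cfsg.Agent.P23.Blk

set_option autoImplicit false
set_option linter.style.haveILetI false
set_option linter.unusedSectionVars false

namespace Cfsg.Agent.P23

open Subgroup Cfsg Cfsg.Agent Cfsg.Agent.FT Module Cfsg.Agent.H7.Hk Cfsg.Agent.H5
open Cfsg.Agent.H1 (der map_der der_add der_mono der_le der_anti der_succ)
open Cfsg.Agent.H5.KRel (Fpf galois prime_dvd_card)
open Cfsg.Agent.H9 (rep_mul_apply rep_inv_apply rep_apply_inv)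
open scoped commutatorElement TensorProduct

universe u v

theorem wt3 {p : ℕ} [hp : Fact p.Prime] {Γ U : Type*} [Group Γ] [Finite Γ] [AddCommGroup U]
    [Module (ZMod p) U] [Finite U] [Nontrivial U] (σ : Γ →* End (ZMod p) U) {D X : Subgroup Γ}
    [IsCyclic D] (fpf : ∀ d ∈ D, ∀ u, u ≠ 0 → σ d u = u → d = 1) (XC : X ≤ 𝐂(D))
    (XX : ⁅X, X⁆ ≤ D) (XZ : ∀ x ∈ X, x ∈ 𝐂(X) → x ∈ D) {E : ℕ} (hE : D.relIndex X = E ^ 2) :
    ∃ s, 1 ≤ s ∧ s * E ≤ finrank (ZMod p) U ∧ Nat.card D ∣ p ^ s - 1 := by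
  let F := AlgebraicClosure (ZMod p)
  let σ' : Γ →* End F (F ⊗[ZMod p] U) := (End.baseChangeHom (ZMod p) F U).toMonoidHom.comp σ
  have hfr : finrank F (F ⊗[ZMod p] U) = finrank (ZMod p) U := Module.finrank_baseChange
  haveI : Nontrivial (F ⊗[ZMod p] U) := by
    rw [← finrank_pos_iff (R := F), hfr]
    exact finrank_pos
  have fpf' : ∀ d ∈ D, ∀ w, w ≠ 0 → σ' d w = w → d = 1 := by
    intro d hd w hw h
    by_contra hd1
    have h1 : IsUnit (σ d - 1) := by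
      rw [LinearMap.isUnit_iff_ker_eq_bot, eq_bot_iff]
      intro u hu
      by_contra hu0
      exact hd1 (fpf d hd u hu0 (by simpa [sub_eq_zero] using hu))
    have h2 := h1.map (End.baseChangeHom (ZMod p) F U)
    rw [map_sub, map_one, LinearMap.isUnit_iff_ker_eq_bot, eq_bot_iff] at h2
    exact hw (h2 (show End.baseChangeHom (ZMod p) F U (σ d) w - w = 0 from sub_eq_zero.2 h))
  obtain ⟨d, hd⟩ := IsCyclic.exists_generator (α := D)
  obtain ⟨l, hl⟩ := End.exists_eigenvalue (σ' d)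
  let W := End.eigenspace (σ' d) l
  have : Nontrivial W := Submodule.nontrivial_iff_ne_bot.2 hl
  have hW : ∀ x : X, ∀ w ∈ W, σ' x w ∈ W := fun x w hw => by
    rw [End.mem_eigenspace_iff] at hw ⊢
    rw [← rep_mul_apply, mem_cent.1 (XC x.2) d d.2, rep_mul_apply, hw, map_smul]
  let τ : X →* End F W :=
    { toFun := fun g => (σ' g).restrict (hW g)
      map_one' := by ext w; simp
      map_mul' := fun a b => by ext w; exact rep_mul_apply σ' a b w }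
  have hc : (⊤ : Subgroup X) ≤ 𝐂(D.subgroupOf X) := fun x _ y hy =>
    Subtype.ext (mem_cent.1 (XC x.2) y hy)
  have : (D.subgroupOf X).Normal := normal_subgroupOf_of_comm_le XX
  obtain ⟨e, e1, e2, e3, -⟩ := wt τ (D.subgroupOf X) (le_top.trans hc) fun x hx (w : W) w0 e =>
    Subtype.ext (fpf' x hx w.1 (fun h => w0 (Subtype.ext h)) (congrArg Subtype.val e))
  have e4 := e3 ⊤ hc (commutator_le.2 fun a _ b _ => XX (commutator_mem_commutator a.2 b.2))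
    fun x _ hx => XZ x x.2 fun y hy => congrArg Subtype.val (mem_cent.1 hx ⟨y, hy⟩ (mem_top _))
  rw [relIndex_top_right, ← relIndex, hE, Nat.pow_le_pow_iff_left two_ne_zero] at e4
  obtain ⟨s, s1, s2, s3⟩ := galois (σ d) l e1
    ((Nat.le_mul_of_pos_left e (Nat.pos_of_ne_zero index_ne_zero_of_finite)).trans e2)
  refine ⟨s, s1, (Nat.mul_le_mul_left s e4).trans s2, ?_⟩
  obtain ⟨w, hw⟩ := hl.exists_hasEigenvector
  have l0 : l ≠ 0 := fun e => hw.2 (H9.rep_eq_zero σ' d (by rw [hw.apply_eq_smul, e, zero_smul]))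
  have p1 : 1 < p ^ s := Nat.one_lt_pow (by omega) hp.out.one_lt
  have h1 : l ^ (p ^ s - 1) = 1 := mul_right_cancel₀ l0 (by
    rw [← pow_succ, Nat.sub_add_cancel p1.le, s3, one_mul])
  have h2 : d ^ (p ^ s - 1) = 1 := Subtype.ext (fpf' _ (d ^ (p ^ s - 1)).2 w hw.2 (by
    rw [Subgroup.coe_pow, map_pow, hw.pow_apply, h1, one_smul]))
  have h3 := orderOf_dvd_of_pow_eq_one h2
  rwa [orderOf_eq_card_of_forall_mem_zpowers hd] at h3

variable {Γ : Type u} [Group Γ] [Finite Γ]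

/-- `Y / D` is a symplectic chief factor of order `q ^ (2 n)`. -/
structure Ch (D Y : Subgroup Γ) (q n : ℕ) : Prop where
  nrm : Y.Normal
  prime : q.Prime
  sy : Sy q D Y
  pos : 1 ≤ n
  idx : D.relIndex Y = q ^ (2 * n)
  irr : ∀ U : Subgroup Γ, D ≤ U → U ≤ Y → ⊤ ≤ 𝐍(U) → U = D ∨ U = Y
  sp : (centMod Y D).relIndex 𝐂(D) ≤ q ^ (2 * n * n + n)

theorem Ch.lin {D Y : Subgroup Γ} [D.Normal] {q n : ℕ} (h : Ch D Y q n) :
    ∃ (Z : Type u) (_ : Group Z) (π : Γ →* Z), Function.Surjective π ∧ π.ker = centMod Y D ∧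
      Lin q (2 * n) Z := by
  have := h.nrm
  let φ := sectAct (D := D) (Y := Y) (S := ⊤) lnn lnn
  let ι : Γ →* (⊤ : Subgroup Γ) := (topEquiv (G := Γ)).symm.toMonoidHom
  have hι : Function.Surjective ι := (topEquiv (G := Γ)).symm.surjective
  refine ⟨φ.range, inferInstance, φ.rangeRestrict.comp ι,
    φ.rangeRestrict_surjective.comp hι, Subgroup.ext fun g => ?_, _, _, _,
    subtype_injective _, irrAct_sectAct h.sy.le lnn lnn h.irr, isMulCommutative_sect h.sy.comm,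
    pow_sect h.sy.pow, h.idx⟩
  rw [← MonoidHom.comap_ker, MonoidHom.ker_rangeRestrict, ker_sectAct]
  rfl

/-- The symplectic part `X` of `C(D)`. -/
structure Sx (D X : Subgroup Γ) (E : ℕ) : Prop where
  nX : X.Normal
  DX : D ≤ X
  XX : ⁅X, X⁆ ≤ D
  XZ : ∀ x ∈ X, x ∈ 𝐂(X) → x ∈ D
  idx : D.relIndex X = E ^ 2
  ch : ∀ g, (∀ Y q n, Y ≤ X → Ch D Y q n → g ∈ centMod Y D) → g ∈ centMod X D
  ord : ∀ ob : ℕ → ℕ, 1 ≤ ob 1 → (∀ a b, a * b ∣ E → ob a * ob b ≤ ob (a * b)) →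
    (∀ Y q n, Y ≤ X → Ch D Y q n → (centMod Y D).relIndex 𝐂(D) ≤ ob (q ^ n)) →
    (centMod X D).relIndex 𝐂(D) ≤ ob E

theorem recur3 [Group.IsSolvable Γ] {D : Subgroup Γ} [hD : D.Normal] [IsCyclic D]
    (hm : ∀ A : Subgroup Γ, A.Normal → D ≤ A → A ≤ 𝐂(A) → A = D) (C : Subgroup Γ) :
    C.Normal → D ≤ C → C ≤ 𝐂(D) → ∃ (X : Subgroup Γ) (E : ℕ), Sx D X E ∧ X ≤ C ∧
      C ⊓ 𝐂(X) ≤ D := by
  induction C using WellFoundedLT.induction with
  | _ C ih =>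
  intro _ DC hC
  have cD : centMod D D = ⊤ := top_le_iff.1 (le_centMod_iff.2 ⟨lnn, commutator_le_left _ _⟩)
  by_cases hn : C ≤ D
  · exact ⟨D, 1, ⟨hD, le_rfl, commutator_le_left _ _, fun _ h _ => h, relIndex_self _,
      fun g _ => cD ▸ mem_top g, fun ob h _ _ => by rwa [cD, relIndex_top_left]⟩, DC,
      inf_le_left.trans hn⟩
  obtain ⟨Y, ⟨hY, DY, YC, YD⟩, hmin⟩ := exists_minimal_of_wellFoundedLT
    (fun Y : Subgroup Γ => Y.Normal ∧ D ≤ Y ∧ Y ≤ C ∧ ¬ Y ≤ D) ⟨C, inferInstance, DC, le_rfl, hn⟩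
  obtain ⟨q, Y', hq, hY', a1, a2, h⟩ := exists_sy hm DY (YC.trans hC) YD
  obtain rfl : Y' = Y := le_antisymm a1 (hmin ⟨hY', h.le, a1.trans YC, a2⟩ a1)
  obtain ⟨n, i1, i2⟩ := h.sy hq
  have ch : Ch D Y' q n := ⟨hY, hq, h, Nat.pos_of_ne_zero fun e =>
    YD (relIndex_eq_one.1 (by rw [i1, e]; rfl)), i1, fun U c1 c2 c3 => by
      by_cases c4 : U ≤ D
      · exact Or.inl (le_antisymm c4 c1)
      · exact Or.inr (le_antisymm c2 (hmin ⟨normalizer_eq_top_iff.1 (top_le_iff.1 c3), c1,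
          c2.trans YC, c4⟩ c2)), (i2 _ le_rfl lnn).trans (sp_le q n)⟩
  let C2 := 𝐂(Y') ⊓ C
  have DC2 : D ≤ C2 := le_inf (cent_comm.1 h.cen) DC
  obtain ⟨X, E, ⟨hX, DX, XX, XZ, iX, c1, c2⟩, XC, iC⟩ := ih C2 (lt_of_le_of_ne inf_le_right fun e =>
    YD fun y hy => h.z y hy (e.ge (YC hy)).1) inferInstance DC2 (inf_le_right.trans hC)
  have XY : X ≤ 𝐂(Y') := XC.trans inf_le_left
  have i3 : X.relIndex (Y' ⊔ X) = q ^ (2 * n) := by
    rw [relIndex_sup_right, ← i1, ← inf_relIndex_right, ← inf_relIndex_right D]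
    congr 1
    exact le_antisymm (fun y hy => ⟨h.z y hy.2 (XY hy.1), hy.2⟩) (inf_le_inf_right _ DX)
  have cYX : ⁅Y', X⁆ ≤ D := (comm_eq_bot_iff.2 (cent_comm.1 XY)).le.trans bot_le
  have cs : ∀ {A B K : Subgroup Γ}, ⁅K, A⁆ ≤ D → ⁅K, B⁆ ≤ D → ⁅K, A ⊔ B⁆ ≤ D := fun a b =>
    (le_centMod_iff.1 (sup_le (le_centMod_iff.2 ⟨lnn, a⟩) (le_centMod_iff.2 ⟨lnn, b⟩))).2
  have k : centMod Y' D ⊓ centMod X D ≤ centMod (Y' ⊔ X) D := le_centMod_iff.2 ⟨lnn, by
    rw [commutator_comm]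
    exact cs (commutator_comm Y' _ ▸ (le_centMod_iff.1 inf_le_left).2)
      (commutator_comm X _ ▸ (le_centMod_iff.1 inf_le_right).2)⟩
  refine ⟨Y' ⊔ X, q ^ n * E, ⟨inferInstance, DX.trans le_sup_right, cs ?_ ?_, fun x hx e => ?_, ?_,
    fun g hg => k ⟨hg _ q n le_sup_left ch, c1 g fun Y q n a => hg Y q n (a.trans le_sup_right)⟩,
    fun ob o1 o2 o3 => ?_⟩, sup_le YC (XC.trans inf_le_right), ?_⟩
  · rw [commutator_comm]
    exact cs h.comm cYX
  · rw [commutator_comm]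
    exact cs (commutator_comm Y' X ▸ cYX) XX
  · obtain ⟨a, ha, b, hb, rfl⟩ := (mem_sup_of_norm lnn).1 hx
    rw [cent_sup] at e
    exact mul_mem (h.z a ha ((mul_mem_cancel_right (XY hb)).1 e.1))
      (XZ b hb ((mul_mem_cancel_left (cent_comm.1 XY ha)).1 e.2))
  · rw [← relIndex_mul_relIndex D X _ DX le_sup_right, iX, i3]; ring
  · exact (relIndex_le_of_le_left k FiniteIndex.index_ne_zero).trans (relIndex_inf_le.trans
      ((Nat.mul_le_mul (o3 _ q n le_sup_left ch) (c2 ob o1 (fun a b e => o2 a b (e.mul_left _))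
        fun Y q n a => o3 Y q n (a.trans le_sup_right))).trans (o2 _ _ dvd_rfl)))
  · rw [cent_sup]
    exact fun x hx => iC ⟨⟨hx.2.1, hx.1⟩, hx.2.2⟩

/-- The structure of a primitive solvable subgroup of `GL_m(p)`. -/
structure Str (p m : ℕ) (D X : Subgroup Γ) (E s : ℕ) : Prop extends Sx D X E where
  nD : D.Normal
  cyc : IsCyclic D
  XC : X ≤ 𝐂(D)
  E1 : 1 ≤ E
  dim : 𝐂(D).index * E ≤ m
  s1 : 1 ≤ s
  sE : s * E ≤ m
  dvd : 𝐨(D) ∣ p ^ s - 1
  pr : ∀ q, q.Prime → q ∣ E → q ∣ 𝐨(D)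
  cen : 𝐂(D) ⊓ centMod X D = X

theorem exists_str {p : ℕ} [hp : Fact p.Prime] {U : Type*} [Group.IsSolvable Γ] [AddCommGroup U]
    [Module (ZMod p) U] [Finite U] [Nontrivial U] {σ : Γ →* End (ZMod p) U} (h : Fpf σ) :
    ∃ (D X : Subgroup Γ) (E s : ℕ), Str p (finrank (ZMod p) U) D X E s := by
  obtain ⟨D, e, hD⟩ := exists_wt σ h
  have := hD.normal
  have := hD.cyc
  obtain ⟨X, E, hX, XC, iC⟩ := recur3 hD.max 𝐂(D) inferInstance hD.comm le_rfl
  have := hX.nX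
  obtain ⟨s, s1, s2, s3⟩ := wt3 σ (h D hD.normal hD.comm) XC hX.XX hX.XZ hX.idx
  have hE : E ≤ e := (Nat.pow_le_pow_iff_left two_ne_zero).1 (hX.idx ▸ hD.sq X XC hX.XX hX.XZ)
  have XM : X ≤ 𝐂(D) ⊓ centMod X D := le_inf XC (le_centMod_iff.2 ⟨lnn, hX.XX⟩)
  refine ⟨D, X, E, s, hX, hD.normal, hD.cyc, XC, Nat.pos_of_ne_zero fun e =>
    FiniteIndex.index_ne_zero (hX.idx.trans (by rw [e]; rfl)),
    (Nat.mul_le_mul_left _ hE).trans hD.dim, s1, s2, s3, fun q hq hqE => ?_, ?_⟩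
  · obtain ⟨d, hd, d1, dq⟩ := prime_dvd_card XC hX.XX hX.XZ hq (hX.idx ▸ Dvd.dvd.pow hqE two_ne_zero)
    have := Fact.mk hq
    rw [← orderOf_eq_prime dq d1]
    exact orderOf_dvd_card_of_mem hd
  · have a := dual_le (S := 𝐂(D) ⊓ centMod X D) XC (le_centMod_iff.1 inf_le_right).2
    have b := relIndex_mul_relIndex D X _ hX.DX XM
    have c : D.relIndex (𝐂(D) ⊓ centMod X D) ≤ D.relIndex X := by
      refine le_trans ?_ (a.trans (relIndex_le_of_le_left (cent_comm.1 inf_le_left)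
        FiniteIndex.index_ne_zero))
      rw [← inf_relIndex_right 𝐂(X)]
      exact relIndex_le_of_le_left (fun x hx => iC ⟨hx.2.1, hx.1⟩) FiniteIndex.index_ne_zero
    rw [← b] at c
    exact le_antisymm (relIndex_eq_one.1 (le_antisymm (Nat.le_of_mul_le_mul_left
      (c.trans (mul_one _).ge) (Nat.pos_of_ne_zero FiniteIndex.index_ne_zero))
      (Nat.pos_of_ne_zero FiniteIndex.index_ne_zero))) XM

namespace Str

variable {p m E s : ℕ} {D X : Subgroup Γ} (h : Str p m D X E s)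
include h

theorem ker : (haveI := h.nD; (MulAut.conjNormal : Γ →* MulAut D).ker) = 𝐂(D) :=
  Subgroup.ext fun g => ⟨fun e d hd => (mul_inv_eq_iff_eq_mul.1 (show g * d * g⁻¹ = d from
    congrArg Subtype.val (DFunLike.congr_fun (MonoidHom.mem_ker.1 e) (⟨d, hd⟩ : D)))).symm, fun e => MonoidHom.mem_ker.2
      (MulEquiv.ext fun d => Subtype.ext (mul_inv_eq_iff_eq_mul.2 (e d d.2).symm))⟩

theorem der1 : der ⊤ 1 ≤ 𝐂(D) := by
  have := h.cyc
  rw [← h.ker]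
  refine commutator_le.2 fun a _ b _ => ?_
  rw [MonoidHom.mem_ker, map_commutatorElement, commutatorElement_eq_one_iff_mul_comm]
  exact (IsCyclic.mulAutMulEquiv D).injective (by rw [map_mul, map_mul, mul_comm])

theorem tot : 𝐂(D).index ∣ 𝐨(D).totient := by
  have := h.cyc
  rw [← h.ker, index_ker, ← IsCyclic.card_mulAut]
  exact card_subgroup_dvd_card _

theorem card : Nat.card Γ = 𝐂(D).index * (centMod X D).relIndex 𝐂(D) * E ^ 2 * 𝐨(D) := by
  rw [← D.card_mul_index, ← relIndex_mul_index (h.DX.trans h.XC),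
    ← relIndex_mul_relIndex D X _ h.DX h.XC, h.idx, ← inf_relIndex_right (centMod X D), inf_comm,
    h.cen]
  ring

theorem dvdE {Y : Subgroup Γ} {q n : ℕ} (hY : Y ≤ X) (c : Ch D Y q n) : q ^ n ∣ E := by
  have := relIndex_mul_relIndex D Y X c.sy.le hY
  rw [c.idx, h.idx, mul_comm 2, pow_mul] at this
  exact (Nat.pow_dvd_pow_iff two_ne_zero).1 (Dvd.intro _ this)

theorem eq_of {Y : Subgroup Γ} {q n : ℕ} (hY : Y ≤ X) (c : Ch D Y q n) (e : q ^ n = E) : Y = X := by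
  have := relIndex_mul_relIndex D Y X c.sy.le hY
  rw [c.idx, h.idx, mul_comm 2, pow_mul, e] at this
  exact le_antisymm hY (relIndex_eq_one.1 (Nat.eq_of_mul_eq_mul_left (pow_pos h.E1 2)
    (this.trans (mul_one _).symm)))

theorem derX : der X 2 = ⊥ := eq_bot_iff.2 ((commutator_mono h.XX h.XX).trans
  (comm_eq_bot_iff.2 (h.DX.trans h.XC)).le)

/-- If the `L`-th derived subgroup centralizes the chief factors it lies in `X`. -/
theorem derL {L : ℕ} (hL : 1 ≤ L)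
    (c : ∀ Y q n, Y ≤ X → Ch D Y q n → der ⊤ L ≤ centMod Y D) : der ⊤ L ≤ X :=
  h.cen ▸ le_inf ((der_anti _ hL).trans h.der1) fun g hg => h.ch g fun Y q n a b => c Y q n a b hg

theorem lt (hp : p.Prime) : 𝐨(D) < p ^ s := by
  have := Nat.one_lt_pow (Nat.pos_iff_ne_zero.1 h.s1) hp.one_lt
  have := Nat.le_of_dvd (by omega) h.dvd
  omega

theorem pr' (hp : p.Prime) {q : ℕ} (hq : q.Prime) (e : q ∣ E) : q ≠ p ∧ q < p ^ s := by
  refine ⟨?_, lt_of_le_of_lt (Nat.le_of_dvd Nat.card_pos (h.pr q hq e)) (h.lt hp)⟩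
  rintro rfl
  exact hq.ne_one (Nat.dvd_one.1 ((Nat.dvd_sub_iff_right (Nat.one_le_pow _ _ hq.pos)
    (dvd_pow_self q (Nat.pos_iff_ne_zero.1 h.s1))).1 ((h.pr q hq e).trans h.dvd)))

theorem one (e : E = 1) : 𝐂(D) = D ∧ X = D := by
  have h1 : X = D := le_antisymm (relIndex_eq_one.1 (by rw [h.idx, e]; rfl)) h.DX
  have := h.nD
  refine ⟨?_, h1⟩
  have h2 := h.cen
  rwa [h1, top_le_iff.1 (le_centMod_iff.2 ⟨lnn, commutator_le_left _ _⟩ : ⊤ ≤ centMod D D),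
    inf_top_eq] at h2

end Str

end Cfsg.Agent.P23
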