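/-
P23: fixed spaces in primitive solvable linear groups.
-/
import Cfsg.Agent.P23.Str

set_option autoImplicit false
set_option linter.style.haveILetI false
set_option linter.unusedSectionVars false

namespace Cfsg.Agent.P23

open Subgroup Cfsg Cfsg.Agent Cfsg.Agent.FT Module
open Cfsg.Agent.H5.KRel (Fpf)
open Cfsg.Agent.H9 (rep_mul_apply rep_inv_apply rep_apply_inv)
open scoped commutatorElement

variable {p : ℕ} [hp : Fact p.Prime] {Γ W : Type*} [Group Γ] [Finite Γ] [AddCommGroup W]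
  [Module (ZMod p) W] [Finite W] (σ : Γ →* End (ZMod p) W)

namespace Fx

/-- The fixed space of `g`. -/
def fs (g : Γ) : Submodule (ZMod p) W := LinearMap.eqLocus (σ g) LinearMap.id

variable {σ}

theorem mem {g : Γ} {w : W} : w ∈ fs σ g ↔ σ g w = w := Iff.rfl

theorem pow_le {g : Γ} {a b : ℕ} (h : a * finrank (ZMod p) (fs σ g) ≤ b * finrank (ZMod p) W) :
    {w : W | σ g w = w}.ncard ^ a ≤ Nat.card W ^ b := by
  have e : {w : W | σ g w = w}.ncard = Nat.card (fs σ g) := rfl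
  rw [e, natCard_eq_pow_finrank (K := ZMod p), natCard_eq_pow_finrank (K := ZMod p) (V := W),
    ← pow_mul, ← pow_mul, mul_comm, mul_comm _ b]
  exact Nat.pow_le_pow_right Nat.card_pos h

theorem conj (x g : Γ) : finrank (ZMod p) (fs σ g) ≤ finrank (ZMod p) (fs σ (x * g * x⁻¹)) := by
  rw [((fs σ g).equivMapOfInjective _ (H9.rep_injective σ x)).finrank_eq]
  refine Submodule.finrank_mono ?_
  rintro _ ⟨w, hw, rfl⟩
  rw [mem, rep_mul_apply, rep_inv_apply, rep_mul_apply, mem.1 hw]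

theorem inf_le (x g : Γ) : fs σ g ⊓ fs σ (x * g * x⁻¹) ≤ fs σ ⁅x, g⁆ := fun w hw => by
  have : σ g⁻¹ w = w := by conv_lhs => rw [← mem.1 hw.1, rep_inv_apply]
  rw [mem, commutatorElement_def, rep_mul_apply, this, mem.1 hw.2]

theorem two (x g : Γ) : 2 * finrank (ZMod p) (fs σ g) ≤
    finrank (ZMod p) W + finrank (ZMod p) (fs σ ⁅x, g⁆) := by
  have h1 := Submodule.finrank_sup_add_finrank_inf_eq (fs σ g) (fs σ (x * g * x⁻¹))
  have h2 := Submodule.finrank_mono (inf_le (σ := σ) x g)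
  have h3 := Submodule.finrank_le (fs σ g ⊔ fs σ (x * g * x⁻¹))
  have h4 := conj (σ := σ) x g
  omega

variable {m E s : ℕ} {D X : Subgroup Γ} (hf : Fpf σ) (h : Str p m D X E s)
include hf h

theorem bot {d : Γ} (hd : d ∈ D) (d1 : d ≠ 1) : fs σ d = ⊥ :=
  eq_bot_iff.2 fun w hw => by_contra fun w0 => d1 (hf D h.nD (h.DX.trans h.XC) d hd w w0 hw)

theorem zero {d : Γ} (hd : d ∈ D) (d1 : d ≠ 1) : finrank (ZMod p) (fs σ d) = 0 := by
  rw [bot hf h hd d1, finrank_bot]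

omit hf in
theorem ex {g : Γ} (hg : g ∈ X) (gD : g ∉ D) : ∃ x ∈ X, ⁅x, g⁆ ∈ D ∧ ⁅x, g⁆ ≠ 1 := by
  by_contra! e
  exact gD (h.XZ g hg fun x hx => commutatorElement_eq_one_iff_mul_comm.1
    (e x hx (h.XX (commutator_mem_commutator hx hg))))

omit hf in
theorem ex' {g : Γ} (hg : g ∈ 𝐂(D)) (gX : g ∉ X) : ∃ x : Γ, ⁅x, g⁆ ∈ X ∧ ⁅x, g⁆ ≠ 1 := by
  by_contra! e
  refine gX (h.cen.le ⟨hg, mem_centMod.2 ⟨cent_le_norm _ hg, fun x hx => ?_⟩⟩)
  rw [e x (by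
    simpa only [commutatorElement_def, mul_assoc] using
      mul_mem hx (h.nX.conj_mem _ (inv_mem hx) g))]
  exact one_mem _

theorem f2 {g : Γ} (hg : g ∈ X) (g1 : g ≠ 1) :
    2 * finrank (ZMod p) (fs σ g) ≤ finrank (ZMod p) W := by
  by_cases gD : g ∈ D
  · simp [zero hf h gD g1]
  obtain ⟨x, -, h1, h2⟩ := ex h hg gD
  simpa [zero hf h h1 h2] using two (σ := σ) x g

theorem f3 (ho : Odd (Nat.card Γ)) {g : Γ} (hg : g ∈ X) (g1 : g ≠ 1) :
    3 * finrank (ZMod p) (fs σ g) ≤ finrank (ZMod p) W := by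
  by_cases gD : g ∈ D
  · simp [zero hf h gD g1]
  obtain ⟨x, hx, h1, h2⟩ := ex h hg gD
  set z := ⁅x, g⁆ with hz
  have c : ∀ y ∈ X, z * y = y * z := fun y hy => h.XC hy z h1
  have e1 : x * g * x⁻¹ = z * g := by rw [hz]; group
  have e2 : x * (x * g * x⁻¹) * x⁻¹ = z * z * g := by
    rw [e1, ← mul_assoc, ← c x hx, mul_assoc z x, mul_assoc z, e1, mul_assoc]
  have z2 : z * z ≠ 1 := fun e => h2 (orderOf_eq_one_iff.1 (Nat.eq_one_of_dvd_coprimes
    (Nat.coprime_two_left.2 ho) (orderOf_dvd_of_pow_eq_one (by rw [sq, e])) (orderOf_dvd_natCard z)))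
  have a1 : fs σ g ⊓ fs σ (x * g * x⁻¹) = ⊥ := eq_bot_iff.2 ((inf_le x g).trans (bot hf h h1 h2).le)
  have a2 : (fs σ g ⊔ fs σ (x * g * x⁻¹)) ⊓ fs σ (x * (x * g * x⁻¹) * x⁻¹) = ⊥ :=
    eq_bot_iff.2 fun w hw => by
      obtain ⟨u, hu, v, hv, rfl⟩ := Submodule.mem_sup.1 hw.1
      have b1 := mem.1 hw.2
      have b2 := mem.1 hv
      rw [e2, map_add, rep_mul_apply, mem.1 hu, mul_assoc, ← e1, rep_mul_apply σ z (x * g * x⁻¹),
        b2] at b1
      have b3 : σ (z * z) u - u = v - σ z v := by rw [sub_eq_sub_iff_add_eq_add, b1, add_comm]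
      have b4 : σ (z * z) u - u ∈ fs σ g ⊓ fs σ (x * g * x⁻¹) := ⟨sub_mem (by
        rw [mem, ← rep_mul_apply, ← mul_assoc, ← c g hg, mul_assoc, ← c g hg, ← mul_assoc,
          rep_mul_apply, mem.1 hu]) hu, b3 ▸ sub_mem hv (by
        rw [mem, ← rep_mul_apply, ← c _ (h.nX.conj_mem g hg x), rep_mul_apply, b2])⟩
      rw [a1, Submodule.mem_bot] at b4
      rw [(bot hf h (mul_mem h1 h1) z2).le (mem.2 (sub_eq_zero.1 b4)),
        (bot hf h h1 h2).le (mem.2 (sub_eq_zero.1 (b3.symm.trans b4)).symm), add_zero]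
      exact zero_mem _
  have r1 := Submodule.finrank_sup_add_finrank_inf_eq (fs σ g) (fs σ (x * g * x⁻¹))
  have r2 := Submodule.finrank_sup_add_finrank_inf_eq (fs σ g ⊔ fs σ (x * g * x⁻¹))
    (fs σ (x * (x * g * x⁻¹) * x⁻¹))
  have r3 := Submodule.finrank_le (fs σ g ⊔ fs σ (x * g * x⁻¹) ⊔ fs σ (x * (x * g * x⁻¹) * x⁻¹))
  have r4 := conj (σ := σ) x g
  have r5 := conj (σ := σ) x (x * g * x⁻¹)
  rw [a1, finrank_bot] at r1
  rw [a2, finrank_bot] at r2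
  omega

end Fx

section
variable {σ} {m E s : ℕ} {D X : Subgroup Γ} (hf : Fpf σ) (h : Str p m D X E s)
include hf h

theorem fix2 {g : Γ} (hg : g ∈ X) (g1 : g ≠ 1) : {w : W | σ g w = w}.ncard ^ 2 ≤ Nat.card W := by
  simpa using Fx.pow_le (b := 1) (by simpa using Fx.f2 hf h hg g1)

theorem fix4 {g : Γ} (g1 : g ≠ 1) : {w : W | σ g w = w}.ncard ^ 4 ≤ Nat.card W ^ 3 := by
  refine Fx.pow_le ?_
  by_cases gX : g ∈ X
  · have := Fx.f2 hf h gX g1
    omega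
  by_cases gC : g ∈ 𝐂(D)
  · obtain ⟨x, h1, h2⟩ := Fx.ex' h gC gX
    have := Fx.f2 hf h h1 h2
    have := Fx.two (σ := σ) x g
    omega
  obtain ⟨x, hx, h1⟩ : ∃ x ∈ D, ⁅x, g⁆ ≠ 1 := by
    by_contra! e
    exact gC fun x hx => commutatorElement_eq_one_iff_mul_comm.1 (e x hx)
  have := Fx.zero hf h (d := ⁅x, g⁆) (by
    simpa only [commutatorElement_def, mul_assoc] using
      mul_mem hx (h.nD.conj_mem _ (inv_mem hx) g)) h1
  have := Fx.two (σ := σ) x g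
  omega

theorem fix3 (ho : Odd (Nat.card Γ)) {g : Γ} (hg : g ∈ X) (g1 : g ≠ 1) :
    {w : W | σ g w = w}.ncard ^ 3 ≤ Nat.card W := by
  simpa using Fx.pow_le (b := 1) (by simpa using Fx.f3 hf h ho hg g1)

theorem fix32 (ho : Odd (Nat.card Γ)) {g : Γ} (gC : g ∈ 𝐂(D)) (g1 : g ≠ 1) :
    {w : W | σ g w = w}.ncard ^ 3 ≤ Nat.card W ^ 2 := by
  refine Fx.pow_le ?_
  by_cases gX : g ∈ X
  · have := Fx.f3 hf h ho gX g1
    omega
  obtain ⟨x, h1, h2⟩ := Fx.ex' h gC gX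
  have := Fx.f3 hf h ho h1 h2
  have := Fx.two (σ := σ) x g
  omega

end

theorem ineq (T : Set W) (k : ℕ) (h : k * Nat.card Γ < T.ncard) :
    ∃ w : Fin (k + 1) → W, (∀ i, w i ∈ T) ∧ ∀ i j g, σ g (w i) = w j → i = j := by
  induction k with
  | zero =>
    obtain ⟨t, ht⟩ := Set.nonempty_of_ncard_ne_zero (Nat.ne_zero_of_lt h)
    exact ⟨fun _ => t, fun _ => ht, fun i j _ _ => Subsingleton.elim (α := Fin 1) i j⟩
  | succ k ih =>
    obtain ⟨w, h1, h2⟩ := ih ((Nat.mul_le_mul_right _ k.le_succ).trans_lt h)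
    obtain ⟨t, ht, h3⟩ := Set.exists_mem_notMem_of_ncard_lt_ncard
      (s := Set.range fun x : Fin (k + 1) × Γ => σ x.2 (w x.1)) (lt_of_le_of_lt (by
        rw [← Set.image_univ]
        exact (Set.ncard_image_le (Set.toFinite _)).trans (by simp [Set.ncard_univ])) h)
    refine ⟨Fin.cons t w, Fin.cases ht h1, Fin.cases (Fin.cases (fun _ _ => rfl) fun j g e => ?_)
      fun i => Fin.cases (fun g e => ?_) fun j g e => congrArg _ (h2 i j g e)⟩
    · exact (h3 ⟨(j, g⁻¹), (congrArg (σ g⁻¹) e).symm.trans (rep_inv_apply σ g t)⟩).elim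
    · exact (h3 ⟨(i, g), e⟩).elim

theorem reg (R : Subgroup Γ) (F : ℕ) (h : ∀ g ∈ R, g ≠ 1 → {w : W | σ g w = w}.ncard ≤ F) :
    Nat.card W ≤ {w : W | ∀ g ∈ R, σ g w = w → g = 1}.ncard + Nat.card R * F := by
  classical
  letI := Fintype.ofFinite R
  rw [← Set.ncard_add_ncard_compl {w : W | ∀ g ∈ R, σ g w = w → g = 1}]
  refine Nat.add_le_add_left ((Set.ncard_le_ncard (t := ⋃ g : R, {w : W | g ≠ 1 ∧ σ g w = w})
    fun w hw => ?_).trans ((Set.ncard_iUnion_le_of_fintype _).trans ?_)) _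
  · obtain ⟨g, hg, e, g1⟩ : ∃ g ∈ R, σ g w = w ∧ g ≠ 1 := by simpa using hw
    exact Set.mem_iUnion.2 ⟨⟨g, hg⟩, fun k => g1 (congrArg Subtype.val k), e⟩
  · rw [Nat.card_eq_fintype_card]
    refine Finset.sum_le_card_nsmul _ _ F fun g _ => ?_
    by_cases g1 : g = 1
    · simp [g1]
    · simpa [g1] using h g g.2 fun k => g1 (Subtype.ext k)

end Cfsg.Agent.P23
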