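/-
P23: a solvable group of order at most `648` has derived length at most `5`.
-/
import Cfsg.Agent.P23.Blk
import Cfsg.Agent.L.MinNormal

set_option autoImplicit false

namespace Cfsg.Agent.P23

open Subgroup Cfsg Cfsg.Agent
open Cfsg.Agent.H1 (der map_der der_add der_mono der_le der_anti der_succ)
open scoped commutatorElement

universe u

namespace OC

variable {G : Type*} [Group G]

theorem cent_of_cyc {B : Subgroup G} [B.Normal] (h : IsCyclic B) :
    ∀ g ∈ der (⊤ : Subgroup G) 1, ∀ b ∈ B, b * g = g * b := by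
  have h1 : der (⊤ : Subgroup G) 1 ≤ (MulAut.conjNormal (H := B)).ker := by
    refine commutator_le.2 fun x _ y _ => ?_
    rw [MonoidHom.mem_ker, map_commutatorElement, commutatorElement_eq_one_iff_mul_comm]
    exact (IsCyclic.mulAutMulEquiv B).injective (by rw [map_mul, map_mul, mul_comm])
  intro g hg b hb
  have := congrArg Subtype.val (DFunLike.congr_fun (MonoidHom.mem_ker.1 (h1 hg)) ⟨b, hb⟩)
  simp only [MulAut.conjNormal_apply, MulAut.one_apply] at this
  calc b * g = (g * b * g⁻¹) * g := by rw [this]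
    _ = g * b := by group

theorem le_comm {A B : Subgroup G} [hB : B.Normal] (h2 : B.relIndex A = 2) : ⁅A, A⁆ ≤ ⁅A, B⁆ := by
  refine commutator_le.2 fun x hx y hy => ?_
  by_cases h1 : x ∈ B
  · rw [commutator_comm A B]; exact commutator_mem_commutator h1 hy
  by_cases h3 : y ∈ B
  · exact commutator_mem_commutator hx h3
  have h4 : x⁻¹ * y ∈ B := by
    have := (mul_mem_iff_of_index_two (H := B.subgroupOf A) h2 (a := (⟨x, hx⟩ : A)⁻¹)
      (b := ⟨y, hy⟩)).2 (by simp [mem_subgroupOf, h1, h3])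
    simpa [mem_subgroupOf] using this
  have : ⁅x, y⁆ = ⁅x, x * (x⁻¹ * y) * x⁻¹⁆ := by simp only [commutatorElement_def]; group
  rw [this]
  exact commutator_mem_commutator hx (hB.conj_mem _ h4 x)

theorem idx [Finite G] {A B S : Subgroup G} {r : ℕ} (hr : r.Prime) (hB : Nat.card B = r)
    (hA : ⁅A, A⁆ ≤ B) (hc : ∀ g ∈ A, ∀ b ∈ B, b * g = g * b) (hS : S ≤ A) {x y : G} (hx : x ∈ S)
    (hy : y ∈ A) (h : ⁅x, y⁆ ≠ 1) : (centralizer {y}).relIndex S = r := by
  have m : ∀ s : S, ⁅(s : G), y⁆ ∈ B := fun s => hA (commutator_mem_commutator (hS s.2) hy)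
  let f : S →* B := MonoidHom.mk' (fun s => ⟨⁅(s : G), y⁆, m s⟩) fun s t => Subtype.ext (by
    have e1 := hc s (hS s.2) _ (m t)
    have e2 := hc _ (commutator_le_self A (commutator_mem_commutator (hS s.2) hy)) _ (m t)
    simp only [coe_mul]
    calc ⁅(s : G) * t, y⁆ = s * ⁅(t : G), y⁆ * (s : G)⁻¹ * ⁅(s : G), y⁆ := by
          simp only [commutatorElement_def]; group
      _ = _ := by rw [← e1, mul_inv_cancel_right, e2])
  have hk : f.ker = (centralizer {y}).subgroupOf S := by
    ext s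
    rw [MonoidHom.mem_ker, mem_subgroupOf, mem_centralizer_singleton_iff, Subtype.ext_iff]
    exact commutatorElement_eq_one_iff_mul_comm
  rw [relIndex, ← hk, index_ker]
  refine ((Nat.dvd_prime hr).1 (hB ▸ card_subgroup_dvd_card f.range)).resolve_left fun e => h ?_
  have : f ⟨x, hx⟩ ∈ (⊥ : Subgroup B) := card_eq_one.1 e ▸ ⟨_, rfl⟩
  exact congrArg Subtype.val (mem_bot.1 this)

theorem rules [Finite G] {A B : Subgroup G} [hB : B.Normal] (hA : A ≤ der ⊤ 1) (e : ⁅A, A⁆ = B)
    (h0 : ⁅B, B⁆ = ⊥) (h1 : B ≠ ⊥) :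
    ((Nat.card B).Prime → Nat.card B * Nat.card B ≤ B.relIndex A) ∧
      (B.relIndex A = 2 → 7 ≤ Nat.card B) := by
  have BA : B ≤ A := e ▸ commutator_le_self A
  refine ⟨fun hr => ?_, fun h2 => ?_⟩
  · have := Fact.mk hr
    have hc : ∀ g ∈ A, ∀ b ∈ B, b * g = g * b := fun g hg =>
      cent_of_cyc (isCyclic_of_prime_card rfl) g (hA hg)
    obtain ⟨x, hx, y, hy, h⟩ : ∃ x ∈ A, ∃ y ∈ A, ⁅x, y⁆ ≠ 1 := by
      by_contra h
      push Not at h
      exact h1 (eq_bot_iff.2 (e ▸ commutator_le.2 fun x hx y hy => mem_bot.2 (h x hx y hy)))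
    have i1 := idx hr rfl e.le hc le_rfl hy hx (fun k => h (by
      rw [← commutatorElement_inv, k, inv_one]))
    have i2 := idx hr rfl e.le hc (inf_le_right : centralizer {x} ⊓ A ≤ A)
      ⟨mem_centralizer_singleton_iff.2 rfl, hx⟩ hy h
    have i3 := relIndex_mul_relIndex (centralizer {y} ⊓ (centralizer {x} ⊓ A))
      (centralizer {x} ⊓ A) A inf_le_right inf_le_right
    rw [inf_relIndex_right, inf_relIndex_right, i1, i2] at i3
    rw [i3]
    refine relIndex_le_of_le_left (fun b hb => ⟨?_, ?_, BA hb⟩) index_ne_zero_of_finite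
    exacts [mem_centralizer_singleton_iff.2 (hc y hy b hb),
      mem_centralizer_singleton_iff.2 (hc x hx b hb)]
  · have h3 : B ≤ ⁅A, B⁆ := e.ge.trans (le_comm h2)
    have h4 : ¬ Squarefree (Nat.card B) := fun hs => by
      have := IsZGroup.of_squarefree hs
      have hm : IsMulCommutative B := le_centralizer_iff_isMulCommutative.1
        (commutator_eq_bot_iff_le_centralizer.1 h0)
      have : Group.IsNilpotent B := FT.isNilpotent_of_isMulComm hm
      refine h1 (eq_bot_iff.2 (h3.trans (commutator_le.2 fun x hx y hy => mem_bot.2 ?_)))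
      exact commutatorElement_eq_one_iff_mul_comm.2
        (cent_of_cyc inferInstance x (hA hx) y hy).symm
    have h5 : Nat.card B ≠ 4 := fun h4 => by
      have c : Nat.card A = 2 ^ 3 := by
        have := (B.subgroupOf A).card_mul_index
        rw [Nat.card_congr (subgroupOfEquivOfLe BA).toEquiv, h4] at this
        change _ * B.relIndex A = _ at this
        rw [← this, h2]; rfl
      have := (IsPGroup.of_card c).isNilpotent
      have := L.commutator_lt_of_isNilpotent BA le_normalizer_of_normal h1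
      rw [commutator_comm] at this
      exact this.not_ge h3
    have h6 : Nat.card B ≠ 0 := Nat.card_pos.ne'
    by_contra h7
    generalize Nat.card B = n at *
    have : n < 7 := by omega
    interval_cases n <;> first | omega | exact h4 (by decide +kernel)

/-- The constraints on consecutive factors of the derived series. -/
def R (x y : ℕ) : Prop := 2 ≤ x ∧ 2 ≤ y ∧ (y = 2 → 4 ≤ x) ∧ (y = 3 → 9 ≤ x) ∧ (x = 2 → 7 ≤ y)

instance (x y : ℕ) : Decidable (R x y) := by unfold R; infer_instance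

theorem num {a b c d e : ℕ} (h1 : R a b) (h2 : R b c) (h3 : R c d) (h4 : R d e) :
    336 ≤ a * b * c * d * e := by
  have k : ∀ a b : Fin 10, R a b → ∀ c : Fin 10, R b c → ∀ d : Fin 10, R c d → ∀ e : Fin 10,
      R d e → 336 ≤ a.1 * b * c * d * e := by decide +kernel
  have t : ∀ x y, R x y → R (min x 9) (min y 9) := fun x y h => by unfold R at *; omega
  refine (k ⟨min a 9, by omega⟩ ⟨min b 9, by omega⟩ (t _ _ h1) ⟨min c 9, by omega⟩ (t _ _ h2)
    ⟨min d 9, by omega⟩ (t _ _ h3) ⟨min e 9, by omega⟩ (t _ _ h4)).trans ?_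
  simp only
  gcongr <;> exact min_le_left _ _

theorem two_le [Finite G] [Group.IsSolvable G] {i : ℕ} (h : der (⊤ : Subgroup G) i ≠ ⊥) :
    2 ≤ (der (⊤ : Subgroup G) (i + 1)).relIndex (der ⊤ i) := by
  have h1 := IsSolvable.commutator_lt_of_ne_bot h
  have h2 : (der (⊤ : Subgroup G) (i + 1)).relIndex (der ⊤ i) ≠ 0 := index_ne_zero_of_finite
  have h3 : (der (⊤ : Subgroup G) (i + 1)).relIndex (der ⊤ i) ≠ 1 := fun e =>
    h1.not_ge (relIndex_eq_one.1 e)
  omega

theorem rule [Finite G] [Group.IsSolvable G] {i : ℕ} (h : der (⊤ : Subgroup G) (i + 2) ≠ ⊥) :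
    R ((der (⊤ : Subgroup G) (i + 2)).relIndex (der ⊤ (i + 1)))
      ((der (⊤ : Subgroup G) (i + 3)).relIndex (der ⊤ (i + 2))) := by
  have t1 := two_le h
  have t2 := two_le (i := i + 1) fun e => h (eq_bot_iff.2 (e ▸ der_anti (⊤ : Subgroup G) (by omega)))
  have := der_normal (H := G) (i + 3)
  let π := QuotientGroup.mk' (der (⊤ : Subgroup G) (i + 3))
  have hk : π.ker = der ⊤ (i + 3) := QuotientGroup.ker_mk' _
  have hm : ∀ j, der (⊤ : Subgroup (G ⧸ der (⊤ : Subgroup G) (i + 3))) j = (der ⊤ j).map π :=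
    fun j => by rw [map_der, map_top_of_surjective _ (QuotientGroup.mk'_surjective _)]
  have := der_normal (H := G ⧸ der (⊤ : Subgroup G) (i + 3)) (i + 2)
  have e0 : der (⊤ : Subgroup (G ⧸ der (⊤ : Subgroup G) (i + 3))) (i + 3) = ⊥ := by
    rw [hm, Subgroup.map_eq_bot_iff, hk]
  have e1 : ∀ j, j ≤ i + 2 → (der (⊤ : Subgroup (G ⧸ der (⊤ : Subgroup G) (i + 3))) (j + 1)).relIndex
      (der ⊤ j) = (der (⊤ : Subgroup G) (j + 1)).relIndex (der ⊤ j) := fun j hj => by
    rw [hm, hm, relIndex_map_map, hk, sup_eq_left.2 (der_anti _ (by omega)),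
      sup_eq_left.2 (der_anti _ (by omega))]
  have e2 := e1 (i + 2) le_rfl
  rw [e0, relIndex_bot_left] at e2
  obtain ⟨r1, r2⟩ := rules (der_anti ⊤ (by omega : 1 ≤ i + 1)) (der_succ _ (i + 1)).symm e0
    (fun e => by rw [e, card_bot] at e2; omega)
  rw [e2, e1 (i + 1) (by omega)] at r1 r2
  refine ⟨t2, t1, fun e => ?_, fun e => ?_, r2⟩
  · rw [e] at r1; exact r1 Nat.prime_two
  · rw [e] at r1; exact r1 Nat.prime_three

end OC

theorem oStmt : OStmt.{u} := by
  intro G _ _ _ hG
  by_contra h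
  have h' : ∀ i ≤ 5, der (⊤ : Subgroup G) i ≠ ⊥ := fun i hi e =>
    h (eq_bot_iff.2 (e ▸ der_anti (⊤ : Subgroup G) hi))
  have h1 := OC.num (OC.rule (i := 0) (h' _ (by omega))) (OC.rule (i := 1) (h' _ (by omega)))
    (OC.rule (i := 2) (h' _ (by omega))) (OC.rule (i := 3) (h' _ (by omega)))
  have h2 := OC.two_le (h' 0 (by omega))
  have s : ∀ i, (der (⊤ : Subgroup G) (i + 1)).relIndex (der ⊤ i) * (der (⊤ : Subgroup G) i).index =
      (der (⊤ : Subgroup G) (i + 1)).index := fun i => relIndex_mul_index (der_anti _ (by omega))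
  have h3 : (der (⊤ : Subgroup G) 6).index ≤ 648 :=
    (Nat.le_of_dvd Nat.card_pos (index_dvd_card _)).trans hG
  have s0 : (der (⊤ : Subgroup G) 0).index = 1 := index_top
  rw [← s 5, ← s 4, ← s 3, ← s 2, ← s 1, ← s 0, s0] at h3
  have := Nat.mul_le_mul h1 h2
  simp only [zero_add, Nat.reduceAdd] at *
  nlinarith

end Cfsg.Agent.P23
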