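/-
P23: tables of orders and derived lengths of small irreducible solvable linear groups, tools.
-/
import Cfsg.Agent.P23.Str

set_option autoImplicit false
set_option linter.style.haveILetI false
set_option linter.unusedSectionVars false

namespace Cfsg.Agent.P23

open Subgroup Cfsg Cfsg.Agent Cfsg.Agent.FT Module Cfsg.Agent.H7.Hk Cfsg.Agent.H5
open Cfsg.Agent.H1 (der map_der der_add der_mono der_le der_anti der_succ)
open Cfsg.Agent.H5.KRel (Fpf card_le_blocks)
open Cfsg.Agent.H2.Hk (el)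
open scoped commutatorElement

universe u v

/-- Derived length at most `n`. -/
abbrev DL (Y : Type*) [Group Y] (n : ℕ) : Prop := der (⊤ : Subgroup Y) n = ⊥

theorem DL.mono {Y : Type*} [Group Y] {a b : ℕ} (h : DL Y a) (l : a ≤ b) : DL Y b :=
  eq_bot_iff.2 (h ▸ der_anti _ l)

theorem DL.le_ker {Y Z : Type*} [Group Y] [Group Z] {a : ℕ} (h : DL Z a) (π : Y →* Z)
    (S : Subgroup Y) : der S a ≤ π.ker :=
  (H1.der_le_ker_iff π S a).2 (eq_bot_iff.2 (h ▸ der_mono le_top a))

section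

variable {Γ : Type u} [Group Γ] [Finite Γ] {p m E s : ℕ} {D X : Subgroup Γ}

theorem Str.prime_dvd [Fact p.Prime] {W : Type*} [AddCommGroup W] [Module (ZMod p) W] [Finite W]
    {σ : Γ →* End (ZMod p) W} (hf : Fpf σ) (h : Str p m D X E s) {r : ℕ} (hr : r.Prime)
    (e : r ∣ 𝐨(D)) : Nat.card W ≡ 1 [MOD r] := by
  have := Fact.mk hr
  obtain ⟨d, hd⟩ := exists_prime_orderOf_dvd_card' (G := D) r e
  letI : MulAction (zpowers d) W := MulAction.compHom W (σ.comp (D.subtype.comp (zpowers d).subtype))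
  have h1 := (IsPGroup.of_card (G := zpowers d) (n := 1)
    (by rw [Nat.card_zpowers, hd, pow_one])).card_modEq_card_fixedPoints W
  rwa [show MulAction.fixedPoints (zpowers d) W = {0} from Set.eq_singleton_iff_unique_mem.2
    ⟨fun g => map_zero (σ g), fun w hw => by_contra fun w0 => hr.ne_one (by
      rw [← hd, show d = 1 from Subtype.ext (hf D h.nD (h.DX.trans h.XC) d d.2 w w0
        (hw ⟨d, mem_zpowers d⟩)), orderOf_one])⟩, Nat.card_coe_set_eq, Set.ncard_singleton] at h1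

namespace Str

variable [Group.IsSolvable Γ] (h : Str p m D X E s)
include h

theorem le_of {L : ℕ} (hL : 1 ≤ L) (c : ∀ (q n : ℕ) (Z : Type u) [Group Z] [Finite Z]
    [Group.IsSolvable Z], q.Prime → 1 ≤ n → q ^ n ∣ E → Nat.card Z ∣ Nat.card Γ →
      Lin q (2 * n) Z → DL Z L) : der ⊤ L ≤ X :=
  h.derL hL fun Y q n a b => by
    have := h.nD
    obtain ⟨Z, _, π, hs, e, l⟩ := b.lin
    have := Finite.of_surjective π hs
    have := Group.isSolvable_of_surjective hs
    exact e ▸ (c q n Z b.prime b.pos (h.dvdE a b) (card_dvd_of_surjective π hs) l).le_ker π ⊤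

theorem dl_of {L : ℕ} (l : der ⊤ L ≤ X) : DL Γ (L + 2) := by
  rw [DL, der_add]
  exact eq_bot_iff.2 (h.derX ▸ der_mono l 2)

theorem derD : der D 1 = ⊥ := comm_eq_bot_iff.2 (h.DX.trans h.XC)

theorem dl_one (e : E = 1) : DL Γ 2 := by
  rw [DL, der_add _ 1 1]
  exact eq_bot_iff.2 (h.derD ▸ der_mono ((h.one e).1 ▸ h.der1) 1)

theorem dl_top (e : E = 1) (e' : 𝐂(D).index = 1) : D = ⊤ ∧ DL Γ 1 := by
  have h1 : D = ⊤ := (h.one e).1 ▸ index_eq_one.1 e'
  exact ⟨h1, by rw [DL, ← h1]; exact h.derD⟩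

theorem pos : 1 ≤ 𝐂(D).index := Nat.pos_of_ne_zero index_ne_zero_of_finite

theorem Em : E ≤ m := (Nat.le_mul_of_pos_left E h.s1).trans h.sE

theorem m1 (e : m = 1) : D = ⊤ ∧ DL Γ 1 := by
  have := h.Em
  have := h.E1
  have := h.pos
  have := h.dim
  obtain rfl : E = 1 := by omega
  exact h.dl_top rfl (by omega)

theorem m0 (e : m = 1) (e' : p = 2) : DL Γ 0 := by
  have := h.sE
  have := h.s1
  have := Nat.le_mul_of_pos_right s h.E1
  obtain rfl : s = 1 := by omega
  have h1 := h.dvd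
  rw [e', (h.m1 e).1] at h1
  exact card_eq_one.1 (Nat.dvd_one.1 h1)

theorem two (e : p = 2) : E = 1 ∨ ¬ 2 ∣ E ∧ 2 * E ≤ m := by
  subst e
  refine or_iff_not_imp_left.2 fun e => ⟨fun k => (h.pr' Nat.prime_two Nat.prime_two k).1 rfl, ?_⟩
  obtain ⟨q, hq, k⟩ := Nat.exists_prime_and_dvd e
  obtain ⟨a, b⟩ := h.pr' Nat.prime_two hq k
  have := hq.two_le
  refine le_trans (Nat.mul_le_mul_right E ?_) h.sE
  by_contra c
  have := h.s1
  obtain rfl : s = 1 := by omega
  omega

theorem ord_one (e : E = 1) : Nat.card Γ = 𝐂(D).index * 𝐨(D) := by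
  rw [(h.one e).1, mul_comm, card_mul_index]

theorem odd (o : Odd (Nat.card Γ)) : Odd 𝐂(D).index ∧ Odd E ∧ Odd 𝐨(D) :=
  ⟨o.of_dvd_nat (index_dvd_card _), o.of_dvd_nat (h.card ▸ Dvd.dvd.mul_right
    (Dvd.dvd.mul_left (dvd_pow_self E two_ne_zero) _) _), o.of_dvd_nat (card_subgroup_dvd_card _)⟩

end Str

end

variable {Y : Type u} [Group Y] [Finite Y] [Group.IsSolvable Y] {q n : ℕ}

theorem Lin.blocks (h : Lin q n Y) (hp : q.Prime) (hn : 1 ≤ n) :
    ∃ (t m : ℕ) (Γ : Type u) (_ : Group Γ) (_ : Finite Γ) (_ : Group.IsSolvable Γ)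
      (D X : Subgroup Γ) (E s : ℕ), t * m = n ∧ Str q m D X E s ∧
      (∀ k, PiStmt.{u} k → t ≤ k → ∀ b, DL Γ b → DL Y (pi t + b)) ∧
      Nat.card Y ≤ t.factorial * Nat.card Γ ^ t ∧ t ∣ Nat.card Y ∧ Nat.card Γ ∣ Nat.card Y ∧
      ∀ r, r.Prime → r ∣ 𝐨(D) → q ^ m ≡ 1 [MOD r] := by
  obtain ⟨V, _, φ, hφ, hi, hc, he, hV⟩ := h
  have := Fact.mk hp
  have h1 : 1 < q ^ n := Nat.one_lt_pow (by omega) hp.one_lt
  have : Finite V := Nat.finite_of_card_ne_zero (by omega)
  letI : CommGroup V := { (inferInstance : Group V) with mul_comm := hc.is_comm.comm }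
  have : Nontrivial (H1.EA V he) := by
    rw [← Finite.one_lt_card_iff_nontrivial, H1.card_EA]; omega
  have hr : finrank (ZMod q) (H1.EA V he) = n := by
    have h2 := Module.natCard_eq_pow_finrank (K := ZMod q) (V := H1.EA V he)
    rw [Nat.card_zmod, H1.card_EA, hV] at h2
    exact (Nat.pow_right_injective hp.two_le h2).symm
  obtain ⟨N, Γ, _, _, π, W, σ, hs, W0, hd, hk, hf, -⟩ := blocks2 (H1.autRep he φ) fun W hW => by
    rcases hi (H1.eaSubgroup he W) (fun g u hu => hW g _ hu) with h | h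
    · refine Or.inl (eq_bot_iff.2 fun w hw => ?_)
      obtain ⟨v, rfl⟩ := (H1.eaOf he).surjective w
      exact (H1.eaOf_eq_zero he).2 (mem_bot.1 (h.le hw))
    · refine Or.inr (eq_top_iff.2 fun w _ => ?_)
      obtain ⟨v, rfl⟩ := (H1.eaOf he).surjective w
      exact h.ge (mem_top v)
  have := Group.isSolvable_of_surjective hs
  have : Nontrivial W := Submodule.nontrivial_iff_ne_bot.2 W0
  obtain ⟨D, X, E, s, hS⟩ := exists_str hf
  have h3 : (π.ker.map N.subtype).normalCore = ⊥ := eq_bot_iff.2 fun g hg =>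
    hφ (((H1.autRep_eq_one_iff he φ g).1 (hk hg)).trans (map_one φ).symm)
  refine ⟨N.index, _, Γ, _, inferInstance, inferInstance, D, X, E, s, hr ▸ hd, hS,
    fun k Pi l b hb => ?_, ?_, index_dvd_card _,
    (card_dvd_of_surjective π hs).trans (card_subgroup_dvd_card _), fun r hr e => ?_⟩
  · have := der_normal (H := Y) (pi N.index)
    rw [DL, der_add, eq_bot_iff, ← h3]
    refine der_le_core π (fun x => ?_) fun x => eq_bot_iff.2 (hb ▸ der_mono le_top b)
    rw [conj_eq_of_mem_norm (lnn (mem_top x))]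
    exact Pi Y ⊤ N _ l (relIndex_top_right N).le
  · have h2 := relIndex_core (K := N.normalCore) (M := N) (B := π.ker.map N.subtype) le_rfl (by
      rw [subgroupOf, comap_map_eq_self_of_injective N.subtype_injective]; infer_instance)
    have h4 : (π.ker.map N.subtype).relIndex N = Nat.card Γ := by
      rw [relIndex, subgroupOf, comap_map_eq_self_of_injective N.subtype_injective, index_ker,
        MonoidHom.range_eq_top.2 hs, card_top]
    rw [h3, relIndex_bot_left, h4] at h2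
    rw [← N.normalCore.card_mul_index, mul_comm]
    exact Nat.mul_le_mul (Nat.le_of_dvd (Nat.factorial_pos _) (index_normalCore_dvd_factorial N))
      (Nat.le_of_dvd (pow_pos Nat.card_pos _) h2)
  · have h2 := Module.natCard_eq_pow_finrank (K := ZMod q) (V := W)
    rw [Nat.card_zmod] at h2
    exact h2 ▸ hS.prime_dvd hf hr e

theorem Lin.dvd (h : Lin q n Y) (hp : q.Prime) :
    Nat.card Y ∣ ∏ i ∈ Finset.range n, (q ^ n - q ^ i) := by
  obtain ⟨V, _, φ, hφ, hi, hc, he, hV⟩ := h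
  have := Fact.mk hp
  have : Finite V := Nat.finite_of_card_ne_zero (hV ▸ (pow_pos hp.pos n).ne')
  rw [← H7.card_mulAut_of_elementary hc he hV]
  exact card_dvd_of_injective φ hφ

/-- The numerical condition behind the order bounds. -/
def Ck1 (q B t a E s : ℕ) : Prop := (∀ r ∈ [2, 3, 5, 7], r ∣ E → r ≠ q ∧ r < q ^ s) →
  t.factorial * (a * el E * (q ^ s - 1)) ^ t ≤ B

instance (q B t a E s : ℕ) : Decidable (Ck1 q B t a E s) := by unfold Ck1; infer_instance

/-- The numerical condition for fixed block data. -/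
def Ck2 (q B t m E : ℕ) : Prop := ∀ a ≤ m, a * E ≤ m → ∀ s ≤ m, s * E ≤ m → Ck1 q B t a E s

instance (q B t m E : ℕ) : Decidable (Ck2 q B t m E) := by unfold Ck2; infer_instance

/-- The numerical condition for fixed number and dimension of blocks. -/
def Ck3 (q B t m : ℕ) : Prop := ∀ E ≤ m, 1 ≤ E → Ck2 q B t m E

instance (q B t m : ℕ) : Decidable (Ck3 q B t m) := by unfold Ck3; infer_instance

theorem Lin.ord (h : Lin q n Y) (hp : q.Prime) (hn : 1 ≤ n) (B : ℕ)
    (hB : ∀ t ≤ n, ∀ m ≤ n, 1 ≤ m → t * m ≤ n → Ck3 q B t m) : Nat.card Y ≤ B := by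
  obtain ⟨V, _, φ, hφ, hi, hc, he, hV⟩ := h
  obtain ⟨t, m, a, E, s, a1, a2, a3, a4, a5, a6, a7, a8⟩ := card_le_blocks hφ hi hc hp he hV hn
  have b1 : t ≤ t * m := Nat.le_mul_of_pos_right _ a2
  have b2 : m ≤ t * m := Nat.le_mul_of_pos_left _ a1
  have b3 : a ≤ a * E := Nat.le_mul_of_pos_right _ a6
  have b4 : s ≤ s * E := Nat.le_mul_of_pos_right _ a6
  rcases Nat.eq_zero_or_pos s with rfl | s1
  · exact a8.trans (by simp [Nat.pos_iff_ne_zero.1 a1])
  have b5 : E ≤ s * E := Nat.le_mul_of_pos_left _ s1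
  refine a8.trans (hB t (by omega) m (by omega) a2 a3 E (by omega) a6 a (by omega) a4 s (by omega)
    a5 fun r hr => a7 r ?_)
  simp only [List.mem_cons, List.not_mem_nil, or_false] at hr
  rcases hr with rfl | rfl | rfl | rfl <;> norm_num

theorem o22 (h : Lin 2 2 Y) : Nat.card Y ≤ 6 := h.ord Nat.prime_two (by norm_num) _ (by decide +kernel)

theorem o24 (h : Lin 2 4 Y) : Nat.card Y ≤ 72 := h.ord Nat.prime_two (by norm_num) _ (by decide +kernel)

theorem o26 (h : Lin 2 6 Y) : Nat.card Y ≤ 1296 :=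
  h.ord Nat.prime_two (by norm_num) _ (by decide +kernel)

theorem o28 (h : Lin 2 8 Y) : Nat.card Y ≤ 40320 :=
  h.ord Nat.prime_two (by norm_num) _ (by decide +kernel)

theorem o210 (h : Lin 2 10 Y) : Nat.card Y ≤ 3628800 :=
  h.ord Nat.prime_two (by norm_num) _ (by decide +kernel)

theorem o34 (h : Lin 3 4 Y) : Nat.card Y ≤ 5000 :=
  h.ord Nat.prime_three (by norm_num) _ (by decide +kernel)

theorem o54 (h : Lin 5 4 Y) : Nat.card Y ≤ 18432 :=
  h.ord Nat.prime_five (by norm_num) _ (by decide +kernel)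

theorem ordStmt : OrdStmt.{u} := by
  intro Y _ _ _
  refine ⟨fun q n hq h => Nat.le_of_dvd (Finset.prod_pos fun i hi => Nat.sub_pos_of_lt
    (Nat.pow_lt_pow_right hq.one_lt (Finset.mem_range.1 hi))) (h.dvd hq), o24,
    fun h => h.ord Nat.prime_two (by norm_num) _ (by decide +kernel), o26,
    fun h => h.ord Nat.prime_two (by norm_num) _ (by decide +kernel), o28, o34, fun o =>
    ⟨fun h => ?_, fun h => h.ord Nat.prime_three (by norm_num) _ (by decide +kernel)⟩⟩
  have h1 : Nat.card Y ∣ 3 ^ 1 * 2 ^ 4 := h.dvd Nat.prime_three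
  have h2 := (Nat.Coprime.pow_right 4 o.coprime_two_right).dvd_of_dvd_mul_right h1
  obtain ⟨V, _, φ, hφ, hi, hc, he, hV⟩ := h
  have : Finite V := Nat.finite_of_card_ne_zero (by omega)
  have := Fact.mk Nat.prime_three
  obtain ⟨k, -, e⟩ := (Nat.dvd_prime_pow Nat.prime_three).1 h2
  by_contra c
  have h3 := card_fixS_modEq φ ((IsPGroup.of_card e).to_subgroup ⊤)
  rw [hi.fixS_eq_bot hφ fun e => c (by rw [← card_top, e, card_bot]), card_bot, hV] at h3
  exact absurd h3 (by decide)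

end Cfsg.Agent.P23
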