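/-
P23: derived lengths of small irreducible solvable linear groups.
-/
import Cfsg.Agent.P23.T1

set_option autoImplicit false
set_option linter.style.haveILetI false
set_option linter.unusedSectionVars false

namespace Cfsg.Agent.P23

open Subgroup Cfsg Cfsg.Agent Cfsg.Agent.FT
open Cfsg.Agent.H1 (der)

universe u

/-- The statement of `piGen`. -/
def PGStmt : Prop := ∀ k ≤ 16, (∀ (q a : ℕ) (Y : Type u) [Group Y] [Finite Y] [Group.IsSolvable Y],
  q.Prime → 1 ≤ a → q ^ a ≤ k → Lin q a Y → der (⊤ : Subgroup Y) (pi (q ^ a) - 1) = ⊥) → PiStmt.{u} k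

theorem pi1 : PiStmt.{u} 1 := fun _ _ _ _ S N t l h => (H1.der_le _ _).trans (relIndex_eq_one.1
  (le_antisymm (h.trans l) (Nat.pos_of_ne_zero FiniteIndex.index_ne_zero)))

theorem pi_le {t k : ℕ} (h : t ≤ k) : pi t ≤ pi k := by
  unfold pi
  split_ifs <;> omega

theorem pp_cases {q n : ℕ} (hq : q.Prime) (hn : 1 ≤ n) (h : q ^ n ≤ 16) :
    n = 1 ∨ (q = 2 ∧ (n = 2 ∨ n = 3 ∨ n = 4)) ∨ (q = 3 ∧ n = 2) := by
  have h2 := hq.two_le
  have h3 : n < 5 := (Nat.pow_lt_pow_iff_right (by norm_num : 1 < 2)).1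
    (lt_of_le_of_lt ((Nat.pow_le_pow_left h2 n).trans h) (by norm_num))
  have h4 : q ≤ 16 := (Nat.le_self_pow (by omega) q).trans h
  interval_cases n <;> interval_cases q <;> simp_all <;> norm_num at hq

variable {Y : Type u} [Group Y] [Finite Y] [Group.IsSolvable Y] {q n : ℕ}

theorem t1 (hq : q.Prime) (h : Lin q 1 Y) : DL Y 1 ∧ (q = 2 → DL Y 0) := by
  obtain ⟨t, m, Γ, _, _, _, D, X, E, s, e, hS, d, -⟩ := h.blocks hq le_rfl
  obtain ⟨rfl, rfl⟩ := mul_eq_one.1 e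
  exact ⟨d 1 pi1 le_rfl 1 (hS.m1 rfl).2, fun e => d 1 pi1 le_rfl 0 (hS.m0 rfl e)⟩

theorem prim1 (hq : q.Prime) (h : Lin q 1 Y) : DL Y (pi (q ^ 1) - 1) := by
  rcases hq.two_le.eq_or_lt with rfl | l
  · exact (t1 hq h).2 rfl
  · exact (t1 hq h).1.mono (by have := pi_le (show 3 ≤ q ^ 1 by rw [pow_one]; omega); simp [pi] at *; omega)

variable (PG : PGStmt.{u})
include PG

theorem pi3 : PiStmt.{u} 3 := PG 3 (by norm_num) fun q a Y _ _ _ hq ha l h => by
  rcases pp_cases hq ha (by omega) with rfl | ⟨rfl, rfl | rfl | rfl⟩ | ⟨rfl, rfl⟩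
  · exact prim1 hq h
  all_goals omega

omit PG in
theorem t2 {k : ℕ} (Pi : PiStmt.{u} k) (h : Lin 2 n Y) (h1 : 1 ≤ n) (h5 : n ≤ 5) (hk : n ≤ k) :
    DL Y (max (pi n) (pi (n / 2) + 2)) := by
  obtain ⟨t, m, Γ, _, _, _, D, X, E, s, rfl, hS, d, -⟩ := h.blocks Nat.prime_two h1
  have a1 : 1 ≤ m := hS.E1.trans hS.Em
  have a2 : t ≤ t * m := Nat.le_mul_of_pos_right _ a1
  rcases a1.eq_or_lt with rfl | l
  · exact (d k Pi (by omega) 0 (hS.m0 rfl rfl)).mono (by simp)
  · have a3 : t * 2 ≤ t * m := Nat.mul_le_mul_left _ l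
    have a4 : m ≤ t * m := Nat.le_mul_of_pos_left _ (by nlinarith)
    refine (d k Pi (by omega) 2 (hS.dl_one ?_)).mono
      (le_max_of_le_right (Nat.add_le_add_right (pi_le (by omega)) _))
    have := hS.two rfl
    have := hS.E1
    omega

theorem t22 (h : Lin 2 2 Y) : DL Y 2 := t2 (pi3 PG) h (by norm_num) (by norm_num) (by norm_num)

theorem pi7 : PiStmt.{u} 7 := PG 7 (by norm_num) fun q a Y _ _ _ hq ha l h => by
  rcases pp_cases hq ha (by omega) with rfl | ⟨rfl, rfl | rfl | rfl⟩ | ⟨rfl, rfl⟩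
  · exact prim1 hq h
  · exact t22 PG h
  all_goals omega

theorem t24 (h : Lin 2 4 Y) : DL Y 3 := t2 (pi7 PG) h (by norm_num) (by norm_num) (by norm_num)

section

variable {Γ : Type u} [Group Γ] [Finite Γ] [Group.IsSolvable Γ] {p m E s : ℕ} {D X : Subgroup Γ}

theorem s4 (h : Str p m D X E s) (e : E ∣ 4) : der ⊤ 3 ≤ X ∧ (E ≤ 2 → der ⊤ 2 ≤ X) := by
  refine ⟨h.le_of (by norm_num) fun q n Z _ _ _ hq hn a _ l => ?_,
    fun b => h.le_of (by norm_num) fun q n Z _ _ _ hq hn a _ l => ?_⟩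
  all_goals
    have c := Nat.le_of_dvd (by norm_num) (a.trans e)
    have c' := Nat.le_of_dvd h.E1 a
    obtain rfl := (Nat.prime_dvd_prime_iff_eq hq Nat.prime_two).1 (hq.dvd_of_dvd_pow
      (n := 2) ((dvd_pow_self q (by omega)).trans (a.trans e)))
    rcases pp_cases hq hn (by omega) with rfl | ⟨-, rfl | rfl | rfl⟩ | ⟨k, -⟩ <;> try omega
  · exact (t22 PG l).mono (by norm_num)
  · exact t24 PG l
  · exact t22 PG l

theorem m2 (h : Str p m D X E s) (e : m ≤ 2) : DL Γ 4 := by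
  have := h.Em.trans e
  have := h.E1
  exact h.dl_of ((s4 PG h (by interval_cases E <;> first | omega | norm_num)).2 (by omega))

end

theorem tq2 (hq : q.Prime) (h : Lin q 2 Y) : DL Y 4 := by
  obtain ⟨t, m, Γ, _, _, _, D, X, E, s, e, hS, d, -⟩ := h.blocks hq (by norm_num)
  have a1 : t ≤ 2 := Nat.le_of_dvd two_pos (Dvd.intro _ e)
  interval_cases t
  · omega
  · exact d 1 pi1 le_rfl 4 (m2 PG hS (by omega))
  · exact (d 3 (pi3 PG) (by norm_num) 1 (hS.m1 (by omega)).2).mono (by decide)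

theorem pi16 : PiStmt.{u} 16 := PG 16 le_rfl fun q a Y _ _ _ hq ha l h => by
  rcases pp_cases hq ha l with rfl | ⟨rfl, rfl | rfl | rfl⟩ | ⟨rfl, rfl⟩
  · exact prim1 hq h
  · exact t22 PG h
  · exact (t2 (pi3 PG) h (by norm_num) (by norm_num) (by norm_num)).mono (by decide)
  · exact (t24 PG h).mono (by decide)
  · exact (tq2 PG hq h).mono (by decide)

theorem c8 (hq : q.Prime) (hn : 1 ≤ n) (l : q ^ n < 8) (h : Lin q (2 * n) Y) : DL Y 4 := by
  rcases pp_cases hq hn (by omega) with rfl | ⟨rfl, rfl | rfl | rfl⟩ | ⟨rfl, rfl⟩ <;> try omega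
  · exact tq2 PG hq h
  · exact (t24 PG h).mono (by norm_num)

theorem s8 {Γ : Type u} [Group Γ] [Finite Γ] [Group.IsSolvable Γ] {p m E s : ℕ} {D X : Subgroup Γ}
    (h : Str p m D X E s) (e : E < 8) : DL Γ 6 :=
  h.dl_of (h.le_of (by norm_num) fun _ _ _ _ _ _ hq hn a _ l =>
    c8 PG hq hn ((Nat.le_of_dvd h.E1 a).trans_lt e) l)

theorem t26 (h : Lin 2 6 Y) : DL Y 6 := by
  obtain ⟨t, m, Γ, _, _, _, D, X, E, s, e, hS, d, -⟩ := h.blocks Nat.prime_two (by norm_num)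
  have a1 : t ≤ 6 := Nat.le_of_dvd (by norm_num) (Dvd.intro _ e)
  have := hS.two rfl
  have := hS.E1
  interval_cases t <;> try omega
  · exact d 1 pi1 le_rfl 6 (s8 PG hS (by omega))
  · exact (d 7 (pi7 PG) (by norm_num) 2 (hS.dl_one (by omega))).mono (by decide)
  · exact (d 7 (pi7 PG) (by norm_num) 2 (hS.dl_one (by omega))).mono (by decide)
  · exact (d 7 (pi7 PG) (by norm_num) 0 (hS.m0 (by omega) rfl)).mono (by decide)

theorem t34 (h : Lin 3 4 Y) : DL Y 5 := by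
  obtain ⟨t, m, Γ, _, _, _, D, X, E, s, e, hS, d, -⟩ := h.blocks Nat.prime_three (by norm_num)
  have a1 : t ≤ 4 := Nat.le_of_dvd (by norm_num) (Dvd.intro _ e)
  have a2 : ¬ 3 ∣ E := fun k => (hS.pr' Nat.prime_three Nat.prime_three k).1 rfl
  have := hS.E1
  have := hS.Em
  interval_cases t <;> try omega
  · have : E ≤ 4 := by omega
    exact d 1 pi1 le_rfl 5 (hS.dl_of (s4 PG hS (by
      interval_cases E <;> first | omega | norm_num)).1)
  · exact d 7 (pi7 PG) (by norm_num) 4 (m2 PG hS (by omega))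
  · exact (d 7 (pi7 PG) (by norm_num) 1 (hS.m1 (by omega)).2).mono (by decide)

theorem t28 (h : Lin 2 8 Y) : DL Y 5 ∨ Nat.card Y ≤ 1458 := by
  obtain ⟨t, m, Γ, _, _, _, D, X, E, s, e, hS, d, c, -⟩ := h.blocks Nat.prime_two (by norm_num)
  have a1 : t ≤ 8 := Nat.le_of_dvd (by norm_num) (Dvd.intro _ e)
  have := hS.two rfl
  have := hS.E1
  by_cases e1 : E = 1
  · left
    interval_cases t <;> try omega
    · exact (d 1 pi1 le_rfl 2 (hS.dl_one e1)).mono (by decide)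
    · exact (d 7 (pi7 PG) (by norm_num) 2 (hS.dl_one e1)).mono (by decide)
    · exact d 7 (pi7 PG) (by norm_num) 2 (hS.dl_one e1)
    · exact (d 16 (pi16 PG) (by norm_num) 0 (hS.m0 (by omega) rfl)).mono (by decide)
  right
  interval_cases t <;> try omega
  obtain rfl : E = 3 := by omega
  have b1 := hS.ord (· ^ 3) le_rfl (fun a b _ => (mul_pow a b 3).ge) fun Y q n a b => by
    have k := Nat.le_of_dvd (by norm_num) (hS.dvdE a b)
    rcases pp_cases b.prime b.pos (by omega) with rfl | ⟨rfl, rfl | rfl | rfl⟩ | ⟨rfl, rfl⟩ <;>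
      try omega
    simpa using b.sp
  have b2 := hS.dim
  have b3 := hS.sE
  have b4 := (hS.lt Nat.prime_two).trans_le (Nat.pow_le_pow_right two_pos (show s ≤ 2 by omega))
  rw [hS.card] at c
  exact c.trans (by
    simpa using Nat.mul_le_mul (Nat.mul_le_mul (Nat.mul_le_mul (show 𝐂(D).index ≤ 2 by omega) b1)
      (le_refl 9)) (show 𝐨(D) ≤ 3 by omega))

theorem c9 (hq : q.Prime) (hn : 1 ≤ n) (l : q ^ n ≤ 8) (h : Lin q (2 * n) Y) : DL Y 6 := by
  rcases l.eq_or_lt with e | l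
  · rcases pp_cases hq hn (by omega) with rfl | ⟨rfl, rfl | rfl | rfl⟩ | ⟨rfl, rfl⟩ <;> try omega
    · exact (tq2 PG hq h).mono (by norm_num)
    · exact t26 PG h
  · exact (c8 PG hq hn l h).mono (by norm_num)

theorem c512 (hq : q.Prime) (hn : 1 ≤ n) (l : q ^ n < 512) (h : Lin q (2 * n) Y) : DL Y 8 := by
  obtain ⟨t, m, Γ, _, _, _, D, X, E, s, e, hS, d, -⟩ := h.blocks hq (by omega)
  have lt : ∀ r k, r ≤ q → 512 ≤ r ^ k → n < k := fun r k a b => lt_of_not_ge fun c =>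
    l.not_ge (b.trans ((Nat.pow_le_pow_left a k).trans (Nat.pow_le_pow_right hq.pos c)))
  have n9 := lt 2 9 hq.two_le (by norm_num)
  have a0 := hS.E1
  have a1 := hS.Em
  have a2 : ∀ k, k ≤ m → t * k ≤ 2 * n := fun k a => e ▸ Nat.mul_le_mul_left t a
  have a3 : m ≤ 2 * n := e ▸ Nat.le_mul_of_pos_left _ (Nat.pos_of_ne_zero (by rintro rfl; omega))
  have use : ∀ k b, t ≤ k → k ≤ 16 → pi k + b ≤ 8 → DL Γ b → DL Y 8 := fun k b x y z w =>
    (d 16 (pi16 PG) (x.trans y) b w).mono ((Nat.add_le_add_right (pi_le x) b).trans z)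
  by_cases m1 : m = 1
  · exact use 16 1 (by have := a2 1 m1.ge; omega) le_rfl (by decide) (hS.m1 m1).2
  have a4 := a2 2 (by omega)
  rcases hq.two_le.eq_or_lt with rfl | q3
  · have := hS.two rfl
    by_cases m5 : m ≤ 5
    · exact use 8 2 (by omega) (by norm_num) (by decide) (hS.dl_one (by omega))
    · exact use 2 6 (by have := a2 6 (by omega); omega) (by norm_num) (by decide)
        (s8 PG hS (by omega))
  have n6 := lt 3 6 q3 (by norm_num)
  by_cases m3 : m ≤ 2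
  · exact use 7 4 (by omega) (by norm_num) (by decide) (m2 PG hS m3)
  by_cases m8 : m < 8
  · exact use 3 6 (by have := a2 3 (by omega); omega) (by norm_num) (by decide)
      (s8 PG hS (by omega))
  obtain rfl : q = 3 := by
    by_contra c
    have := lt 5 4 (hq.five_le_of_ne_two_of_ne_three (by omega) c) (by norm_num)
    omega
  refine use 1 8 (by have := a2 8 (by omega); omega) (by norm_num) (by decide)
    (hS.dl_of (hS.le_of (by norm_num) fun r k Z _ _ _ hr hk x _ y => c9 PG hr hk ?_ y))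
  have x1 := Nat.le_of_dvd a0 x
  have x2 : r ≠ 3 := (hS.pr' Nat.prime_three hr ((dvd_pow_self r (by omega)).trans x)).1
  rcases pp_cases hr hk (by omega) with rfl | ⟨rfl, rfl | rfl | rfl⟩ | ⟨rfl, rfl⟩ <;> try omega
  rw [pow_one] at *
  by_contra c
  have : r ≤ 10 := by omega
  interval_cases r <;> norm_num at hr

end Cfsg.Agent.P23
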