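/-
P23: order bounds and prime divisors for primitive solvable linear groups.
-/
import Cfsg.Agent.P23.T2
import Cfsg.Agent.P23.Aff

set_option autoImplicit false
set_option linter.style.haveILetI false
set_option linter.unusedSectionVars false

namespace Cfsg.Agent.P23

open Subgroup Cfsg Cfsg.Agent Cfsg.Agent.FT Cfsg.Agent.H5 Cfsg.Agent.H7.Hk
open Cfsg.Agent.H1 (der)

universe u

theorem pg : PGStmt.{u} := fun _ hk h => piGen affStmt hk h

variable {Γ : Type u} [Group Γ] [Finite Γ] [Group.IsSolvable Γ] {p m E s : ℕ} {D X : Subgroup Γ}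

theorem Ch.le {Y : Subgroup Γ} [D.Normal] {q n B : ℕ} (c : Ch D Y q n)
    (h : ∀ (Z : Type u) [Group Z] [Finite Z] [Group.IsSolvable Z], Lin q (2 * n) Z →
      Nat.card Z ≤ B) : (centMod Y D).index ≤ B ∧ (centMod Y D).relIndex 𝐂(D) ≤ B := by
  obtain ⟨Z, _, π, hs, e, l⟩ := c.lin
  have := Finite.of_surjective π hs
  have := Group.isSolvable_of_surjective hs
  have h1 : (centMod Y D).index ≤ B := by
    rw [← e, index_ker, MonoidHom.range_eq_top.2 hs, card_top]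
    exact h Z l
  exact ⟨h1, (relIndex_le_of_le_right le_top FiniteIndex.index_ne_zero).trans
    (by rwa [relIndex_top_right])⟩

/-- Exponent in the order bound. -/
def kap (E : ℕ) : ℕ :=
  if E < 25 then 4 else if E < 27 then 5 else if E < 64 then 7 else 2 * Nat.log 2 E + 1

theorem Ch.kap {Y : Subgroup Γ} [D.Normal] {q n : ℕ} (c : Ch D Y q n) (l : q ^ n ≤ E) :
    (centMod Y D).relIndex 𝐂(D) ≤ (q ^ n) ^ kap E := by
  have h2 := c.prime.two_le
  have a0 : 0 < q ^ n := pow_pos c.prime.pos n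
  have gen : 2 * n + 1 ≤ P23.kap E → (centMod Y D).relIndex 𝐂(D) ≤ (q ^ n) ^ P23.kap E := fun k =>
    c.sp.trans (le_trans (by rw [← pow_mul]; exact le_of_eq (by ring_nf))
      (Nat.pow_le_pow_right a0 k))
  have sp : ∀ B k, k ≤ P23.kap E → B ≤ (q ^ n) ^ k → (centMod Y D).relIndex 𝐂(D) ≤ B →
      (centMod Y D).relIndex 𝐂(D) ≤ (q ^ n) ^ P23.kap E := fun B k a b d =>
    d.trans (b.trans (Nat.pow_le_pow_right a0 a))
  have k4 : 4 ≤ P23.kap E := by unfold P23.kap; split_ifs <;> try omega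
                                have := Nat.le_log_of_pow_le (by norm_num : 1 < 2) (show 2 ^ 6 ≤ E by omega)
                                omega
  by_cases e : 64 ≤ E
  · have := Nat.le_log_of_pow_le (by norm_num : 1 < 2) ((Nat.pow_le_pow_left h2 n).trans l)
    exact gen (by unfold P23.kap; split_ifs <;> omega)
  have k5 : 25 ≤ E → 5 ≤ P23.kap E := fun _ => by unfold P23.kap; split_ifs <;> omega
  have k7 : 27 ≤ E → 7 ≤ P23.kap E := fun _ => by unfold P23.kap; split_ifs <;> omega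
  have lt : ∀ r k, r ≤ q → k ≤ n → r ^ k ≤ E := fun r k a b =>
    (Nat.pow_le_pow_left a k).trans ((Nat.pow_le_pow_right c.prime.pos b).trans l)
  have n6 : n < 6 := lt_of_not_ge fun k => by have := lt 2 6 h2 k; omega
  have n1 := c.pos
  rcases h2.eq_or_lt with rfl | q3
  · interval_cases n
    · exact gen (by omega)
    · exact sp _ 4 k4 (by norm_num) (c.le fun Z _ _ _ => o24).2
    · exact sp _ 4 k4 (by norm_num) (c.le fun Z _ _ _ => o26).2
    · exact sp _ 4 k4 (by norm_num) (c.le fun Z _ _ _ => o28).2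
    · exact sp _ 7 (k7 (by omega)) (by norm_num) (c.le fun Z _ _ _ => o210).2
  have n4 : n < 4 := lt_of_not_ge fun k => by have := lt 3 4 q3 k; omega
  interval_cases n
  · exact gen (by omega)
  · by_cases e3 : q = 3
    · subst e3
      exact sp _ 4 k4 (by norm_num) (c.le fun Z _ _ _ => o34).2
    · exact gen (k5 (lt 5 2 (c.prime.five_le_of_ne_two_of_ne_three (by omega) e3) le_rfl))
  · exact gen (k7 (lt 3 3 q3 le_rfl))

/-- Order bound when `E` divides `16`. -/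
def ob2 (x : ℕ) : ℕ :=
  if x = 1 then 1 else if x = 2 then 6 else if x = 4 then 72 else if x = 8 then 1296 else 7776

namespace Str

variable (h : Str p m D X E s)
include h

theorem ord_kap : (centMod X D).relIndex 𝐂(D) ≤ E ^ kap E :=
  have := h.nD
  h.ord (· ^ kap E) (by simp) (fun a b _ => (mul_pow a b _).ge) fun _ _ _ a b =>
    b.kap (Nat.le_of_dvd h.E1 (h.dvdE a b))

theorem cases16 (e : E ∣ 16) {Y : Subgroup Γ} {q n : ℕ} (a : Y ≤ X) (b : Ch D Y q n) :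
    q = 2 ∧ n ≤ 4 := by
  have c := (h.dvdE a b).trans e
  obtain rfl := (Nat.prime_dvd_prime_iff_eq b.prime Nat.prime_two).1 (b.prime.dvd_of_dvd_pow
    (n := 4) ((dvd_pow_self q (Nat.pos_iff_ne_zero.1 b.pos)).trans c))
  exact ⟨rfl, (Nat.pow_dvd_pow_iff_le_right (by norm_num)).1 c⟩

theorem ord_ob2 (e : E ∣ 16) (c : Ch D X 2 4 → (centMod X D).relIndex 𝐂(D) ≤ 7776) :
    (centMod X D).relIndex 𝐂(D) ≤ ob2 E := by
  have := h.nD
  refine h.ord ob2 le_rfl (fun a b k => ?_) fun Y q n a b => ?_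
  · have k1 := k.trans e
    have := Nat.le_of_dvd (by norm_num) (dvd_of_mul_right_dvd k1)
    have := Nat.le_of_dvd (by norm_num) (dvd_of_mul_left_dvd k1)
    clear k
    interval_cases a <;> interval_cases b <;> first | decide | exact absurd k1 (by decide)
  · obtain ⟨rfl, l⟩ := h.cases16 e a b
    have := b.pos
    interval_cases n
    · exact (b.le fun Z _ _ _ => o22).2
    · exact (b.le fun Z _ _ _ => o24).2
    · exact (b.le fun Z _ _ _ => o26).2
    · obtain rfl := h.eq_of a b (Nat.dvd_antisymm (h.dvdE a b) e)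
      exact c b

theorem primes {r : ℕ} (hr : r.Prime) (e : r ∣ Nat.card Γ) : r ∣ 𝐂(D).index ∨ r ∣ E ∨ r ∣ 𝐨(D) ∨
    ∃ d, d ∣ E ^ 2 ∧ d < E ^ 2 ∧ E ^ 2 ≡ d [MOD r] := by
  have := Fact.mk hr
  have := h.nD
  have := h.nX
  rw [← 𝐂(D).card_mul_index] at e
  refine ((Nat.Prime.dvd_mul hr).1 e).symm.imp_right fun e => ?_
  obtain ⟨g, hg⟩ := exists_prime_orderOf_dvd_card' (G := 𝐂(D)) r e
  by_cases k : (g : Γ) ∈ X
  · have h1 := orderOf_dvd_card_of_mem k
    rw [Subgroup.orderOf_coe, hg, ← H1.card_inf_mul_relIndex D X, inf_eq_left.2 h.DX, h.idx] at h1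
    exact ((Nat.Prime.dvd_mul hr).1 h1).symm.imp hr.dvd_of_dvd_pow .inl
  let φ := sectAct (D := D) (Y := X) (S := 𝐂(D)) lnn lnn
  have h1 := card_fixS_modEq φ (IsPGroup.of_card (G := zpowers g) (n := 1)
    (by rw [Nat.card_zpowers, hg, pow_one]))
  have h2 : Nat.card (X ⧸ D.subgroupOf X) = E ^ 2 := h.idx
  refine .inr (.inr ⟨_, h2 ▸ card_subgroup_dvd_card _, h2 ▸ L.card_lt_of_ne_top fun e => k ?_,
    h2 ▸ h1⟩)
  refine h.cen.le (mem_inf.2 ⟨g.2, (ker_sectAct lnn lnn).le (show φ g = 1 from ?_)⟩)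
  exact MulEquiv.ext fun v => (e.ge (mem_top v) : v ∈ fixS φ _) g (mem_zpowers g)

theorem card_le (hp : p.Prime) {B : ℕ} (b : (centMod X D).relIndex 𝐂(D) ≤ B) :
    Nat.card Γ ≤ m / E * (B * E ^ 2) * (p ^ (m / E) - 1) ∧ 𝐨(D) < p ^ (m / E) ∧
      𝐂(D).index ≤ m / E ∧ s ≤ m / E := by
  have a1 := (Nat.le_div_iff_mul_le h.E1).2 h.dim
  have a2 := (Nat.le_div_iff_mul_le h.E1).2 h.sE
  have a3 := (h.lt hp).trans_le (Nat.pow_le_pow_right hp.pos a2)
  refine ⟨?_, a3, a1, a2⟩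
  rw [h.card, mul_assoc 𝐂(D).index]
  exact Nat.mul_le_mul (Nat.mul_le_mul a1 (Nat.mul_le_mul_right _ b)) (Nat.le_sub_one_of_lt a3)

end Str

theorem size {p m E c B g : ℕ} (hE : 2 ≤ E) (hm : E ≤ m) (hp : 2 ≤ p)
    (h : g ≤ m / E * B * (p ^ (m / E) - 1)) (k : c * B * (m / E) ≤ (p ^ (m / E)) ^ (E - 1)) :
    c * g < p ^ m - 1 := by
  have a1 : 1 ≤ m / E := Nat.div_pos hm (by omega)
  have a2 : 2 ≤ p ^ (m / E) := hp.trans (Nat.le_self_pow (by omega) p)
  have a3 : (p ^ (m / E)) ^ E ≤ p ^ m := by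
    rw [← pow_mul]; exact Nat.pow_le_pow_right (by omega) (Nat.div_mul_le_self m E)
  generalize p ^ (m / E) = R at *
  obtain ⟨E, rfl⟩ : ∃ k, E = k + 1 := ⟨E - 1, by omega⟩
  obtain ⟨R, rfl⟩ : ∃ k, R = k + 1 := ⟨R - 1, by omega⟩
  simp only [Nat.add_sub_cancel] at h k
  have a4 : R + 1 ≤ (R + 1) ^ E := Nat.le_self_pow (by omega) _
  have a5 : c * g ≤ (R + 1) ^ E * R := (Nat.mul_le_mul_left c h).trans
    (le_trans (le_of_eq (by ring)) (Nat.mul_le_mul_right R k))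
  rw [pow_succ, mul_add] at a3
  omega

theorem size' {p m E c B g r : ℕ} (hE : 2 ≤ E) (hm : E ≤ m) (hp : 2 ≤ p)
    (h : g ≤ m / E * B * (p ^ (m / E) - 1)) (l : r ≤ p ^ (m / E)) (k : c * B ≤ 2 * r ^ (E - 2)) :
    c * g < p ^ m - 1 := by
  refine size hE hm hp h (Nat.le_of_mul_le_mul_left ?_ two_pos)
  have a1 : 1 ≤ m / E := Nat.div_pos hm (by omega)
  have a2 : 2 * (m / E) ≤ p ^ (m / E) := (Nat.mul_le_pow (by norm_num) _).trans
    (Nat.pow_le_pow_left hp _)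
  calc 2 * (c * B * (m / E)) = c * B * (2 * (m / E)) := by ring
    _ ≤ 2 * (p ^ (m / E)) ^ (E - 2) * p ^ (m / E) :=
      Nat.mul_le_mul (k.trans (Nat.mul_le_mul_left 2 (Nat.pow_le_pow_left l _))) a2
    _ = _ := by rw [mul_assoc, ← pow_succ]; congr 2; omega

theorem num_mid : ∀ E < 512, 10 ≤ E → E ≠ 16 → ∃ r ∈ [2, 3, 6, 7, 10, 11, 13, 17, 29],
    (r ∣ E ∨ r = 2) ∧ 4 * (E ^ kap E * E ^ 2) ≤ 2 * (r + 1) ^ (E - 2) := by decide +kernel

theorem num_big {E : ℕ} (h : 512 ≤ E) : 40 * (E ^ kap E * E ^ 2) ^ 4 ≤ 3 ^ (E - 8) := by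
  by_cases e : E < 2048
  · exact (by decide +kernel :
      ∀ E < 2048, 512 ≤ E → 40 * (E ^ kap E * E ^ 2) ^ 4 ≤ 3 ^ (E - 8)) E e h
  have k : kap E = 2 * Nat.log 2 E + 1 := by unfold kap; split_ifs <;> omega
  have h1 := Nat.lt_pow_succ_log_self (by norm_num : 1 < 2) E
  have h2 := Nat.pow_log_le_self 2 (show E ≠ 0 by omega)
  have h3 := Nat.le_log_of_pow_le (by norm_num : 1 < 2) (show 2 ^ 11 ≤ E by omega)
  rw [k]
  generalize Nat.log 2 E = L at *
  have key : ∀ n, 11 ≤ n → 6 + (n + 1) * (8 * n + 12) + 8 ≤ 2 ^ n := fun n hn => by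
    induction n, hn using Nat.le_induction with
    | base => norm_num
    | succ n hn ih => rw [pow_succ]; nlinarith
  calc 40 * (E ^ (2 * L + 1) * E ^ 2) ^ 4 = 40 * E ^ (8 * L + 12) := by ring
    _ ≤ 2 ^ 6 * (2 ^ (L + 1)) ^ (8 * L + 12) :=
      Nat.mul_le_mul (by norm_num) (Nat.pow_le_pow_left h1.le _)
    _ ≤ 2 ^ (E - 8) := by
      rw [← pow_mul, ← pow_add]
      exact Nat.pow_le_pow_right two_pos (by have := key L h3; omega)
    _ ≤ _ := Nat.pow_le_pow_left (by norm_num) _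

end Cfsg.Agent.P23
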