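/-
P23: the primitive case.
-/
import Cfsg.Agent.P23.P1
import Cfsg.Agent.P23.Fix
import Cfsg.Agent.P23.O

set_option autoImplicit false
set_option linter.style.haveILetI false
set_option linter.unusedSectionVars false

namespace Cfsg.Agent.P23

open Subgroup Cfsg Cfsg.Agent Cfsg.Agent.FT Cfsg.Agent.H5 Cfsg.Agent.H7.Hk Module
open Cfsg.Agent.H1 (der der_le der_mono der_anti der_succ)
open Cfsg.Agent.H5.KRel (Fpf)
open Cfsg.Agent.H9 (rep_mul_apply rep_inv_apply rep_apply_inv)

universe u v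

variable {p : ℕ} [hp : Fact p.Prime] {Γ : Type u} {W : Type v} [Group Γ] [Finite Γ]
  [Group.IsSolvable Γ] [AddCommGroup W] [Module (ZMod p) W] [Finite W] [Nontrivial W]
  {σ : Γ →* End (ZMod p) W} {E s : ℕ} {D X : Subgroup Γ}

/-- Stabilizers of nonzero vectors have derived length at most `a`. -/
def Nz (σ : Γ →* End (ZMod p) W) (a : ℕ) : Prop :=
  ∀ w, w ≠ 0 → ∀ S : Subgroup Γ, (∀ s ∈ S, σ s w = w) → der S a = ⊥

theorem ncard_nz : ({0}ᶜ : Set W).ncard = Nat.card W - 1 := by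
  have := Set.ncard_add_ncard_compl ({0} : Set W)
  rw [Set.ncard_singleton] at this
  omega

theorem Nz.five {a : ℕ} (h : Nz σ a) (k : 4 * Nat.card Γ < Nat.card W - 1) : Vec σ 5 a := by
  obtain ⟨w, w1, w2⟩ := ineq σ {0}ᶜ 4 (ncard_nz (W := W) ▸ k)
  exact ⟨w, w2, fun i => h _ (w1 i)⟩

theorem Nz.two {a : ℕ} (h : Nz σ a) (k : ¬ Nat.card W - 1 ∣ Nat.card Γ) : Vec σ 2 a := by
  letI : MulAction Γ W := MulAction.compHom W σ
  obtain ⟨w, w0⟩ := exists_ne (0 : W)
  obtain ⟨v, v0, hv⟩ : ∃ v, v ≠ 0 ∧ ∀ g, σ g w ≠ v := by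
    by_contra! c
    refine k ?_
    rw [← ncard_nz, show ({0}ᶜ : Set W) = MulAction.orbit Γ w from Set.Subset.antisymm c (by
      rintro _ ⟨g, rfl⟩ e
      exact w0 (H9.rep_eq_zero σ g e)), ← MulAction.index_stabilizer]
    exact index_dvd_card _
  refine ⟨![w, v], fun i j g e => ?_, fun i => h _ (by fin_cases i <;> assumption)⟩
  fin_cases i <;> fin_cases j
  · rfl
  · exact absurd e (hv g)
  · exact absurd ((congrArg (σ g⁻¹) e).symm.trans (rep_inv_apply σ g v)) (hv _)
  · rfl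

theorem vec_dl {a : ℕ} (h : DL Γ a) : Vec σ 2 a := by
  obtain ⟨w, w0⟩ := exists_ne (0 : W)
  refine ⟨![0, w], fun i j g e => ?_, fun _ S _ => eq_bot_iff.2 (h ▸ der_mono le_top a)⟩
  fin_cases i <;> fin_cases j
  · rfl
  · exact absurd (e.symm.trans (map_zero _)) w0
  · exact absurd (H9.rep_eq_zero σ g e) w0
  · rfl

variable (hf : Fpf σ) (h : Str p (finrank (ZMod p) W) D X E s)
include hf h

theorem inf_D {w : W} (w0 : w ≠ 0) {S : Subgroup Γ} (hS : ∀ s ∈ S, σ s w = w) : S ⊓ D = ⊥ :=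
  eq_bot_iff.2 fun d hd => hf D h.nD (h.DX.trans h.XC) d hd.2 w w0 (hS d hd.1)

theorem step {w : W} (w0 : w ≠ 0) {S : Subgroup Γ} (hS : ∀ s ∈ S, σ s w = w) {L : ℕ}
    (l : der S L ≤ X) : der S (L + 1) = ⊥ :=
  eq_bot_iff.2 (inf_D hf h w0 hS ▸ le_inf (der_le _ _) ((commutator_mono l l).trans h.XX))

theorem nz_of {L : ℕ} (l : der ⊤ L ≤ X) : Nz σ (L + 1) :=
  fun _ w0 _ hS => step hf h w0 hS ((der_mono le_top L).trans l)

theorem nz8 (e : E = 8) : Nz σ 6 := by
  intro w w0 S hS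
  have := h.nD
  have := h.nX
  by_cases c : Ch D X 2 3
  swap
  · refine eq_bot_iff.2 (nz_of hf h (L := 4) (h.derL (by norm_num) fun Y q n a b => ?_) w w0 S hS ▸
      der_anti _ (by norm_num))
    obtain ⟨rfl, -⟩ := h.cases16 (by rw [e]; norm_num) a b
    have k : n ≤ 3 := (Nat.pow_dvd_pow_iff_le_right (by norm_num)).1
      (show 2 ^ n ∣ 2 ^ 3 from (h.dvdE a b).trans e.dvd)
    obtain ⟨Z, _, π, hs, e', l⟩ := b.lin
    have := Finite.of_surjective π hs
    have := Group.isSolvable_of_surjective hs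
    refine e' ▸ (c8 pg b.prime b.pos (lt_of_le_of_ne (Nat.pow_le_pow_right two_pos k) fun r => c ?_)
      l).le_ker π ⊤
    obtain rfl := h.eq_of a b (r.trans e.symm)
    rwa [Nat.pow_right_injective le_rfl (show 2 ^ n = 2 ^ 3 from r)] at b
  obtain ⟨Z, _, π, hs, e', l⟩ := c.lin
  have := Finite.of_surjective π hs
  have := Group.isSolvable_of_surjective hs
  have cC : ∀ n, 1 ≤ n → der S n ≤ π.ker → der S n ≤ X := fun n a b =>
    h.cen ▸ le_inf ((der_mono le_top n).trans ((der_anti _ a).trans h.der1)) (e' ▸ b)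
  by_cases A0 : S ⊓ X = ⊥
  · exact eq_bot_iff.2 (A0 ▸ le_inf (der_le _ _) (cC 6 (by norm_num) ((t26 pg l).le_ker π S)))
  refine step hf h w0 hS (cC 5 (by norm_num) ((H1.der_le_ker_iff π S 5).2 ?_))
  have n1 : S.map π ≠ ⊤ := fun r => by
    have r1 : S ⊔ π.ker = ⊤ := by rw [← comap_map_eq, r, comap_top]
    rcases c.irr (S ⊓ X ⊔ D) le_sup_right (sup_le inf_le_right h.DX) (r1 ▸ sup_le
      (H1.le_normalizer_sup (H1.le_normalizer_inf (le_norm_self S) lnn) lnn)
      (comm_le_left_iff.1 (((commutator_mono (sup_le inf_le_right h.DX) e'.le).trans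
        (le_centMod_iff.1 le_rfl).2).trans le_sup_right))) with k | k
    · exact A0 (eq_bot_iff.2 (inf_D hf h w0 hS ▸ le_inf inf_le_left (le_sup_left.trans k.le)))
    · have k1 : S ⊓ X ≤ 𝐂(X) := by
        nth_rewrite 2 [← k]
        rw [cent_sup]
        exact le_inf (comm_eq_bot_iff.1 (step hf h w0 (S := S ⊓ X) (fun s hs => hS s hs.1)
          (L := 0) inf_le_right)) (inf_le_right.trans h.XC)
      exact A0 (eq_bot_iff.2 (inf_D hf h w0 hS ▸ le_inf inf_le_left
        fun x hx => h.XZ x hx.2 (k1 hx)))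
  have n2 := (S.map π).card_mul_index
  have n3 := o26 l
  have n4 : 2 ≤ (S.map π).index := by
    have := index_eq_one.not.2 n1
    have := index_ne_zero_of_finite (H := S.map π)
    omega
  rw [H1.der_eq_bot_iff, ← H1.der_top]
  exact oStmt _ (by nlinarith)

theorem le_D {r : ℕ} (hE : E ≠ 1) (hr : r ∈ [2, 3, 6, 7, 10, 11, 13, 17, 29])
    (e : r ∣ E ∨ r = 2) : r ≤ 𝐨(D) := by
  rcases e with e | rfl
  · refine Nat.le_of_dvd Nat.card_pos ?_
    have two : ∀ q, q.Prime → Nat.Coprime 2 q → 2 * q ∣ E → 2 * q ∣ 𝐨(D) := fun q a b c =>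
      b.mul_dvd_of_dvd_of_dvd (h.pr 2 Nat.prime_two (dvd_of_mul_right_dvd c))
        (h.pr q a (dvd_of_mul_left_dvd c))
    simp only [List.mem_cons, List.not_mem_nil, or_false] at hr
    rcases hr with rfl | rfl | rfl | rfl | rfl | rfl | rfl | rfl | rfl <;>
      first | (refine h.pr _ ?_ e; norm_num; done) | exact two 3 (by norm_num) (by norm_num) e |
        exact two 5 (by norm_num) (by norm_num) e
  · obtain ⟨q, hq, k⟩ := Nat.exists_prime_and_dvd hE
    exact hq.two_le.trans (Nat.le_of_dvd Nat.card_pos (h.pr q hq k))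

theorem big (e : 512 ≤ E) : Vec σ 5 9 := by
  obtain ⟨a1, a2, -⟩ := h.card_le hp.out h.ord_kap
  have a3 := le_D hf h (r := 2) (by omega) (by simp) (.inr rfl)
  have a4 := num_big e
  have cW := Module.natCard_eq_pow_finrank (K := ZMod p) (V := W)
  rw [Nat.card_zmod] at cW
  have a5 : (p ^ (finrank (ZMod p) W / E)) ^ E ≤ Nat.card W := by
    rw [← pow_mul, cW]; exact Nat.pow_le_pow_right hp.out.pos (Nat.div_mul_le_self _ E)
  have a6 : 2 * (finrank (ZMod p) W / E) ≤ p ^ (finrank (ZMod p) W / E) :=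
    (Nat.mul_le_pow (by norm_num) _).trans (Nat.pow_le_pow_left hp.out.two_le _)
  have g0 : 0 < Nat.card Γ := Nat.card_pos
  have a7 : (5 * Nat.card Γ) ^ 4 ≤ Nat.card W := by
    generalize p ^ (finrank (ZMod p) W / E) = R at *
    generalize E ^ kap E * E ^ 2 = B at *
    have b1 : 2 * Nat.card Γ ≤ B * R ^ 2 := by
      calc _ ≤ 2 * (finrank (ZMod p) W / E * B * R) :=
            Nat.mul_le_mul_left 2 (a1.trans (Nat.mul_le_mul_left _ (Nat.sub_le _ _)))
        _ = 2 * (finrank (ZMod p) W / E) * (B * R) := by ring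
        _ ≤ R * (B * R) := Nat.mul_le_mul_right _ a6
        _ = _ := by ring
    refine le_trans ?_ a5
    calc (5 * Nat.card Γ) ^ 4 ≤ 40 * (2 * Nat.card Γ) ^ 4 := by
          rw [mul_pow, mul_pow, ← mul_assoc]; exact Nat.mul_le_mul_right _ (by norm_num)
      _ ≤ 40 * B ^ 4 * R ^ 8 := (Nat.mul_le_mul_left _ (Nat.pow_le_pow_left b1 4)).trans
          (le_of_eq (by ring))
      _ ≤ R ^ (E - 8) * R ^ 8 :=
          Nat.mul_le_mul_right _ (a4.trans (Nat.pow_le_pow_left (by omega) _))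
      _ = _ := by rw [← pow_add]; congr 1; omega
  have a8 := reg σ ⊤ (Nat.card W / (5 * Nat.card Γ)) fun g _ g1 =>
    (Nat.le_div_iff_mul_le (by omega)).2 ((Nat.pow_le_pow_iff_left (by norm_num : 4 ≠ 0)).1 (by
      rw [mul_pow, pow_succ (Nat.card W) 3]
      exact Nat.mul_le_mul (fix4 hf h g1) a7))
  have a9 := Nat.mul_div_le (Nat.card W) (5 * Nat.card Γ)
  have a10 : 5 * Nat.card Γ < (5 * Nat.card Γ) ^ 4 := lt_self_pow₀ (by omega) (by norm_num)
  rw [card_top] at a8
  rw [mul_assoc] at a9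
  obtain ⟨w, w1, w2⟩ := ineq σ {w : W | ∀ g ∈ (⊤ : Subgroup Γ), σ g w = w → g = 1} 4 (by omega)
  exact ⟨w, w2, fun i S hS => eq_bot_iff.2 ((H1.der_le _ _).trans
    fun g hg => w1 i g (mem_top g) (hS g hg))⟩

theorem not_dvd {r : ℕ} (hr : r.Prime) (r5 : 5 ≤ r) (a : r ∣ Nat.card W - 1) (b : 𝐂(D).index ≤ 4)
    (c : ¬ r ∣ E) (d : 𝐨(D) ≤ 4) (e : ∀ d ∈ (E ^ 2).properDivisors, ¬ E ^ 2 ≡ d [MOD r]) :
    ¬ Nat.card W - 1 ∣ Nat.card Γ := fun k => by
  rcases h.primes hr (a.trans k) with x | x | x | ⟨x, y, z, w⟩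
  · have := Nat.le_of_dvd h.pos x
    omega
  · exact c x
  · have := Nat.le_of_dvd Nat.card_pos x
    omega
  · exact e x (Nat.mem_properDivisors.2 ⟨y, z⟩) w

theorem peven : Vec σ 2 6 ∨ Vec σ 5 9 := by
  by_cases e8 : E < 8
  · exact .inl (vec_dl (s8 pg h e8))
  by_cases e512 : 512 ≤ E
  · exact .inr (big hf h e512)
  have := h.nD
  have cW := Module.natCard_eq_pow_finrank (K := ZMod p) (V := W)
  rw [Nat.card_zmod] at cW
  have p2 := hp.out.two_le
  have Em := h.Em
  have g0 : 0 < Nat.card Γ := Nat.card_pos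
  have n9 : Nz σ 9 := nz_of hf h (h.le_of (by norm_num) fun _ _ _ _ _ _ hq hn a _ l =>
    c512 pg hq hn (by have := Nat.le_of_dvd h.E1 a; omega) l)
  have lt : 1 * Nat.card Γ < p ^ finrank (ZMod p) W - 1 → ¬ Nat.card W - 1 ∣ Nat.card Γ :=
    fun a b => by have := Nat.le_of_dvd g0 b; omega
  have k1 : 1 ≤ finrank (ZMod p) W / E := Nat.div_pos Em h.E1
  have sm : ∀ {r k : ℕ}, 1 ≤ k → r ^ k < r * r → 2 ≤ r → k = 1 := fun {r k} a b c => by
    rw [← pow_two] at b
    have := (Nat.pow_lt_pow_iff_right c).1 b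
    omega
  by_cases e : E = 8
  · refine .inl ((nz8 hf h e).two ?_)
    subst e
    obtain ⟨a1, a2, a3, a4⟩ := h.card_le hp.out (h.ord_ob2 (by norm_num) fun c => absurd
      (h.dvdE le_rfl c) (by norm_num))
    have q2 := (h.pr' hp.out Nat.prime_two (by norm_num)).1
    by_cases r : 6 ≤ p ^ (finrank (ZMod p) W / 8)
    · exact lt (size' (by norm_num) Em p2 a1 r (by decide))
    have k := sm k1 (show p ^ _ < p * p by nlinarith [show 3 ≤ p by omega]) p2
    rw [k, pow_one] at a1 a2 r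
    rw [k] at a3
    have a5 : ∀ r j, r ≤ p → j ≤ finrank (ZMod p) W → r ^ j ≤ p ^ finrank (ZMod p) W :=
      fun r j x y => (Nat.pow_le_pow_left x j).trans (Nat.pow_le_pow_right (by omega) y)
    rw [show ob2 8 = 1296 from rfl] at a1
    by_cases p3 : p = 3
    swap
    · have := a5 5 8 (hp.out.five_le_of_ne_two_of_ne_three q2.symm p3) Em
      exact lt (by omega)
    by_cases m : 11 ≤ finrank (ZMod p) W
    · have := a5 3 11 p3.ge m
      exact lt (by omega)
    subst p3
    rcases (by omega : finrank (ZMod 3) W = 8 ∨ finrank (ZMod 3) W = 9 ∨ finrank (ZMod 3) W = 10)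
      with m | m | m
    · exact not_dvd hf h (r := 41) (by norm_num) (by norm_num) (by rw [cW, m]; decide) (by omega)
        (by decide) (by omega) (by decide)
    · exact not_dvd hf h (r := 13) (by norm_num) (by norm_num) (by rw [cW, m]; decide) (by omega)
        (by decide) (by omega) (by decide)
    · exact not_dvd hf h (r := 11) (by norm_num) (by norm_num) (by rw [cW, m]; decide) (by omega)
        (by decide) (by omega) (by decide)
  obtain ⟨a1, a2, a3, a4⟩ := h.card_le hp.out h.ord_kap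
  by_cases e9 : E = 9
  · subst e9
    refine .inl ((nz_of hf h (L := 5) (h.le_of (by norm_num)
      fun q n Z _ _ _ hq hn a _ l => ?_)).two ?_)
    · rcases pp_cases hq hn ((Nat.le_of_dvd h.E1 a).trans (by norm_num)) with
        rfl | ⟨rfl, rfl | rfl | rfl⟩ | ⟨rfl, rfl⟩ <;> try omega
      · exact (tq2 pg hq l).mono (by norm_num)
      · exact t34 pg l
    have q3 := h.pr 3 Nat.prime_three (by norm_num)
    have q4 := Nat.le_of_dvd Nat.card_pos q3
    by_cases r : 6 ≤ p ^ (finrank (ZMod p) W / 9)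
    · exact lt (size' (by norm_num) Em p2 a1 r (by decide))
    obtain rfl : p = 2 := by
      by_contra c
      have k := sm k1 (show p ^ _ < p * p by nlinarith [show 3 ≤ p by omega]) p2
      have s1 := h.s1
      have q5 := q3.trans h.dvd
      rw [k, pow_one] at a2 r
      rw [show s = 1 by omega, pow_one] at q5
      obtain rfl : p = 4 := by omega
      exact absurd hp.out (by norm_num)
    have k : finrank (ZMod 2) W / 9 = 2 := by
      have := (Nat.pow_lt_pow_iff_right (by norm_num : 1 < 2)).1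
        (show 2 ^ (finrank (ZMod 2) W / 9) < 2 ^ 3 by omega)
      have := (Nat.pow_lt_pow_iff_right (by norm_num : 1 < 2)).1
        (show 2 ^ 1 < 2 ^ (finrank (ZMod 2) W / 9) by omega)
      omega
    rw [k] at a1 a2 a3
    rw [show kap 9 = 4 from rfl] at a1
    by_cases m : 22 ≤ finrank (ZMod 2) W
    · have := Nat.pow_le_pow_right two_pos m
      exact lt (by omega)
    rcases (by omega : finrank (ZMod 2) W = 18 ∨ finrank (ZMod 2) W = 19 ∨
      finrank (ZMod 2) W = 20 ∨ finrank (ZMod 2) W = 21) with m | m | m | m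
    · exact not_dvd hf h (r := 7) (by norm_num) (by norm_num) (by rw [cW, m]; decide) (by omega)
        (by decide) (by omega) (by decide)
    · exact not_dvd hf h (r := 524287) (by norm_num) (by norm_num) (by rw [cW, m]; decide)
        (by omega) (by decide) (by omega) (by decide)
    · exact not_dvd hf h (r := 11) (by norm_num) (by norm_num) (by rw [cW, m]; decide) (by omega)
        (by decide) (by omega) (by decide)
    · exact not_dvd hf h (r := 7) (by norm_num) (by norm_num) (by rw [cW, m]; decide) (by omega)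
        (by decide) (by omega) (by decide)
  by_cases e16 : E = 16
  swap
  · obtain ⟨r, r1, r2, r3⟩ := num_mid E (by omega) (by omega) e16
    exact .inr (n9.five (cW ▸ size' (by omega) Em p2 a1
      ((Nat.add_le_add_right (le_D hf h (by omega) r1 r2) 1).trans a2) r3))
  subst e16
  have q3 := le_D hf h (r := 2) (by omega) (by simp) (.inr rfl)
  by_cases c : Ch D X 2 4 → (centMod X D).relIndex 𝐂(D) ≤ 7776
  · exact .inr (n9.five (cW ▸ size' (r := 3) (by omega) Em p2
      (h.card_le hp.out (h.ord_ob2 dvd_rfl c)).1 (by omega) (by decide)))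
  obtain ⟨c1, c2⟩ := Classical.not_imp.1 c
  obtain ⟨Z, _, π, hs, e', l⟩ := c1.lin
  have := Finite.of_surjective π hs
  have := Group.isSolvable_of_surjective hs
  have b1 := (t28 pg l).resolve_right fun k => c2
    ((relIndex_le_of_le_right le_top FiniteIndex.index_ne_zero).trans (by
      rw [relIndex_top_right, ← e', index_ker, MonoidHom.range_eq_top.2 hs, card_top]; omega))
  refine .inl ((nz_of hf h (L := 5) (h.cen ▸ le_inf ((der_anti _ (by norm_num)).trans h.der1)
    (e' ▸ b1.le_ker π ⊤))).two (lt ?_))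
  have b2 := (h.card_le hp.out (c1.le fun Z _ _ _ => o28).2).1
  by_cases r : 4 ≤ p ^ (finrank (ZMod p) W / 16)
  · exact size' (by norm_num) Em p2 b2 r (by decide)
  refine size (by norm_num) Em p2 b2 ?_
  have k := sm k1 (show p ^ _ < p * p by nlinarith) p2
  rw [k] at a2 ⊢
  exact le_trans (by decide) (Nat.pow_le_pow_left (show 3 ≤ p ^ 1 by omega) _)

end Cfsg.Agent.P23
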