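/-
P23: the primitive case for groups of odd order.
-/
import Cfsg.Agent.P23.T2
import Cfsg.Agent.P23.Fix

set_option autoImplicit false
set_option linter.style.haveILetI false
set_option linter.unusedSectionVars false

namespace Cfsg.Agent.P23

open Subgroup Cfsg Cfsg.Agent Cfsg.Agent.FT Module Cfsg.Agent.H7.Hk Cfsg.Agent.H5
open Cfsg.Agent.H1 (der der_mono der_le)
open Cfsg.Agent.H5.KRel (Fpf)
open Cfsg.Agent.H9 (rep_mul_apply)

universe u v

namespace PO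

section

variable {Y : Type u} [Group Y] [Finite Y] [Group.IsSolvable Y]

theorem l2 {q : ℕ} (hq : q.Prime) (h : Lin q 2 Y) (o : Odd (Nat.card Y)) : DL Y 1 := by
  obtain ⟨t, m, Γ, _, _, _, D, X, E, s, e, hS, d, -, a, b, -⟩ := h.blocks hq (by norm_num)
  obtain ⟨a1, a2, -⟩ := hS.odd (o.of_dvd_nat b)
  have a3 := Nat.odd_iff.1 (o.of_dvd_nat a)
  have a4 : t ≤ 2 := Nat.le_of_dvd two_pos (Dvd.intro _ e)
  obtain rfl : t = 1 := by omega
  have a5 := hS.Em
  have a6 := hS.dim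
  rw [Nat.odd_iff] at a1 a2
  obtain rfl : E = 1 := by omega
  exact d 1 pi1 le_rfl 1 (hS.dl_top rfl (by omega)).2

theorem l34 (h : Lin 3 4 Y) (o : Odd (Nat.card Y)) : DL Y 1 := by
  obtain ⟨t, m, Γ, _, _, _, D, X, E, s, e, hS, d, -, a, b, c⟩ :=
    h.blocks Nat.prime_three (by norm_num)
  obtain ⟨a1, a2, a7⟩ := hS.odd (o.of_dvd_nat b)
  have a3 := Nat.odd_iff.1 (o.of_dvd_nat a)
  have a4 : t ≤ 4 := Nat.le_of_dvd four_pos (Dvd.intro _ e)
  obtain rfl : t = 1 := by interval_cases t <;> omega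
  obtain rfl : m = 4 := by omega
  have a5 := hS.Em
  have a6 := hS.dim
  rw [Nat.odd_iff] at a1 a2 a7
  obtain rfl : E = 1 := by
    by_contra k
    obtain rfl : E = 3 := by omega
    exact (hS.pr' Nat.prime_three Nat.prime_three dvd_rfl).1 rfl
  refine d 1 pi1 le_rfl 1 (hS.dl_top rfl ?_).2
  by_contra k
  have b1 := hS.tot
  have b2 := hS.dvd
  have b3 := hS.s1
  have b4 := hS.sE
  have b5 := c 13 (by norm_num)
  rw [show 𝐂(D).index = 3 by omega] at b1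
  have b6 := hS.lt Nat.prime_three
  generalize 𝐨(D) = x at *
  have b7 : s ≤ 4 := by omega
  have key : ∀ s ≤ 4, ∀ x < 3 ^ s, x ∣ 3 ^ s - 1 ∧ x % 2 = 1 ∧ 3 ∣ x.totient → 13 ∣ x := by
    decide +kernel
  exact absurd (b5 (key s b7 x b6 ⟨b2, a7, b1⟩)) (by decide)

theorem l36 (h : Lin 3 6 Y) (o : Odd (Nat.card Y)) : Nat.card Y ≤ 4368 := by
  obtain ⟨t, m, Γ, _, _, _, D, X, E, s, e, hS, -, d, a, b, -⟩ :=
    h.blocks Nat.prime_three (by norm_num)
  obtain ⟨a1, a2, -⟩ := hS.odd (o.of_dvd_nat b)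
  have a3 := Nat.odd_iff.1 (o.of_dvd_nat a)
  have a4 : t ≤ 6 := Nat.le_of_dvd (by norm_num) (Dvd.intro _ e)
  have a5 := hS.Em
  have a6 := hS.dim
  have b3 := hS.s1
  have b4 := hS.sE
  have b6 := hS.lt Nat.prime_three
  rw [Nat.odd_iff] at a1 a2
  have a8 : m ≤ 6 := Nat.le_of_dvd (by norm_num) (Dvd.intro_left _ e)
  obtain rfl : E = 1 := by
    by_contra k
    obtain rfl | rfl : E = 3 ∨ E = 5 := by omega
    · exact (hS.pr' Nat.prime_three Nat.prime_three dvd_rfl).1 rfl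
    · have := (hS.pr' Nat.prime_three Nat.prime_five dvd_rfl).2
      obtain rfl : s = 1 := by omega
      omega
  rw [hS.ord_one rfl] at d
  have b7 : 3 ^ s ≤ 3 ^ m := Nat.pow_le_pow_right (by norm_num) (by omega)
  generalize 𝐨(D) = x at *
  generalize 𝐂(D).index = y at *
  obtain ⟨rfl, rfl⟩ | ⟨rfl, rfl⟩ : t = 1 ∧ m = 6 ∨ t = 3 ∧ m = 2 := by interval_cases t <;> omega
  · have := Nat.mul_le_mul (show y ≤ 6 by omega) (show x ≤ 728 by omega)
    simp only [Nat.factorial, pow_one] at d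
    omega
  · obtain rfl : y = 1 := by omega
    have := Nat.pow_le_pow_left (show x ≤ 8 by omega) 3
    simp only [Nat.factorial, one_mul] at d
    omega

end

theorem n1 {E : ℕ} (h : 3 ≤ E) : E ^ 6 ≤ 8 * 7 ^ (2 * E - 3) := by
  induction E, h using Nat.le_induction with
  | base => norm_num
  | succ E h ih =>
    have h1 : (3 * (E + 1)) ^ 6 ≤ (4 * E) ^ 6 := Nat.pow_le_pow_left (by omega) 6
    rw [show 2 * (E + 1) - 3 = 2 * E - 3 + 2 by omega, pow_add]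
    rw [mul_pow, mul_pow] at h1
    omega

theorem n2 {L : ℕ} (h : 5 ≤ L) : (L + 1) * (6 * L + 9) + 3 ≤ 3 ^ L := by
  induction L, h using Nat.le_induction with
  | base => norm_num
  | succ L h ih => rw [pow_succ]; nlinarith

theorem n3 {E L : ℕ} (h : 75 ≤ E) (h1 : 3 ^ L ≤ E) (h2 : E < 3 ^ (L + 1)) :
    E ^ (6 * L + 9) ≤ 8 * 7 ^ (E - 3) := by
  by_cases l : L < 5
  · have key : ∀ L < 5, ∀ E < 243, 75 ≤ E → 3 ^ L ≤ E → E ^ (6 * L + 9) ≤ 8 * 7 ^ (E - 3) := by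
      decide +kernel
    exact key L l E (h2.trans_le (Nat.pow_le_pow_right (by norm_num) (show L + 1 ≤ 5 by omega))) h h1
  have := n2 (not_lt.1 l)
  refine (Nat.pow_le_pow_left h2.le _).trans (le_trans ?_ (Nat.le_mul_of_pos_left _ (by norm_num)))
  rw [← pow_mul]
  exact (Nat.pow_le_pow_right (by norm_num) (by omega)).trans (Nat.pow_le_pow_left (by norm_num) _)

theorem n4 {A d c k : ℕ} (h : c ≤ 2 * d + 1) (h1 : A ^ 3 ≤ 8 * c ^ (k - 3)) (hk : 3 ≤ k) :
    (A * d) ^ 3 < (2 * d + 1) ^ k := by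
  obtain ⟨j, rfl⟩ := Nat.exists_eq_add_of_le' hk
  rw [Nat.add_sub_cancel] at h1
  have h2 : (2 * d) ^ 3 < (2 * d + 1) ^ 3 := Nat.pow_lt_pow_left (by omega) (by norm_num)
  have h3 := Nat.mul_le_mul_right (d ^ 3)
    (h1.trans (Nat.mul_le_mul_left 8 (Nat.pow_le_pow_left h j)))
  rw [mul_pow, pow_add]
  refine h3.trans_lt (lt_of_eq_of_lt (by ring) (Nat.mul_lt_mul_of_pos_left h2 (by positivity)))

variable {Γ : Type u} [Group Γ] [Finite Γ] [Group.IsSolvable Γ]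

theorem lin {D Y : Subgroup Γ} [D.Normal] {q n : ℕ} (h : Ch D Y q n) (o : Odd (Nat.card Γ)) :
    ∃ (Z : Type u) (_ : Group Z) (_ : Finite Z) (_ : Group.IsSolvable Z), Odd (Nat.card Z) ∧
      Lin q (2 * n) Z ∧ (DL Z 1 → der ⊤ 1 ≤ centMod Y D) ∧
      (centMod Y D).relIndex 𝐂(D) ≤ Nat.card Z := by
  obtain ⟨Z, _, π, hs, e, l⟩ := h.lin
  have := Finite.of_surjective π hs
  refine ⟨Z, _, this, Group.isSolvable_of_surjective hs,
    o.of_dvd_nat (card_dvd_of_surjective π hs), l, fun k => e ▸ k.le_ker π ⊤, ?_⟩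
  refine (relIndex_le_of_le_right le_top FiniteIndex.index_ne_zero).trans ?_
  rw [relIndex_top_right, ← e, index_ker, MonoidHom.range_eq_top.2 hs, card_top]

variable {p : ℕ} [hp : Fact p.Prime] {W : Type v} [AddCommGroup W] [Module (ZMod p) W] [Finite W]
  (σ : Γ →* End (ZMod p) W)

theorem reg' (R : Subgroup Γ) (a : ℕ) (h : ∀ g ∈ R, g ≠ 1 → {w : W | σ g w = w}.ncard ^ 3 ≤ a)
    (l : Nat.card R ^ 3 * a < Nat.card W ^ 3) : ∃ w, ∀ g ∈ R, σ g w = w → g = 1 := by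
  classical
  have h1 := reg σ R (Nat.findGreatest (fun x => x ^ 3 ≤ a) a) fun g hg g1 =>
    Nat.le_findGreatest (P := fun x => x ^ 3 ≤ a)
      ((Nat.le_self_pow (by norm_num) _).trans (h g hg g1)) (h g hg g1)
  have h2 := Nat.findGreatest_spec (P := fun x => x ^ 3 ≤ a) (Nat.zero_le a) (by simp)
  by_contra k
  rw [show {w : W | ∀ g ∈ R, σ g w = w → g = 1} = ∅ from Set.eq_empty_of_forall_notMem
    fun w hw => k ⟨w, hw⟩, Set.ncard_empty, zero_add] at h1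
  have h3 := Nat.pow_le_pow_left h1 3
  rw [mul_pow] at h3
  exact absurd (h3.trans (Nat.mul_le_mul_left _ h2)) (not_le.2 l)

theorem fin (o : Odd (Nat.card Γ)) (p2 : p ≠ 2) {R : Subgroup Γ} (hR : der ⊤ 1 ≤ R) {w : W}
    (w0 : w ≠ 0) (h : ∀ g ∈ R, σ g w = w → g = 1) : Vec σ 2 1 := by
  have k : ∀ g, σ g w ≠ -w := fun g e => by
    have h1 : ∀ n : ℕ, σ (g ^ n) w = (-1 : ZMod p) ^ n • w := fun n => by
      induction n with
      | zero => simp
      | succ n ih => rw [pow_succ', rep_mul_apply, ih, map_smul, e, pow_succ]; simp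
    have h2 := h1 (Nat.card Γ)
    rw [pow_card_eq_one', o.neg_one_pow, map_one, End.one_apply, neg_smul, one_smul,
      eq_neg_iff_add_eq_zero, ← two_smul (ZMod p), smul_eq_zero] at h2
    exact p2 ((Nat.prime_dvd_prime_iff_eq hp.out Nat.prime_two).1
      ((ZMod.natCast_eq_zero_iff 2 p).1 (h2.resolve_right w0)))
  refine ⟨![w, -w], fun i j g e => ?_, fun i S hS => eq_bot_iff.2 fun g hg =>
    h g (hR (der_mono le_top 1 hg)) ?_⟩
  · fin_cases i <;> fin_cases j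
    · rfl
    · exact (k g e).elim
    · exact (k g (by simpa [neg_eq_iff_eq_neg] using e)).elim
    · rfl
  · have := hS g (der_le S 1 hg)
    fin_cases i
    · exact this
    · simpa using this

end PO

open PO in
theorem podd (p : ℕ) [hp : Fact p.Prime] (Γ : Type u) (W : Type v) [Group Γ] [Finite Γ]
    [Group.IsSolvable Γ] [AddCommGroup W] [Module (ZMod p) W] [Finite W] [Nontrivial W]
    (σ : Γ →* End (ZMod p) W) (hf : Fpf σ) (o : Odd (Nat.card Γ)) (p2 : p ≠ 2) : Vec σ 2 1 := by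
  obtain ⟨D, X, E, s, h⟩ := exists_str hf
  have := h.nD
  by_cases e : E = 1
  · obtain ⟨w, w0⟩ := exists_ne (0 : W)
    exact fin σ o p2 ((h.one e).1 ▸ h.der1) w0 fun g hg => hf D h.nD (h.DX.trans h.XC) g hg w w0
  obtain ⟨-, oE, oD⟩ := h.odd o
  have hW : (2 * 𝐨(D) + 1) ^ E ≤ Nat.card W := by
    have h1 : 2 ∣ p ^ s - 1 := (Nat.Odd.sub_odd (hp.out.odd_of_ne_two p2).pow odd_one).two_dvd
    have h2 := Nat.one_lt_pow (Nat.pos_iff_ne_zero.1 h.s1) hp.out.one_lt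
    have h3 := Nat.le_of_dvd (by omega)
      (Nat.Coprime.mul_dvd_of_dvd_of_dvd oD.coprime_two_left h1 h.dvd)
    rw [Module.natCard_eq_pow_finrank (K := ZMod p) (V := W), Nat.card_zmod]
    refine (Nat.pow_le_pow_left (show _ ≤ p ^ s by omega) E).trans ?_
    rw [← pow_mul]
    exact Nat.pow_le_pow_right hp.out.pos h.sE
  have dq : ∀ q, q.Prime → q ∣ E → q ≤ 𝐨(D) := fun q a b => Nat.le_of_dvd Nat.card_pos (h.pr q a b)
  have q3 : ∀ q, q.Prime → q ∣ E → 3 ≤ q := fun q a b => by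
    have := a.two_le
    have := Nat.odd_iff.1 (oE.of_dvd_nat b)
    omega
  obtain ⟨r, r1, r2⟩ := Nat.exists_prime_and_dvd e
  have d3 : 3 ≤ 𝐨(D) := (q3 r r1 r2).trans (dq r r1 r2)
  have E3 : 3 ≤ E := (q3 r r1 r2).trans (Nat.le_of_dvd h.E1 r2)
  suffices k : ∃ R : Subgroup Γ, der ⊤ 1 ≤ R ∧ D ≤ R ∧ ∃ w, ∀ g ∈ R, σ g w = w → g = 1 by
    obtain ⟨R, a, b, w, hw⟩ := k
    refine fin σ o p2 a (fun w0 => ?_) hw
    rw [show D = ⊥ from eq_bot_iff.2 fun g hg => hw g (b hg) (by rw [w0, map_zero]), card_bot] at d3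
    omega
  have W0 : 0 < Nat.card W := Nat.card_pos
  by_cases c : ∀ Y q n, Y ≤ X → Ch D Y q n → n = 1 ∨ q = 3 ∧ n = 2
  · refine ⟨X, h.derL le_rfl fun Y q n a b => ?_, h.DX, reg' σ X _ (fun g => fix3 hf h o) ?_⟩
    · obtain ⟨Z, _, _, _, z1, z2, z3, -⟩ := lin b o
      rcases c Y q n a b with rfl | ⟨rfl, rfl⟩
      · exact z3 (l2 b.prime z2 z1)
      · exact z3 (l34 z2 z1)
    · have h1 := n4 (A := E ^ 2) (show 7 ≤ 2 * 𝐨(D) + 1 by omega) (k := 2 * E)
        (by rw [← pow_mul]; exact n1 E3) (by omega)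
      have h2 := Nat.pow_le_pow_left hW 2
      rw [← pow_mul, mul_comm E 2] at h2
      rw [← H1.card_mul_relIndex h.DX, h.idx, mul_comm 𝐨(D), pow_succ (Nat.card W) 2]
      exact Nat.mul_lt_mul_of_pos_right (h1.trans_le h2) W0
  refine ⟨𝐂(D), h.der1, h.DX.trans h.XC, reg' σ _ _ (fun g => fix32 hf h o) ?_⟩
  have hC : 𝐨(𝐂(D)) = (centMod X D).relIndex 𝐂(D) * E ^ 2 * 𝐨(D) :=
    Nat.eq_of_mul_eq_mul_left h.pos (by rw [index_mul_card, h.card]; ring)
  rw [pow_succ' (Nat.card W) 2, hC]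
  refine Nat.mul_lt_mul_of_pos_right (lt_of_lt_of_le ?_ hW) (pow_pos W0 2)
  push Not at c
  obtain ⟨Y, q, n, a, b, c1, c2⟩ := c
  have b1 := h.dvdE a b
  have b2 := b.pos
  have b3 : q ∣ E := (dvd_pow_self q (by omega)).trans b1
  have b4 := q3 q b.prime b3
  have b5 := dq q b.prime b3
  by_cases l : 75 ≤ E
  · have L1 := Nat.pow_log_le_self 3 (show E ≠ 0 by omega)
    have L2 := Nat.lt_pow_succ_log_self (show 1 < 3 by norm_num) E
    generalize Nat.log 3 E = L at L1 L2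
    have h1 := h.ord (fun x => x ^ (2 * L + 1)) (by simp) (fun a b _ => (mul_pow _ _ _).ge)
      fun Y q n a b => b.sp.trans (by
        have b1 := h.dvdE a b
        have b2 := q3 q b.prime ((dvd_pow_self q (Nat.pos_iff_ne_zero.1 b.pos)).trans b1)
        have b3 := (Nat.pow_lt_pow_iff_right (show 1 < 3 by norm_num)).1
          (((Nat.pow_le_pow_left b2 n).trans (Nat.le_of_dvd h.E1 b1)).trans_lt L2)
        rw [← pow_mul]
        exact Nat.pow_le_pow_right (by omega) (by nlinarith))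
    refine n4 (show 7 ≤ 2 * 𝐨(D) + 1 by omega) (le_trans ?_ (n3 l L1 L2)) E3
    refine (Nat.pow_le_pow_left (Nat.mul_le_mul_right _ h1) 3).trans (le_of_eq ?_)
    ring
  have b6 : q ^ n < 75 := (Nat.le_of_dvd h.E1 b1).trans_lt (not_le.1 l)
  have b7 : n < 4 := (Nat.pow_lt_pow_iff_right (show 1 < 3 by norm_num)).1
    (((Nat.pow_le_pow_left b4 n).trans_lt b6).trans (by norm_num))
  have b8 : q < 9 := (Nat.pow_lt_pow_iff_left two_ne_zero).1
    (((Nat.pow_le_pow_right (by omega) (show 2 ≤ n by omega)).trans_lt b6).trans (by norm_num))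
  have b9 := Nat.odd_iff.1 (oE.of_dvd_nat b3)
  have b0 : 25 ≤ q ^ n → q ^ n = E := fun k => by
    obtain ⟨c, rfl⟩ := b1
    have := Nat.odd_iff.1 (oE.of_dvd_nat (Dvd.intro_left _ rfl))
    have : c < 3 := by by_contra; nlinarith
    obtain rfl : c = 1 := by omega
    rw [mul_one]
  obtain ⟨Z, _, _, _, z1, z2, -, z4⟩ := lin b o
  have z5 := b.sp
  obtain ⟨rfl, rfl⟩ | ⟨rfl, rfl⟩ | ⟨rfl, rfl⟩ : q = 5 ∧ n = 2 ∨ q = 3 ∧ n = 3 ∨ q = 7 ∧ n = 2 := by
    interval_cases q <;> interval_cases n <;> simp_all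
  all_goals
    obtain rfl := h.eq_of a b (b0 (by norm_num))
    obtain rfl := b0 (by norm_num)
  · exact n4 (c := 11) (by omega) ((Nat.pow_le_pow_left (Nat.mul_le_mul_right _
      (z4.trans (o54 z2))) 3).trans (by norm_num)) E3
  · exact n4 (c := 7) (by omega) ((Nat.pow_le_pow_left (Nat.mul_le_mul_right _
      (z4.trans (l36 z2 z1))) 3).trans (by norm_num)) E3
  · exact n4 (c := 15) (by omega) ((Nat.pow_le_pow_left (Nat.mul_le_mul_right _ z5) 3).trans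
      (by norm_num)) E3

end Cfsg.Agent.P23
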