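/-
P23: vectors with small stabilizers for solvable linear groups.
-/
import Cfsg.Agent.P23.P2
import Cfsg.Agent.P23.POdd
import Cfsg.Agent.P23.C2
import Cfsg.Agent.P23.C1

set_option autoImplicit false

namespace Cfsg.Agent.P23

open Subgroup Cfsg Cfsg.Agent Cfsg.Agent.FT Module
open Cfsg.Agent.H1 (der)

universe u v

theorem col : ColStmt.{u} := colStmt affStmt (primColStmt (pi7 pg) ordStmt)

theorem main {G : Type u} {V : Type v} [Group G] [Finite G] [Group.IsSolvable G] {p : ℕ}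
    [Fact p.Prime] [AddCommGroup V] [Module (ZMod p) V] [Finite V] [DistribMulAction G V]
    [FaithfulSMul G V]
    (hcr : ∀ W : Submodule (ZMod p) V, (∀ (g : G) (w : V), w ∈ W → g • w ∈ W) →
      ∃ W' : Submodule (ZMod p) V, (∀ (g : G) (w : V), w ∈ W' → g • w ∈ W') ∧ IsCompl W W') :
    (∃ v : V, derivedSeries ↥(MulAction.stabilizer G v) 9 = ⊥) ∧
    (Odd (Nat.card G) → p ≠ 2 → ∃ v : V, IsMulCommutative ↥(MulAction.stabilizer G v)) := by
  let ρ : G →* End (ZMod p) V :=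
    { toFun := fun g => (DistribMulAction.toAddMonoidHom V g).toZModLinearMap p
      map_one' := LinearMap.ext fun w => one_smul G w
      map_mul' := fun a b => LinearMap.ext fun w => mul_smul a b w }
  have fin : ∀ D, (∃ v ∈ (⊤ : Submodule (ZMod p) V), ∀ S : Subgroup G, (∀ s ∈ S, ρ s v = v) →
      ∀ g ∈ der S D, ∀ u ∈ (⊤ : Submodule (ZMod p) V), ρ g u = u) →
      ∃ v : V, der (MulAction.stabilizer G v) D = ⊥ := fun D ⟨v, _, h⟩ =>
    ⟨v, eq_bot_iff.2 fun g hg => eq_of_smul_eq_smul (α := V) fun u =>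
      (h _ (fun _ hs => hs) g hg u trivial).trans (one_smul G u).symm⟩
  refine ⟨?_, fun o p2 => ?_⟩
  · obtain ⟨v, h⟩ := fin 9 (assemble ρ hcr (fun N Γ W _ _ _ _ _ _ π σ hs hf => by
      have := Group.isSolvable_of_surjective hs
      obtain ⟨D, X, E, s, h⟩ := exists_str hf
      rcases peven hf h with k | k
      · exact ⟨2, 6, 3, rfl, k, (col G N).1⟩
      · exact ⟨5, 9, 0, rfl, k, (col G N).2.1⟩) ⊤ fun _ _ _ => trivial)
    exact ⟨v, H1.der_eq_bot_iff.1 h⟩
  · obtain ⟨v, h⟩ := fin 1 (assemble ρ hcr (fun N Γ W _ _ _ _ _ _ π σ hs hf => by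
      have := Group.isSolvable_of_surjective hs
      exact ⟨2, 1, 0, rfl, podd p Γ W σ hf (o.of_dvd_nat ((card_dvd_of_surjective π hs).trans
        (card_subgroup_dvd_card N))) p2, (col G N).2.2 o⟩) ⊤ fun _ _ _ => trivial)
    exact ⟨v, isMulComm_iff_le_cent.2 (comm_eq_bot_iff.1 h)⟩

end Cfsg.Agent.P23
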